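import Mathlib
import Cfsg.Prelude.Def_Transfer
import Cfsg.Prelude.Def_CaseTheorems

/-!
# S4404 (N-group style lemma): shared definitions for the pieces

`Cfg M V x`: `M` is a normal elementary abelian 2-subgroup, `x` is a 3-element whose cube centralizes `M`,
and `V = [x, M] = {x m x⁻¹ m⁻¹ : m ∈ M}` has order 4.
`U M c` is the subgroup `[c, M]` generated by the commutators `c m c⁻¹ m⁻¹`, `m ∈ M`.
-/

set_option autoImplicit false

namespace Cfsg.Agent.Helper16.NG

variable {S : Type*} [Group S]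

/-- The configuration of S4404 in elementwise form. -/
structure Cfg (M V : Subgroup S) (x : S) : Prop where
  normal : M.Normal
  comm : ∀ a ∈ M, ∀ b ∈ M, a * b = b * a
  sq : ∀ a ∈ M, a ^ 2 = 1
  cube : ∀ m ∈ M, x ^ 3 * m * (x ^ 3)⁻¹ = m
  x3 : ∃ k : ℕ, orderOf x = 3 ^ k
  hV : ∀ v : S, v ∈ V ↔ ∃ m ∈ M, v = x * m * x⁻¹ * m⁻¹
  card : Nat.card V = 4

/-- The commutator subgroup `[c, M]`. -/
def U (M : Subgroup S) (c : S) : Subgroup S :=
  Subgroup.closure {u : S | ∃ m ∈ M, u = c * m * c⁻¹ * m⁻¹}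

end Cfsg.Agent.Helper16.NG
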