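import Cfsg.Agent.Helper16.S4Core

/-!
# Further definitions for S3702: the centralizer data of `x`, the counting sets and the class
function `s4Theta` (`= 3` on the conjugates of the elements of order 9 of `H` and of the elements
`x w`, `w ∈ W = O_{3'}(C_G(x))`, and `0` elsewhere).
-/

set_option autoImplicit false

namespace Cfsg.Agent.Helper16

open DihedralGroup

/-- the centralizer `P₂ = ⟨x, z⟩` of `x` in the model (order 9) -/
def sP (a : SM) : Prop := a * sx = sx * a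

instance : DecidablePred sP := fun a => by unfold sP; infer_instance

/-- the class of `a` in `J A₄ / J V ≅ ZMod 3` (junk outside `J A₄`) -/
def kap (a : SM) : ZMod 3 := sRot a.d

/-- an element of `J` of weight 1 -/
def sj1 : SM := ⟨⟨(r 1, 1), 0⟩, 1⟩
/-- an element of order 4 centralizing `sj1` -/
def sy0 : SM := ⟨⟨(sr 0, r 0), 0⟩, sr 0⟩

section

variable {G : Type*} [Group G]

/-- `W` is a normal complement of `φ P₂` in `C_G(φ x)`, of order prime to 3. -/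
structure XData (φ : SM →* G) (W : Subgroup G) : Prop where
  le : ∀ w ∈ W, w * φ sx = φ sx * w
  norm : ∀ c : G, c * φ sx = φ sx * c → ∀ w ∈ W, c * w * c⁻¹ ∈ W
  cop : (Nat.card W).Coprime 3
  dec : ∀ c : G, c * φ sx = φ sx * c → ∃ w ∈ W, ∃ p : SM, sP p ∧ c = w * φ p

/-- the `t` conjugating `g` into `φ (J A₄ ∖ J V)` -/
def s4N1 (φ : SM →* G) (g : G) : Set G := {t | ∃ m : SM, sR m ∧ t⁻¹ * g * t = φ m}

/-- the `t` conjugating `g` into `φ (P₂ ∖ ⟨z⟩)` -/
def s4NP (φ : SM →* G) (g : G) : Set G := {t | ∃ m : SM, sP m ∧ kap m ≠ 0 ∧ t⁻¹ * g * t = φ m}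

/-- the `t` conjugating `g` into `C_G(x) ∖ W ⟨z⟩` -/
def s4NC (φ : SM →* G) (W : Subgroup G) (g : G) : Set G :=
  {t | ∃ w ∈ W, ∃ m : SM, sP m ∧ kap m ≠ 0 ∧ t⁻¹ * g * t = w * φ m}

/-- the class function `Ind (1 - ω₁) + Ind (1 - ω_C) - Ind (1 - ω_P)` in counting form -/
noncomputable def s4Theta (φ : SM →* G) (W : Subgroup G) (g : G) : ℂ :=
  3 / 2 * ((Nat.card (s4N1 φ g) : ℂ) / 324 +
    (Nat.card (s4NC φ W g) : ℂ) / (9 * (Nat.card W : ℂ)) - (Nat.card (s4NP φ g) : ℂ) / 9)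

/-- `g` is conjugate to an element of order 9 of `H` -/
def IsN9 (φ : SM →* G) (g : G) : Prop := ∃ t : G, ∃ e : SM, sR e ∧ e ^ 3 ≠ 1 ∧ t⁻¹ * g * t = φ e

/-- `g` is conjugate to an element `x w`, `w ∈ W` -/
def IsXW (φ : SM →* G) (W : Subgroup G) (g : G) : Prop :=
  ∃ t : G, ∃ w ∈ W, t⁻¹ * g * t = φ sx * w

/-- the linear character `ζ ^ κ` -/
noncomputable def s4Lin {A : Type*} [Group A] (κ : A →* Multiplicative (ZMod 3)) (ζ : ℂˣ) :
    A → ℂ :=
  fun a => ((ζ ^ (Multiplicative.toAdd (κ a)).val : ℂˣ) : ℂ)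

end

end Cfsg.Agent.Helper16
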