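import Mathlib
import Cfsg.Prelude.Def_Solvable

set_option autoImplicit false

namespace Cfsg.Agent.Helper16

section NormLemma

/-- Norm map: in a finite group `H` with a commutative normal subgroup `S`, every `s ∈ S` has a
norm `b ∈ S` that is central in `H` and satisfies `f b = f s ^ [H : S]` for every homomorphism
`f` into a commutative group. -/
theorem norm_central {H : Type*} [Group H] [Finite H] (S : Subgroup H) [S.Normal]
    (hS : ∀ a ∈ S, ∀ b ∈ S, a * b = b * a)
    {A : Type*} [Group A] (hA : ∀ x y : A, x * y = y * x) (f : H →* A) (s : H) (hs : s ∈ S) :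
    ∃ b ∈ S, (∀ h : H, h * b * h⁻¹ = b) ∧ f b = f s ^ S.index := by
  classical
  have : Fintype (H ⧸ S) := Fintype.ofFinite _
  let _ : CommGroup S :=
    { (inferInstance : Group S) with mul_comm := fun a b => Subtype.ext (hS a a.2 b b.2) }
  let φ : H →* MulAut S := MulAut.conjNormal
  have hker : S ≤ φ.ker := by
    intro x hx
    rw [MonoidHom.mem_ker]
    ext y
    have := hS x hx y y.2
    simp only [φ, MulAut.conjNormal_apply, MulAut.one_apply]
    rw [this, mul_inv_cancel_right]
  let φ' : H ⧸ S →* MulAut S := QuotientGroup.lift S φ hker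
  have hφ' : ∀ (h : H) (y : S), ((φ' (QuotientGroup.mk h) y : S) : H) = h * y * h⁻¹ := by
    intro h y
    simp [φ', φ]
  let b : S := ∏ q : H ⧸ S, φ' q ⟨s, hs⟩
  refine ⟨b, b.2, ?_, ?_⟩
  · intro h
    have h1 : φ' (QuotientGroup.mk h) b = b := by
      simp only [b]
      rw [map_prod]
      refine Fintype.prod_equiv (Equiv.mulLeft (QuotientGroup.mk h)) _ _ (fun q => ?_)
      simp [map_mul]
    rw [← hφ' h b, h1]
  · have h3 : ∀ T : Finset (H ⧸ S),
        f ((∏ q ∈ T, φ' q ⟨s, hs⟩ : S) : H) = f s ^ T.card := by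
      intro T
      induction T using Finset.induction_on with
      | empty => simp
      | insert q T hq ih =>
        rw [Finset.prod_insert hq, Finset.card_insert_of_notMem hq, Subgroup.coe_mul, map_mul,
          ih, pow_succ']
        congr 1
        induction q using QuotientGroup.induction_on with
        | H h =>
          rw [hφ', map_mul, map_mul, map_inv, hA (f h), mul_assoc, mul_inv_cancel, mul_one]
    have h4 := h3 Finset.univ
    rw [Finset.card_univ, ← Nat.card_eq_fintype_card, ← Subgroup.index_eq_card] at h4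
    exact h4

/-- In a finite group with commutative Sylow `2`-subgroup `Q`, every `s ∈ Q` can be replaced by
an element `b ∈ Q` all of whose powers are isolated in `Q`, and with `f b = f s ^ r`, `r` odd,
for a given homomorphism `f` into a commutative group. -/
theorem exists_isolated_lift {H : Type*} [Group H] [Finite H] (Q : Sylow 2 H)
    (hQ : ∀ a ∈ Q, ∀ b ∈ Q, a * b = b * a) {A : Type*} [Group A]
    (hA : ∀ x y : A, x * y = y * x) (f : H →* A) (s : H) (hs : s ∈ Q) :
    ∃ b ∈ Q, ∃ r : ℕ, Odd r ∧ f b = f s ^ r ∧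
      ∀ (k : ℕ) (g : H), g * b ^ k * g⁻¹ ∈ Q → g * b ^ k * g⁻¹ = b ^ k := by
  classical
  have : Fact (Nat.Prime 2) := ⟨Nat.prime_two⟩
  have : IsMulCommutative (Q : Subgroup H) := ⟨⟨fun a b => Subtype.ext (hQ a a.2 b b.2)⟩⟩
  obtain ⟨N, hN⟩ : ∃ N : Subgroup H, N = Subgroup.normalizer (Q : Set H) := ⟨_, rfl⟩
  have hQN : (Q : Subgroup H) ≤ N := hN ▸ Subgroup.le_normalizer
  let S : Subgroup N := (Q : Subgroup H).subgroupOf N
  have : S.Normal := by
    subst hN
    exact Subgroup.normal_in_normalizer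
  have hScomm : ∀ a ∈ S, ∀ b ∈ S, a * b = b * a := by
    intro a ha b hb
    exact Subtype.ext (hQ a (Subgroup.mem_subgroupOf.1 ha) b (Subgroup.mem_subgroupOf.1 hb))
  obtain ⟨b₀, hb₀S, hb₀c, hb₀f⟩ := norm_central S hScomm hA (f.comp N.subtype) ⟨s, hQN hs⟩
    (Subgroup.mem_subgroupOf.2 hs)
  have hb₀Q : (b₀ : H) ∈ Q := Subgroup.mem_subgroupOf.1 hb₀S
  refine ⟨(b₀ : H), hb₀Q, S.index, ?_, ?_, ?_⟩
  · have h1 : S.index = (Q : Subgroup H).relIndex N := rfl
    have h2 : (Q : Subgroup H).relIndex N ∣ (Q : Subgroup H).index :=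
      Subgroup.relIndex_dvd_index_of_le hQN
    have h3 : ¬ 2 ∣ (Q : Subgroup H).index := Q.not_dvd_index
    rw [h1, ← Nat.not_even_iff_odd, even_iff_two_dvd]
    exact fun h => h3 (h.trans h2)
  · simpa using hb₀f
  · intro k g hg
    have hcentral : ∀ n ∈ N, n * (b₀ : H) * n⁻¹ = b₀ := by
      intro n hn
      have := hb₀c ⟨n, hn⟩
      exact congrArg Subtype.val this
    obtain ⟨n, hn, hgn⟩ := Q.conj_eq_normalizer_conj_of_mem ((b₀ : H) ^ k) g⁻¹
      (pow_mem hb₀Q k) (by simpa using hg)
    rw [inv_inv] at hgn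
    rw [hgn]
    have hc : Commute (b₀ : H) n := by
      have h5 := hcentral n (hN ▸ hn)
      show (b₀ : H) * n = n * b₀
      calc (b₀ : H) * n = (n * b₀ * n⁻¹) * n := by rw [h5]
        _ = n * b₀ := by group
    rw [mul_assoc, (hc.pow_left k).eq, inv_mul_cancel_left]

end NormLemma

section Main

theorem zpowers_fix {G : Type*} [Group G] {α : MulAut G} {x : G} (hx : α x = x)
    (a : Subgroup.zpowers α) : (a : MulAut G) x = x := by
  have h : Subgroup.zpowers α ≤ MulAction.stabilizer (MulAut G) x := by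
    rw [Subgroup.zpowers_le]
    exact hx
  exact h a.2

/-- The subgroup `P × ⟨α⟩` of `G ⋊ ⟨α⟩`, for `α` fixing `P` pointwise. -/
def autExtSub {G : Type*} [Group G] (α : MulAut G) (P : Subgroup G)
    (hfix : ∀ x ∈ P, α x = x) :
    Subgroup (G ⋊[(Subgroup.zpowers α).subtype] (Subgroup.zpowers α)) where
  carrier := {x | x.left ∈ P}
  mul_mem' := by
    intro a b ha hb
    simp only [Set.mem_ofPred_eq, SemidirectProduct.mul_left, Subgroup.coe_subtype] at *
    rw [zpowers_fix (hfix _ hb) a.right]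
    exact mul_mem ha hb
  one_mem' := by simp
  inv_mem' := by
    intro a ha
    simp only [Set.mem_ofPred_eq, SemidirectProduct.inv_left, Subgroup.coe_subtype] at *
    rw [zpowers_fix (hfix _ (inv_mem ha)) a.right⁻¹]
    exact inv_mem ha

/-- **Automorphisms of `2`-power order centralising an abelian Sylow `2`-subgroup are inner**,
for groups with trivial centre and trivial odd core; the `Z*`-theorem is taken as a
hypothesis. -/
theorem aut_inner_of_fix_sylow.{u}
    (hZstar : ∀ (H : Type u) [Group H] [Finite H] (Q : Sylow 2 H) (t : H), orderOf t = 2 →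
      t ∈ Q → (∀ g : H, g * t * g⁻¹ ∈ Q → g * t * g⁻¹ = t) →
      ∃ N : Subgroup H, N.Normal ∧ Odd (Nat.card N) ∧ ∀ g : H, t * g * t⁻¹ * g⁻¹ ∈ N)
    {G : Type u} [Group G] [Finite G] (hZ : Subgroup.center G = ⊥)
    (hcore : Cfsg.pPrimeCore 2 G = ⊥) (P : Sylow 2 G)
    (hab : ∀ a ∈ P, ∀ b ∈ P, a * b = b * a) :
    ∀ (j : ℕ) (α : MulAut G), α ^ (2 ^ j) = 1 → (∀ x ∈ (P : Subgroup G), α x = x) →
      ∃ g : G, ∀ x : G, α x = g * x * g⁻¹ := by
  classical
  have : Fact (Nat.Prime 2) := ⟨Nat.prime_two⟩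
  intro j
  induction j with
  | zero =>
    intro α hα _
    refine ⟨1, fun x => ?_⟩
    rw [pow_zero, pow_one] at hα
    simp [hα]
  | succ j ih =>
    intro α hα hfix
    by_cases h1 : α ^ (2 ^ j) = 1
    · exact ih α h1 hfix
    have hord : orderOf α = 2 ^ (j + 1) := orderOf_eq_prime_pow h1 hα
    obtain ⟨A, hA⟩ : ∃ A : Subgroup (MulAut G), A = Subgroup.zpowers α := ⟨_, rfl⟩
    subst hA
    have hAcard : Nat.card (Subgroup.zpowers α) = 2 ^ (j + 1) := by
      rw [Nat.card_zpowers, hord]
    have hAcomm : ∀ x y : Subgroup.zpowers α, x * y = y * x := fun x y => mul_comm' x y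
    have hfin : Finite (G ⋊[(Subgroup.zpowers α).subtype] (Subgroup.zpowers α)) :=
      Finite.of_equiv _ SemidirectProduct.equivProd.symm
    have hEcard : Nat.card (G ⋊[(Subgroup.zpowers α).subtype] (Subgroup.zpowers α)) =
        Nat.card G * Nat.card (Subgroup.zpowers α) := by
      rw [Nat.card_congr SemidirectProduct.equivProd, Nat.card_prod]
    obtain ⟨S, hS⟩ : ∃ S : Subgroup (G ⋊[(Subgroup.zpowers α).subtype] (Subgroup.zpowers α)),
      S = autExtSub α P hfix := ⟨_, rfl⟩
    have hSmem : ∀ x, x ∈ S ↔ x.left ∈ (P : Subgroup G) := fun x => by rw [hS]; exact Iff.rfl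
    have hScomm : ∀ a ∈ S, ∀ b ∈ S, a * b = b * a := by
      intro a ha b hb
      rw [hSmem] at ha hb
      refine SemidirectProduct.ext ?_ ?_
      · simp only [SemidirectProduct.mul_left, Subgroup.coe_subtype]
        rw [zpowers_fix (hfix _ hb) a.right, zpowers_fix (hfix _ ha) b.right]
        exact hab _ ha _ hb
      · simp only [SemidirectProduct.mul_right]
        exact hAcomm _ _
    have hScard : Nat.card S = Nat.card P * Nat.card (Subgroup.zpowers α) := by
      rw [← Nat.card_prod]
      refine Nat.card_congr ⟨fun x => (⟨x.1.left, (hSmem _).1 x.2⟩, x.1.right),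
        fun y => ⟨⟨y.1.1, y.2⟩, (hSmem _).2 y.1.2⟩, fun x => rfl, fun y => rfl⟩
    have hSp : IsPGroup 2 S := by
      obtain ⟨n, hn⟩ := IsPGroup.iff_card.1 P.isPGroup'
      exact IsPGroup.of_card (n := n + (j + 1)) (by rw [hScard, hn, hAcard, ← pow_add])
    have hSidx : ¬ 2 ∣ S.index := by
      have h1 : Nat.card S * S.index = _ := Subgroup.card_mul_index S
      have h2 : Nat.card P * (P : Subgroup G).index = Nat.card G := Subgroup.card_mul_index _
      have h3 : S.index = (P : Subgroup G).index := by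
        have h4 : Nat.card S * S.index = Nat.card S * (P : Subgroup G).index := by
          rw [h1, hEcard, hScard, ← h2]; ring
        exact Nat.eq_of_mul_eq_mul_left Nat.card_pos h4
      rw [h3]; exact P.not_dvd_index
    obtain ⟨Q, hQS⟩ : ∃ Q : Sylow 2 (G ⋊[(Subgroup.zpowers α).subtype] (Subgroup.zpowers α)),
      (Q : Subgroup _) = S := ⟨hSp.toSylow hSidx, rfl⟩
    have hQ : ∀ x, x ∈ Q ↔ x.left ∈ (P : Subgroup G) := fun x => by
      have h2 : x ∈ Q ↔ x ∈ (Q : Subgroup _) := Iff.rfl
      rw [h2, hQS]; exact hSmem x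
    have hαA : α ∈ Subgroup.zpowers α := Subgroup.mem_zpowers α
    obtain ⟨s, hsdef⟩ : ∃ s : G ⋊[(Subgroup.zpowers α).subtype] (Subgroup.zpowers α),
      s = SemidirectProduct.inr ⟨α, hαA⟩ := ⟨_, rfl⟩
    have hs : s ∈ Q := by rw [hQ, hsdef]; simp
    obtain ⟨b, hbQ, r, hr, hbf, hbiso⟩ := exists_isolated_lift Q
      (fun a ha c hc => hScomm a (hQS ▸ ha) c (hQS ▸ hc)) hAcomm SemidirectProduct.rightHom s hs
    have hbr : b.right = ⟨α, hαA⟩ ^ r := by simpa [hsdef] using hbf
    obtain ⟨m, hm⟩ : ∃ m, orderOf b = 2 ^ m := by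
      have h2 : IsPGroup 2 Q := Q.isPGroup'
      obtain ⟨m, hm⟩ := h2 ⟨b, hbQ⟩
      have h3 : b ^ 2 ^ m = 1 := by simpa using congrArg Subtype.val hm
      obtain ⟨i, -, hi⟩ := (Nat.dvd_prime_pow Nat.prime_two).1 (orderOf_dvd_of_pow_eq_one h3)
      exact ⟨i, hi⟩
    have hαr : ∀ k : ℕ, α ^ (r * 2 ^ k) = 1 → j + 1 ≤ k := by
      intro k hk
      have h2 : 2 ^ (j + 1) ∣ r * 2 ^ k := by rw [← hord]; exact orderOf_dvd_of_pow_eq_one hk
      have hcop : Nat.Coprime (2 ^ (j + 1)) r := Nat.Coprime.pow_left _ (Nat.coprime_two_left.2 hr)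
      have h3 := hcop.dvd_of_dvd_mul_left h2
      exact (Nat.pow_dvd_pow_iff_le_right (by norm_num)).1 h3
    have hbrk : ∀ k : ℕ, ((b ^ k).right : MulAut G) = α ^ (r * k) := by
      intro k
      have h2 : (b ^ k).right = b.right ^ k := by
        have h3 := map_pow (SemidirectProduct.rightHom :
          G ⋊[(Subgroup.zpowers α).subtype] (Subgroup.zpowers α) →* _) b k
        simpa using h3
      rw [h2, hbr, ← pow_mul]; simp
    have hm0 : m ≠ 0 := by
      rintro rfl
      rw [pow_zero, orderOf_eq_one_iff] at hm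
      have h2 := hbrk 1
      rw [pow_one, hm] at h2
      have h3 := hαr 0 (by simpa using h2.symm)
      omega
    obtain ⟨m, rfl⟩ := Nat.exists_eq_succ_of_ne_zero hm0
    obtain ⟨t, ht⟩ : ∃ t, t = b ^ 2 ^ m := ⟨_, rfl⟩
    have hto : orderOf t = 2 := by
      rw [ht, orderOf_pow' _ (by positivity), hm, Nat.gcd_eq_right (pow_dvd_pow 2 (Nat.le_succ m)),
        Nat.succ_eq_add_one, pow_succ, Nat.mul_div_cancel_left _ (by positivity)]
    have htQ : t ∈ Q := ht ▸ pow_mem hbQ _
    have htiso : ∀ g, g * t * g⁻¹ ∈ Q → g * t * g⁻¹ = t := fun g hg => by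
      rw [ht] at hg ⊢; exact hbiso (2 ^ m) g hg
    obtain ⟨N, hNn, hNodd, hN⟩ := hZstar _ Q t hto htQ htiso
    have hNbot : N = ⊥ := by
      rw [eq_bot_iff]
      intro x hx
      rw [Subgroup.mem_bot]
      have hxo : Odd (orderOf x) := by
        have h2 : orderOf x ∣ Nat.card N := by
          have h3 := orderOf_dvd_natCard (⟨x, hx⟩ : N)
          rwa [Subgroup.orderOf_mk] at h3
        exact hNodd.of_dvd_nat h2
      have hxr : x.right = 1 := by
        have h2 : orderOf x.right ∣ orderOf x := by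
          have h3 := orderOf_map_dvd (SemidirectProduct.rightHom :
            G ⋊[(Subgroup.zpowers α).subtype] (Subgroup.zpowers α) →* _) x
          simpa using h3
        have h3 : orderOf x.right ∣ 2 ^ (j + 1) := by rw [← hAcard]; exact orderOf_dvd_natCard _
        have h4 : Nat.Coprime (orderOf x) (2 ^ (j + 1)) :=
          Nat.Coprime.pow_right _ (Nat.coprime_two_right.2 hxo)
        exact orderOf_eq_one_iff.1 (Nat.eq_one_of_dvd_coprimes h4 h2 h3)
      obtain ⟨N', hN'⟩ : ∃ N' : Subgroup G, N' = N.comap SemidirectProduct.inl := ⟨_, rfl⟩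
      have hN'n : N'.Normal := hN' ▸ hNn.comap _
      have hN'odd : (Nat.card N').Coprime 2 := by
        have h2 : Nat.card N' ∣ Nat.card N := by
          rw [hN']
          exact Subgroup.card_comap_dvd_of_injective N _ SemidirectProduct.inl_injective
        exact Nat.coprime_two_right.2 (hNodd.of_dvd_nat h2)
      have hN'bot : N' ≤ Cfsg.pPrimeCore 2 G := le_sSup ⟨hN'n, hN'odd⟩
      rw [hcore] at hN'bot
      have hxeq : SemidirectProduct.inl x.left = x := by
        ext <;> simp [hxr]
      have hxl : x.left ∈ N' := by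
        rw [hN', Subgroup.mem_comap, hxeq]; exact hx
      have h5 := hN'bot hxl
      rw [Subgroup.mem_bot] at h5
      rw [← hxeq, h5, map_one]
    have htc : ∀ g, t * g = g * t := by
      intro g
      have h2 := hN g
      rw [hNbot, Subgroup.mem_bot] at h2
      calc t * g = (t * g * t⁻¹ * g⁻¹) * g * t := by group
        _ = g * t := by rw [h2, one_mul]
    have htr : (t.right : MulAut G) ≠ 1 := by
      intro h
      have htl : t.left ∈ Subgroup.center G := by
        rw [Subgroup.mem_center_iff]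
        intro x
        have h2 := congrArg SemidirectProduct.left (htc (SemidirectProduct.inl x))
        simp only [SemidirectProduct.mul_left, SemidirectProduct.left_inl,
          SemidirectProduct.right_inl, Subgroup.coe_subtype, h, map_one, MulAut.one_apply] at h2
        exact h2.symm
      rw [hZ, Subgroup.mem_bot] at htl
      have h3 : t = 1 := by
        refine SemidirectProduct.ext ?_ ?_
        · simpa using htl
        · rw [SemidirectProduct.one_right]; exact Subtype.ext h
      rw [h3, orderOf_one] at hto; omega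
    have hmj : m ≤ j := by
      by_contra hlt
      apply htr
      rw [ht, hbrk]
      obtain ⟨d, rfl⟩ : ∃ d, m = (j + 1) + d := ⟨m - (j + 1), by omega⟩
      rw [pow_add, ← mul_assoc, mul_comm r, mul_assoc, pow_mul, hα, one_pow]
    obtain ⟨u, hudef⟩ : ∃ u : G, u = b.left := ⟨_, rfl⟩
    have hu : u ∈ (P : Subgroup G) := hudef ▸ (hQ b).1 hbQ
    obtain ⟨γ, hγdef⟩ : ∃ γ : MulAut G, γ = MulAut.conj u * (α ^ r) := ⟨_, rfl⟩
    have hγ : ∀ x, (SemidirectProduct.inl (γ x) :
        G ⋊[(Subgroup.zpowers α).subtype] (Subgroup.zpowers α)) =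
        b * SemidirectProduct.inl x * b⁻¹ := by
      intro x
      ext
      · simp [hγdef, hudef, hbr]
      · simp
    have hγk : ∀ (k : ℕ) (x : G), (SemidirectProduct.inl ((γ ^ k) x) :
        G ⋊[(Subgroup.zpowers α).subtype] (Subgroup.zpowers α)) =
        b ^ k * SemidirectProduct.inl x * (b ^ k)⁻¹ := by
      intro k
      induction k with
      | zero => intro x; simp
      | succ k ihk =>
        intro x
        rw [pow_succ', MulAut.mul_apply, hγ, ihk, pow_succ']
        group
    have hγ1 : γ ^ (2 ^ j) = 1 := by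
      have h2 : γ ^ (2 ^ m) = 1 := by
        ext x
        apply SemidirectProduct.inl_injective (φ := (Subgroup.zpowers α).subtype)
        rw [hγk, ← ht, htc, mul_inv_cancel_right]
        simp
      obtain ⟨d, rfl⟩ : ∃ d, j = m + d := ⟨j - m, by omega⟩
      rw [pow_add, pow_mul, h2, one_pow]
    have hαrfix : ∀ x ∈ (P : Subgroup G), (α ^ r) x = x := by
      intro x hx
      exact zpowers_fix (hfix x hx) ⟨α ^ r, pow_mem hαA r⟩
    have hγfix : ∀ x ∈ (P : Subgroup G), γ x = x := by
      intro x hx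
      rw [hγdef, MulAut.mul_apply, MulAut.conj_apply, hαrfix x hx, hab u hu x hx,
        mul_inv_cancel_right]
    obtain ⟨g, hg⟩ := ih γ hγ1 hγfix
    have hαr' : α ^ r = MulAut.conj (u⁻¹ * g) := by
      ext x
      have h2 := hg x
      rw [hγdef, MulAut.mul_apply, MulAut.conj_apply] at h2
      rw [MulAut.conj_apply]
      calc (α ^ r) x = u⁻¹ * (u * (α ^ r) x * u⁻¹) * u := by group
        _ = _ := by rw [h2]; group
    obtain ⟨r', hr'⟩ : ∃ r', α ^ (r * r') = α := by
      have hcop : Nat.Coprime r (orderOf α) := by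
        rw [hord]; exact Nat.Coprime.pow_right _ (Nat.coprime_two_right.2 hr)
      obtain ⟨r', -, hr'⟩ := Nat.exists_mul_mod_eq_one_of_coprime hcop
        (by rw [hord]; exact Nat.one_lt_two_pow (by omega))
      refine ⟨r', ?_⟩
      rw [← pow_mod_orderOf, hr', pow_one]
    have hfinal : α = MulAut.conj ((u⁻¹ * g) ^ r') := by
      rw [map_pow, ← hαr', ← pow_mul, hr']
    refine ⟨(u⁻¹ * g) ^ r', fun x => ?_⟩
    have h2 : α x = (MulAut.conj ((u⁻¹ * g) ^ r')) x := by rw [← hfinal]
    rw [h2, MulAut.conj_apply]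

end Main

end Cfsg.Agent.Helper16
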