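import Cfsg.Agent.Helper25.Bsw2

/-!
# Piece EMB of the abstract Brauer–Suzuki–Wall theorem (S3282): Sylow `p`-subgroups are TI

Pure group theory: from `BswTIHyp` and the centralizer orders of the `p`-elements, the
centralizer of every non-identity element of a Sylow `p`-subgroup `P` is `P`.
-/

set_option autoImplicit false

namespace Cfsg.Agent.Helper16

open Cfsg.Agent.Helper25 Subgroup

/-- Normalizers grow inside a finite `p`-subgroup. -/
theorem bsw_normalizer_grows {G : Type*} [Group G] [Finite G] (p : ℕ) [Fact p.Prime]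
    (Q : Subgroup G) (hQ : IsPGroup p Q) (I : Subgroup G) (hIQ : I ≤ Q) (hne : I ≠ Q) :
    ∃ g ∈ Q, g ∈ normalizer (I : Set G) ∧ g ∉ I := by
  have hnil : Group.IsNilpotent Q := hQ.isNilpotent
  have hnc : NormalizerCondition Q := Group.normalizerCondition_of_isNilpotent
  have hlt : I.subgroupOf Q < ⊤ := by
    rw [lt_top_iff_ne_top, Ne, subgroupOf_eq_top]
    intro h
    exact hne (le_antisymm hIQ h)
  obtain ⟨g, hgN, hgI⟩ := SetLike.exists_of_lt (hnc _ hlt)
  rw [mem_normalizer_iff] at hgN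
  refine ⟨g, g.2, ?_, ?_⟩
  · rw [mem_normalizer_iff]
    intro h
    constructor
    · intro hh
      have h1 := (hgN ⟨h, hIQ hh⟩).mp (mem_subgroupOf.mpr hh)
      exact mem_subgroupOf.mp h1
    · intro hh
      have hhQ : h ∈ Q := by
        have h1 : (g : G)⁻¹ * ((g : G) * h * (g : G)⁻¹) * (g : G) ∈ Q :=
          Q.mul_mem (Q.mul_mem (Q.inv_mem g.2) (hIQ hh)) g.2
        have h2 : (g : G)⁻¹ * ((g : G) * h * (g : G)⁻¹) * (g : G) = h := by group
        rwa [h2] at h1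
      have h1 := (hgN ⟨h, hhQ⟩).mpr (mem_subgroupOf.mpr hh)
      exact mem_subgroupOf.mp h1
  · intro h
    exact hgI (mem_subgroupOf.mpr h)

/-- No involution normalizes a non-trivial subgroup all of whose elements have `q`-th power 1. -/
theorem bsw_normalizer_odd {G : Type*} [Group G] [Finite G] (q : ℕ)
    (hinv : ∀ w z : G, orderOf w = 2 → z ≠ 1 → z ^ q = 1 →
      w * z * w⁻¹ ≠ z ∧ w * z * w⁻¹ ≠ z⁻¹)
    (I : Subgroup G) (hI : I ≠ ⊥) (hIq : ∀ y ∈ I, y ^ q = 1) :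
    ∀ g ∈ normalizer (I : Set G), Odd (orderOf g) := by
  intro g hg
  by_contra hodd
  rw [Nat.not_odd_iff_even, even_iff_two_dvd] at hodd
  have hg0 : orderOf g ≠ 0 := (orderOf_pos g).ne'
  obtain ⟨w, hw⟩ : ∃ w, w = g ^ (orderOf g / 2) := ⟨_, rfl⟩
  have hw2 : orderOf w = 2 := by rw [hw]; exact orderOf_pow_orderOf_div hg0 hodd
  have hwN : w ∈ normalizer (I : Set G) := by rw [hw]; exact Subgroup.pow_mem _ hg _
  have hww : w * w = 1 := by
    have := pow_orderOf_eq_one w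
    rwa [hw2, pow_two] at this
  have hwinv : w⁻¹ = w := inv_eq_of_mul_eq_one_left hww
  obtain ⟨y, hy1⟩ := (Subgroup.ne_bot_iff_exists_ne_one.mp hI)
  have hyI' : (y : G) ∈ I := y.2
  have hy1' : (y : G) ≠ 1 := fun h => hy1 (Subtype.ext h)
  rw [mem_normalizer_iff] at hwN
  have hconj : w * (y : G) * w⁻¹ ∈ I := (hwN _).mp hyI'
  obtain ⟨y', hy'⟩ : ∃ y' : G, y' = (y : G)⁻¹ * (w * (y : G) * w⁻¹) := ⟨_, rfl⟩
  have hy'I : y' ∈ I := by rw [hy']; exact I.mul_mem (I.inv_mem hyI') hconj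
  by_cases h1 : y' = 1
  · have h2 : w * (y : G) * w⁻¹ = (y : G) := by
      rw [hy'] at h1
      have := mul_eq_one_iff_eq_inv'.mp h1
      rw [inv_inv] at this
      exact this
    exact (hinv w y hw2 hy1' (hIq _ hyI')).1 h2
  · have h2 : w * y' * w⁻¹ = y'⁻¹ := by
      rw [hy', hwinv]
      have e1 : w * ((y : G)⁻¹ * (w * (y : G) * w)) * w
          = w * (y : G)⁻¹ * w * (y : G) * (w * w) := by group
      have e2 : ((y : G)⁻¹ * (w * (y : G) * w))⁻¹ = w⁻¹ * (y : G)⁻¹ * w⁻¹ * (y : G) := by group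
      rw [e1, e2, hww, hwinv, mul_one]
    exact (hinv w y' hw2 h1 (hIq _ hy'I)).2 h2

/-- In a subgroup `N` of odd-order elements, under the hypothesis on the centralizers of the
odd-order `p'`-elements, the normalizer of a Sylow `r`-subgroup (`r ≠ p`) centralizes it. -/
theorem bsw_normalizer_le_centralizer {G : Type*} [Group G] [Finite G] (p : ℕ) [Fact p.Prime]
    (hA : ∀ x : G, x ≠ 1 → Odd (orderOf x) → (orderOf x).Coprime p →
      ∃ A : Subgroup G, x ∈ A ∧ (∀ a ∈ A, ∀ b ∈ A, a * b = b * a) ∧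
        (∀ y ∈ A, y ≠ 1 → Odd (orderOf y) → centralizer ({y} : Set G) = A) ∧
        ∀ g ∈ normalizer (A : Set G), Odd (orderOf g) → g ∈ A)
    (N : Subgroup G) (hodd : ∀ g ∈ N, Odd (orderOf g))
    (r : ℕ) [Fact r.Prime] (hrp : r ≠ p) (R : Sylow r N) :
    normalizer ((R : Subgroup N) : Set N) ≤ centralizer ((R : Subgroup N) : Set N) := by
  intro n hn
  rw [mem_centralizer_iff]
  intro c hc
  have hc' : c ∈ (R : Subgroup N) := hc
  by_cases hR : (R : Subgroup N) = ⊥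
  · rw [hR, mem_bot] at hc'
    rw [hc', one_mul, mul_one]
  have hnt : Nontrivial (R : Subgroup N) := (Subgroup.nontrivial_iff_ne_bot _).mpr hR
  have hRp : IsPGroup r (R : Subgroup N) := R.isPGroup'
  have hcnt : Nontrivial (Subgroup.center (R : Subgroup N)) := hRp.center_nontrivial
  obtain ⟨z, hz⟩ := exists_ne (1 : Subgroup.center (R : Subgroup N))
  -- the element `x0` of `N`
  obtain ⟨x0, hx0⟩ : ∃ x0 : N, x0 = ((z : (R : Subgroup N)) : N) := ⟨_, rfl⟩
  have hx0R : x0 ∈ (R : Subgroup N) := by rw [hx0]; exact (z : (R : Subgroup N)).2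
  have hx0ne : x0 ≠ 1 := by
    rw [hx0]
    intro h
    apply hz
    apply Subtype.ext
    apply Subtype.ext
    exact h
  have hx0c : ∀ d : N, d ∈ (R : Subgroup N) → d * x0 = x0 * d := by
    intro d hd
    have h1 : (⟨d, hd⟩ : (R : Subgroup N)) * (z : (R : Subgroup N))
        = (z : (R : Subgroup N)) * ⟨d, hd⟩ := Subgroup.mem_center_iff.mp z.2 ⟨d, hd⟩
    have h2 := Subtype.ext_iff.mp h1
    rw [hx0]
    exact h2
  have hx0G : (x0 : G) ≠ 1 := fun h => hx0ne (Subtype.ext h)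
  have hx0odd : Odd (orderOf (x0 : G)) := hodd _ x0.2
  have hx0cop : (orderOf (x0 : G)).Coprime p := by
    obtain ⟨k, hk⟩ := (IsPGroup.iff_orderOf.mp hRp) ⟨x0, hx0R⟩
    have h1 : orderOf (x0 : G) = r ^ k := by
      rw [Subgroup.orderOf_coe, ← hk, ← Subgroup.orderOf_coe (⟨x0, hx0R⟩ : (R : Subgroup N))]
    rw [h1]
    exact Nat.Coprime.pow_left k ((Nat.coprime_primes (Fact.out : r.Prime)
      (Fact.out : p.Prime)).mpr hrp)
  obtain ⟨A, hxA, hAab, hAc, hAn⟩ := hA (x0 : G) hx0G hx0odd hx0cop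
  have hCA : centralizer ({(x0 : G)} : Set G) = A := hAc _ hxA hx0G hx0odd
  -- elements of `R` lie in `A`
  have hRA : ∀ d : N, d ∈ (R : Subgroup N) → (d : G) ∈ A := by
    intro d hd
    rw [← hCA, mem_centralizer_singleton_iff]
    have := congrArg (Subtype.val : N → G) (hx0c d hd)
    exact this
  -- the conjugate `x1 = n x0 n⁻¹`
  have hx1R : n * x0 * n⁻¹ ∈ (R : Subgroup N) := (mem_normalizer_iff.mp hn x0).mp hx0R
  have hx1A : ((n : G) * (x0 : G) * (n : G)⁻¹) ∈ A := hRA _ hx1R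
  have hx1ne : ((n : G) * (x0 : G) * (n : G)⁻¹) ≠ 1 := by
    intro h
    apply hx0G
    have h2 : (x0 : G) = (n : G)⁻¹ * ((n : G) * (x0 : G) * (n : G)⁻¹) * (n : G) := by group
    rw [h2, h]; group
  have hx1odd : Odd (orderOf ((n : G) * (x0 : G) * (n : G)⁻¹)) :=
    hodd _ (N.mul_mem (N.mul_mem n.2 x0.2) (N.inv_mem n.2))
  have hCA1 : centralizer ({(n : G) * (x0 : G) * (n : G)⁻¹} : Set G) = A :=
    hAc _ hx1A hx1ne hx1odd
  have hnN : (n : G) ∈ normalizer (A : Set G) := by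
    rw [mem_normalizer_iff]
    intro h
    have e0 : h ∈ A ↔ h * (x0 : G) = (x0 : G) * h := by
      rw [← hCA, mem_centralizer_singleton_iff]
    have e0' : (n : G) * h * (n : G)⁻¹ ∈ A ↔ (n : G) * h * (n : G)⁻¹ *
        ((n : G) * (x0 : G) * (n : G)⁻¹) = (n : G) * (x0 : G) * (n : G)⁻¹ *
        ((n : G) * h * (n : G)⁻¹) := by
      rw [← hCA1, mem_centralizer_singleton_iff]
    rw [e0, e0']
    constructor
    · intro hh
      have e1 : (n : G) * h * (n : G)⁻¹ * ((n : G) * (x0 : G) * (n : G)⁻¹)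
          = (n : G) * (h * (x0 : G)) * (n : G)⁻¹ := by group
      have e2 : (n : G) * (x0 : G) * (n : G)⁻¹ * ((n : G) * h * (n : G)⁻¹)
          = (n : G) * ((x0 : G) * h) * (n : G)⁻¹ := by group
      rw [e1, e2, hh]
    · intro hh
      have e1 : (n : G) * h * (n : G)⁻¹ * ((n : G) * (x0 : G) * (n : G)⁻¹)
          = (n : G) * (h * (x0 : G)) * (n : G)⁻¹ := by group
      have e2 : (n : G) * (x0 : G) * (n : G)⁻¹ * ((n : G) * h * (n : G)⁻¹)
          = (n : G) * ((x0 : G) * h) * (n : G)⁻¹ := by group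
      rw [e1, e2] at hh
      exact mul_left_cancel (mul_right_cancel hh)
  have hnA : (n : G) ∈ A := hAn _ hnN (hodd _ n.2)
  have hcA : (c : G) ∈ A := hRA c hc'
  exact Subtype.ext (hAab _ hcA _ hnA)

/-- A subgroup `N` all of whose elements have odd order is `p`-closed, under the hypothesis
on the centralizers of the odd-order `p'`-elements. -/
theorem bsw_pclosed {G : Type*} [Group G] [Finite G] (p : ℕ) [Fact p.Prime]
    (hA : ∀ x : G, x ≠ 1 → Odd (orderOf x) → (orderOf x).Coprime p →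
      ∃ A : Subgroup G, x ∈ A ∧ (∀ a ∈ A, ∀ b ∈ A, a * b = b * a) ∧
        (∀ y ∈ A, y ≠ 1 → Odd (orderOf y) → centralizer ({y} : Set G) = A) ∧
        ∀ g ∈ normalizer (A : Set G), Odd (orderOf g) → g ∈ A)
    (N : Subgroup G) (hodd : ∀ g ∈ N, Odd (orderOf g)) :
    ∃ O : Subgroup G, IsPGroup p O ∧ ∀ g ∈ N, (∃ k : ℕ, orderOf g = p ^ k) → g ∈ O := by
  have hp : p.Prime := Fact.out
  obtain ⟨O', hO'⟩ : ∃ O' : Subgroup N,
      O' = Subgroup.closure {g : N | ∃ k : ℕ, orderOf g = p ^ k} := ⟨_, rfl⟩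
  -- no element of `O'` has order divisible by a prime `r ≠ p`
  have hr : ∀ r : ℕ, r.Prime → r ≠ p → ∀ g ∈ O', ¬ r ∣ orderOf g := by
    intro r hrprime hrp g hg hdvd
    have : Fact r.Prime := ⟨hrprime⟩
    obtain ⟨R⟩ : Nonempty (Sylow r N) := inferInstance
    have hNC := bsw_normalizer_le_centralizer p hA N hodd r hrp R
    have hcompl := MonoidHom.ker_transferSylow_isComplement' R hNC
    have hle : O' ≤ (MonoidHom.transferSylow R hNC).ker := by
      rw [hO', Subgroup.closure_le]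
      rintro g ⟨k, hk⟩
      rw [SetLike.mem_coe, MonoidHom.mem_ker]
      have h1 : orderOf (MonoidHom.transferSylow R hNC g) ∣ p ^ k := by
        rw [← hk]; exact orderOf_map_dvd _ g
      obtain ⟨m, hm⟩ := (IsPGroup.iff_orderOf.mp R.isPGroup') (MonoidHom.transferSylow R hNC g)
      rw [hm] at h1
      have h2 : (r ^ m).Coprime (p ^ k) :=
        Nat.Coprime.pow m k ((Nat.coprime_primes hrprime hp).mpr hrp)
      have h3 : r ^ m = 1 := Nat.eq_one_of_dvd_coprimes h2 (dvd_refl _) h1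
      rw [h3] at hm
      exact orderOf_eq_one_iff.mp hm
    have hgk := hle hg
    have h1 : orderOf g ∣ Nat.card (MonoidHom.transferSylow R hNC).ker := by
      have := orderOf_dvd_natCard (⟨g, hgk⟩ : (MonoidHom.transferSylow R hNC).ker)
      rwa [← Subgroup.orderOf_coe] at this
    have h2 := hcompl.card_mul_card
    rw [Sylow.card_eq_multiplicity] at h2
    have hN0 : Nat.card N ≠ 0 := Nat.card_pos.ne'
    have h3 : Nat.card (MonoidHom.transferSylow R hNC).ker
        = Nat.card N / r ^ (Nat.card N).factorization r :=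
      (Nat.div_eq_of_eq_mul_left (pow_pos hrprime.pos _) h2.symm).symm
    rw [h3] at h1
    exact Nat.not_dvd_ordCompl hrprime hN0 (dvd_trans hdvd h1)
  have hO'p : IsPGroup p O' := by
    rw [IsPGroup.iff_orderOf]
    intro g
    have h0 : orderOf g ≠ 0 := (orderOf_pos g).ne'
    refine ⟨_, Nat.eq_prime_pow_of_unique_prime_dvd h0 ?_⟩
    intro d hd hdvd
    by_contra hne
    apply hr d hd hne (g : N) g.2
    rwa [Subgroup.orderOf_coe]
  refine ⟨O'.map N.subtype, hO'p.map N.subtype, ?_⟩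
  intro g hg hk
  obtain ⟨k, hk⟩ := hk
  refine Subgroup.mem_map.mpr ⟨⟨g, hg⟩, ?_, rfl⟩
  rw [hO']
  apply Subgroup.subset_closure
  refine ⟨k, ?_⟩
  rw [← hk, ← Subgroup.orderOf_coe]

/-- Distinct Sylow `p`-subgroups meet trivially. -/
theorem bsw_TI_claim {G : Type*} [Group G] [Finite G] (p : ℕ) [Fact p.Prime] (q : ℕ)
    (hcard : ∀ P : Sylow p G, Nat.card P = q) (hTI : BswTIHyp G q p)
    (P1 P2 : Sylow p G) (hne : P1 ≠ P2) : (P1 : Subgroup G) ⊓ P2 = ⊥ := by
  by_contra hbad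
  -- the set of bad pairs
  have hnon : Nonempty {pr : Sylow p G × Sylow p G //
      pr.1 ≠ pr.2 ∧ (pr.1 : Subgroup G) ⊓ pr.2 ≠ ⊥} := ⟨⟨(P1, P2), hne, hbad⟩⟩
  obtain ⟨⟨⟨Q1, Q2⟩, hQne, hQI⟩, hmax⟩ := Finite.exists_max
    (fun s : {pr : Sylow p G × Sylow p G // pr.1 ≠ pr.2 ∧ (pr.1 : Subgroup G) ⊓ pr.2 ≠ ⊥} =>
      Nat.card ((s.1.1 : Subgroup G) ⊓ s.1.2 : Subgroup G))
  simp only at hQne hQI hmax
  obtain ⟨I, hI⟩ : ∃ I : Subgroup G, I = (Q1 : Subgroup G) ⊓ Q2 := ⟨_, rfl⟩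
  rw [← hI] at hQI hmax
  have hIQ1 : I ≤ Q1 := hI ▸ inf_le_left
  have hIQ2 : I ≤ Q2 := hI ▸ inf_le_right
  have hIq : ∀ y ∈ I, y ^ q = 1 := by
    intro y hy
    have h1 : (⟨y, hIQ1 hy⟩ : (Q1 : Subgroup G)) ^ Nat.card (Q1 : Subgroup G) = 1 :=
      pow_card_eq_one'
    rw [hcard Q1] at h1
    exact Subtype.ext_iff.mp h1
  have hodd := bsw_normalizer_odd q hTI.1 I hQI hIq
  obtain ⟨O, hO, hOmem⟩ := bsw_pclosed p hTI.2 (normalizer (I : Set G)) hodd
  obtain ⟨P3, hP3⟩ := hO.exists_le_sylow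
  have hpel : ∀ (Q : Sylow p G) (g : G), g ∈ Q → ∃ k : ℕ, orderOf g = p ^ k := by
    intro Q g hg
    obtain ⟨k, hk⟩ := (IsPGroup.iff_orderOf.mp Q.isPGroup') ⟨g, hg⟩
    exact ⟨k, by rw [← hk, ← Subgroup.orderOf_coe]⟩
  have hIO : I ≤ O := fun g hg => hOmem g (le_normalizer hg) (hpel Q1 g (hIQ1 hg))
  -- `P3` equals any Sylow subgroup `Q ≥ I` with `I ≠ Q`
  have key : ∀ Q : Sylow p G, I ≤ Q → I ≠ (Q : Subgroup G) → P3 = Q := by
    intro Q hIQ hIne
    by_contra hP3Q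
    obtain ⟨g, hgQ, hgN, hgI⟩ := bsw_normalizer_grows p Q Q.isPGroup' I hIQ hIne
    have hgP3 : g ∈ (P3 : Subgroup G) := hP3 (hOmem g hgN (hpel Q g hgQ))
    have hle : I ≤ (P3 : Subgroup G) ⊓ Q := le_inf (hIO.trans hP3) hIQ
    have hlt : I < (P3 : Subgroup G) ⊓ Q := by
      refine lt_of_le_of_ne hle ?_
      intro h
      apply hgI
      rw [h]
      exact ⟨hgP3, hgQ⟩
    have hbot : (P3 : Subgroup G) ⊓ Q ≠ ⊥ := by
      intro h
      rw [h] at hle
      exact hQI (le_bot_iff.mp hle)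
    have h1 := hmax ⟨(P3, Q), hP3Q, hbot⟩
    simp only at h1
    have h2 : Nat.card I < Nat.card ((P3 : Subgroup G) ⊓ Q : Subgroup G) := by
      by_contra hcon
      exact hlt.ne (Subgroup.eq_of_le_of_card_ge hle (not_lt.mp hcon))
    omega
  have hI1 : I ≠ (Q1 : Subgroup G) := by
    intro h
    apply hQne
    have h1 : (Q1 : Subgroup G) ≤ Q2 := h ▸ hIQ2
    have h2 : (Q1 : Subgroup G) = Q2 :=
      Subgroup.eq_of_le_of_card_ge h1 (by rw [hcard Q1, hcard Q2])
    exact Sylow.ext h2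
  have hI2 : I ≠ (Q2 : Subgroup G) := by
    intro h
    apply hQne
    have h1 : (Q2 : Subgroup G) ≤ Q1 := h ▸ hIQ1
    have h2 : (Q2 : Subgroup G) = Q1 :=
      Subgroup.eq_of_le_of_card_ge h1 (by rw [hcard Q1, hcard Q2])
    exact (Sylow.ext h2).symm
  exact hQne ((key Q1 hIQ1 hI1).symm.trans (key Q2 hIQ2 hI2))

/-- All Sylow `p`-subgroups have order `q`. -/
theorem bsw_sylow_card {G : Type*} [Group G] [Finite G] (p : ℕ) [Fact p.Prime] (q : ℕ)
    (hq : ∃ a : ℕ, q = p ^ a) (hq1 : 1 < q)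
    (hcent : ∀ z : G, z ≠ 1 → z ^ q = 1 → Nat.card (centralizer ({z} : Set G)) = q)
    (P : Sylow p G) (hP : (P : Subgroup G) ≠ ⊥) : Nat.card P = q := by
  have hp : p.Prime := Fact.out
  obtain ⟨a, ha⟩ := hq
  have hnt : Nontrivial (P : Subgroup G) := (Subgroup.nontrivial_iff_ne_bot _).mpr hP
  have hPp : IsPGroup p (P : Subgroup G) := P.isPGroup'
  have hcnt : Nontrivial (Subgroup.center (P : Subgroup G)) := hPp.center_nontrivial
  obtain ⟨z, hz⟩ := exists_ne (1 : Subgroup.center (P : Subgroup G))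
  -- an element of order `p` in the centre of `P`
  obtain ⟨y0, hy0⟩ : ∃ y0 : (P : Subgroup G), y0 = (z : (P : Subgroup G)) := ⟨_, rfl⟩
  have hy0ne : y0 ≠ 1 := by
    rw [hy0]
    intro h
    exact hz (Subtype.ext h)
  have hy0c : y0 ∈ Subgroup.center (P : Subgroup G) := hy0 ▸ z.2
  obtain ⟨k, hk⟩ := (IsPGroup.iff_orderOf.mp hPp) y0
  have hpdvd : p ∣ orderOf y0 := by
    rw [hk]
    cases k with
    | zero =>
      exfalso
      rw [pow_zero, orderOf_eq_one_iff] at hk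
      exact hy0ne hk
    | succ k => exact dvd_pow_self p (Nat.succ_ne_zero k)
  obtain ⟨y, hy⟩ : ∃ y : (P : Subgroup G), y = y0 ^ (orderOf y0 / p) := ⟨_, rfl⟩
  have hyord : orderOf y = p := by
    rw [hy]; exact orderOf_pow_orderOf_div (orderOf_pos y0).ne' hpdvd
  have hyc : y ∈ Subgroup.center (P : Subgroup G) := by
    rw [hy]; exact Subgroup.pow_mem _ hy0c _
  have hyne : (y : G) ≠ 1 := by
    intro h
    have h1 : y = 1 := Subtype.ext h
    rw [h1, orderOf_one] at hyord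
    exact hp.one_lt.ne hyord
  have hypow : (y : G) ^ p = 1 := by
    have h1 : y ^ p = 1 := by
      have := pow_orderOf_eq_one y
      rwa [hyord] at this
    exact Subtype.ext_iff.mp h1
  have ha0 : a ≠ 0 := by
    rintro rfl
    rw [pow_zero] at ha
    omega
  have hyq : (y : G) ^ q = 1 := by
    obtain ⟨b, hb⟩ := Nat.exists_eq_succ_of_ne_zero ha0
    rw [ha, hb, pow_succ', pow_mul, hypow, one_pow]
  have hC := hcent (y : G) hyne hyq
  have hPC : (P : Subgroup G) ≤ centralizer ({(y : G)} : Set G) := by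
    intro g hg
    rw [mem_centralizer_singleton_iff]
    have h1 := Subgroup.mem_center_iff.mp hyc ⟨g, hg⟩
    exact Subtype.ext_iff.mp h1
  have hCp : IsPGroup p (centralizer ({(y : G)} : Set G)) := by
    rw [ha] at hC
    exact IsPGroup.of_card hC
  have hCeq : centralizer ({(y : G)} : Set G) = P := P.is_maximal' hCp hPC
  rw [← hC, hCeq]

/-- **Piece EMB.** The centralizer of a non-identity element of a Sylow `p`-subgroup `P`
is `P`. -/
theorem bsw_sylow_TI {G : Type*} [Group G] [Finite G] (p : ℕ) [Fact p.Prime] (q : ℕ)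
    (hq : ∃ a : ℕ, q = p ^ a) (hq1 : 1 < q)
    (hcent : ∀ z : G, z ≠ 1 → z ^ q = 1 → Nat.card (centralizer ({z} : Set G)) = q)
    (hTI : BswTIHyp G q p) (P : Sylow p G) (x : G) (hx : x ∈ P) (hx1 : x ≠ 1) :
    centralizer ({x} : Set G) = P := by
  have hPne : (P : Subgroup G) ≠ ⊥ := by
    intro h
    have hx' : x ∈ (P : Subgroup G) := hx
    rw [h, mem_bot] at hx'
    exact hx1 hx'
  have hcardP := bsw_sylow_card p q hq hq1 hcent P hPne
  have hcard : ∀ P' : Sylow p G, Nat.card P' = q := by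
    intro P'
    rw [← hcardP, Sylow.card_eq_multiplicity, Sylow.card_eq_multiplicity]
  have hxq : x ^ q = 1 := by
    have h1 : (⟨x, hx⟩ : (P : Subgroup G)) ^ Nat.card (P : Subgroup G) = 1 := pow_card_eq_one'
    rw [hcardP] at h1
    exact Subtype.ext_iff.mp h1
  have hC := hcent x hx1 hxq
  have hCp : IsPGroup p (centralizer ({x} : Set G)) := by
    obtain ⟨a, ha⟩ := hq
    rw [ha] at hC
    exact IsPGroup.of_card hC
  obtain ⟨P', hP'⟩ := hCp.exists_le_sylow
  have hCeq : centralizer ({x} : Set G) = P' :=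
    Subgroup.eq_of_le_of_card_ge hP' (by rw [hC]; exact (hcard P').le)
  have hxC : x ∈ centralizer ({x} : Set G) := mem_centralizer_singleton_iff.mpr rfl
  have hPP' : P' = P := by
    by_contra hne
    have h1 := bsw_TI_claim p q hcard hTI P' P hne
    have h2 : x ∈ (P' : Subgroup G) ⊓ P := ⟨hCeq ▸ hxC, hx⟩
    rw [h1, mem_bot] at h2
    exact hx1 h2
  rw [hCeq, hPP']

end Cfsg.Agent.Helper16
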