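import Cfsg.Agent.Helper16.IndCentral
import Cfsg.Agent.Helper16.LocalRing
import Mathlib.Algebra.Group.ConjFinite

set_option autoImplicit false
open Cfsg

namespace Cfsg.Agent.Helper16

/-- The number of conjugates of `g` is the index of its centralizer. -/
theorem card_conj_eq_index {G : Type*} [Group G] [Fintype G] (g : G)
    [DecidablePred (fun k : G => IsConj g k)] :
    ((Finset.univ.filter (fun k : G => IsConj g k)).card : ℂ)
      = ((Subgroup.centralizer ({g} : Set G)).index : ℂ) := by
  have h := sum_conj_eq g (fun _ => (1 : ℂ))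
  simp only [Finset.sum_const, Finset.card_univ, nsmul_eq_mul, mul_one] at h
  have hcard : ((Subgroup.centralizer ({g} : Set G)).index : ℂ)
      * (Nat.card (Subgroup.centralizer ({g} : Set G)) : ℂ) = (Fintype.card G : ℂ) := by
    rw [← Nat.cast_mul, mul_comm, Subgroup.card_mul_index, Nat.card_eq_fintype_card]
  have hC : (Nat.card (Subgroup.centralizer ({g} : Set G)) : ℂ) ≠ 0 := by
    exact_mod_cast Nat.card_pos.ne'
  rw [← hcard, mul_comm] at h
  exact (mul_left_cancel₀ hC h).symm

/-- If two class functions have central characters congruent modulo the local ideal, then the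
sums of `φ h / φ 1 - ψ h / ψ 1` over a conjugation-invariant set lie in the local ideal. -/
theorem sum_centralChar_sub_mem {H : Type*} [Group H] [Fintype H] {M : Ideal Cfsg.AlgInt}
    (hM : M.IsMaximal) (φ ψ : H → ℂ) (hφ : ∀ g h : H, φ (h * g * h⁻¹) = φ g)
    (hψ : ∀ g h : H, ψ (h * g * h⁻¹) = ψ g)
    (hsame : ∀ h : H, Cfsg.MemLocalIdeal M (Cfsg.centralChar φ h - Cfsg.centralChar ψ h))
    (A : Finset H) (hA : ∀ h ∈ A, ∀ x : H, x * h * x⁻¹ ∈ A) :
    Cfsg.MemLocalIdeal M (∑ h ∈ A, (φ h / φ 1 - ψ h / ψ 1)) := by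
  classical
  rw [← Finset.sum_fiberwise A (ConjClasses.mk : H → ConjClasses H)]
  apply memLocalIdeal_sum hM
  intro c _
  by_cases hc : ∃ h₀ ∈ A, ConjClasses.mk h₀ = c
  · obtain ⟨h₀, hh₀, rfl⟩ := hc
    have hset : A.filter (fun h => ConjClasses.mk h = ConjClasses.mk h₀)
        = Finset.univ.filter (fun h : H => IsConj h₀ h) := by
      ext h
      simp only [Finset.mem_filter, Finset.mem_univ, true_and, ConjClasses.mk_eq_mk_iff_isConj]
      constructor
      · rintro ⟨_, h2⟩
        exact h2.symm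
      · intro h2
        refine ⟨?_, h2.symm⟩
        obtain ⟨x, rfl⟩ := isConj_iff.mp h2
        exact hA h₀ hh₀ x
    rw [hset]
    have hconst : ∀ h ∈ Finset.univ.filter (fun h : H => IsConj h₀ h),
        (φ h / φ 1 - ψ h / ψ 1) = (φ h₀ / φ 1 - ψ h₀ / ψ 1) := by
      intro h hh
      rw [Finset.mem_filter] at hh
      obtain ⟨x, rfl⟩ := isConj_iff.mp hh.2
      rw [hφ, hψ]
    rw [Finset.sum_congr rfl hconst, Finset.sum_const, nsmul_eq_mul, card_conj_eq_index]
    have := hsame h₀
    unfold Cfsg.centralChar at this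
    convert this using 1
    ring
  · have hempty : A.filter (fun h => ConjClasses.mk h = c) = ∅ := by
      rw [Finset.filter_eq_empty_iff]
      intro h hh hmk
      exact hc ⟨h, hh, hmk⟩
    rw [hempty, Finset.sum_empty]
    exact memLocalIdeal_zero hM

theorem character_conj {H : Type*} [Group H] (χ : H → ℂ) (hχ : Cfsg.IsCharacter H χ)
    (g h : H) : χ (h * g * h⁻¹) = χ g := by
  obtain ⟨n, ρ, rfl⟩ := hχ
  exact Representation.char_conj ρ g h

theorem irrCharacter_isCharacter {H : Type*} [Group H] (χ : H → ℂ)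
    (hχ : Cfsg.IsIrrCharacter H χ) : Cfsg.IsCharacter H χ := by
  obtain ⟨n, ρ, _, rfl⟩ := hχ
  exact ⟨n, ρ, rfl⟩

/-- If `ξ` and `ξ'` are class functions on the subgroup `H` in the same block, then their
induced central characters are congruent modulo the local ideal. -/
theorem inducedCentralChar_sub_mem {G : Type*} [Group G] [Fintype G] {M : Ideal Cfsg.AlgInt}
    (hM : M.IsMaximal) (H : Subgroup G) (φ ψ : H → ℂ) (hφ : ∀ g h : H, φ (h * g * h⁻¹) = φ g)
    (hψ : ∀ g h : H, ψ (h * g * h⁻¹) = ψ g)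
    (hsame : Cfsg.SameBlock M φ ψ) (g : G) :
    Cfsg.MemLocalIdeal M (Cfsg.inducedCentralChar H φ g - Cfsg.inducedCentralChar H ψ g) := by
  classical
  unfold Cfsg.inducedCentralChar
  rw [finsum_mem_eq_finite_toFinset_sum _ (Set.toFinite _),
    finsum_mem_eq_finite_toFinset_sum _ (Set.toFinite _), ← Finset.sum_sub_distrib]
  apply sum_centralChar_sub_mem hM φ ψ hφ hψ hsame
  intro h hh x
  simp only [Set.Finite.mem_toFinset] at hh ⊢
  have hh' : IsConj g (h : G) := hh
  show IsConj g ((x * h * x⁻¹ : H) : G)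
  refine hh'.trans ?_
  rw [isConj_iff]
  exact ⟨(x : G), by simp⟩

end Cfsg.Agent.Helper16
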