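import Mathlib
import Cfsg.Prelude.Def_Characters
import Cfsg.Agent.Helper16.S3Core

/-!
# Core definitions for S3716 (Sylow 3-subgroup `M = 3²`, self-centralizing, `N = N_G(M)` with
dihedral Sylow 2-subgroups of order 8, `C_G(g) ≤ N` for `g ∈ M ∖ 1`)

`N ≅ S₃ ≀ 2` (order 72) is modelled by `WM`: pairs `(n, s)` with `n ∈ NM = S₃ × S₃` and a swap
bit `s`.  The configuration `D8Cfg φ` says that `φ : WM →* G` is injective and that the elements
`φ m` of order `3` or `6` (`m ^ 4 ≠ 1` in the model) are conjugated into `φ.range` only by elements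
of `φ.range`.  `wCls` labels the four classes of such elements (and `0` for the others) and
`cfW φ v` is the class function of `G` with value `v k` on the conjugates of the elements `φ m`,
`wCls m = k ≠ 0`, and `0` elsewhere.
-/

set_option autoImplicit false

namespace Cfsg.Agent.Helper16

open DihedralGroup

/-- Model of `N = S₃ ≀ 2`. -/
structure WM where
  /-- component in `S₃ × S₃` -/
  n : NM
  /-- swap bit -/
  s : Bool
deriving DecidableEq, Fintype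

namespace WM

instance : Mul WM := ⟨fun a b => ⟨a.n * (if a.s then nmSwap b.n else b.n), xor a.s b.s⟩⟩

instance : One WM := ⟨⟨1, false⟩⟩

instance : Inv WM := ⟨fun a => ⟨(if a.s then nmSwap a.n else a.n)⁻¹, a.s⟩⟩

theorem mul_def (a b : WM) :
    a * b = ⟨a.n * (if a.s then nmSwap b.n else b.n), xor a.s b.s⟩ := rfl

theorem one_def : (1 : WM) = ⟨1, false⟩ := rfl

theorem inv_def (a : WM) : a⁻¹ = ⟨(if a.s then nmSwap a.n else a.n)⁻¹, a.s⟩ := rfl

@[ext] theorem ext' {a b : WM} (h1 : a.n = b.n) (h2 : a.s = b.s) : a = b := by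
  cases a; cases b; simp_all

instance : Group WM :=
  Group.ofLeftAxioms
    (by
      rintro ⟨a, sa⟩ ⟨b, sb⟩ ⟨c, sc⟩
      cases sa <;> cases sb <;> cases sc <;>
        simp [mul_def, mul_assoc] <;> rfl)
    (by rintro ⟨a, sa⟩; simp [mul_def, one_def])
    (by
      rintro ⟨a, sa⟩
      cases sa <;> simp [mul_def, one_def, inv_def])

end WM

/-- `t₁` -/
def wT1 : WM := ⟨(r 1, 1), false⟩
/-- `t₂` -/
def wT2 : WM := ⟨(1, r 1), false⟩
/-- the involution `s₁` (inverts `t₁`, centralizes `t₂`) -/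
def wS1 : WM := ⟨(sr 0, 1), false⟩
/-- the involution `s₂` -/
def wS2 : WM := ⟨(1, sr 0), false⟩
/-- the central involution `z = s₁ s₂` of a Sylow 2-subgroup (inverts `M`) -/
def wZ : WM := ⟨(sr 0, sr 0), false⟩
/-- the swap `τ` -/
def wTau : WM := ⟨1, true⟩
/-- `d = t₁ t₂` -/
def wD : WM := ⟨(r 1, r 1), false⟩

/-- Label of the class of an element of the model: `0` if `m ^ 4 = 1` (order 1, 2, 4);
`1`: class of `t₁` (4 elements); `2`: class of `d = t₁ t₂` (4 elements); `3`: elements of order 6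
in `S₃ × S₃` (12 elements); `4`: elements of order 6 outside `S₃ × S₃` (12 elements). -/
def wCls (m : WM) : Fin 5 :=
  if m ^ 4 = 1 then 0
  else if m.s then 4
  else if m ^ 3 ≠ 1 then 3
  else if m.n.1 = 1 ∨ m.n.2 = 1 then 1 else 2

/-- `ω₁ = (-3, 3, 3, 3)` -/
def vW1 : Fin 5 → ℤ := ![0, -3, 3, 3, 3]
/-- `ω₂ = (3, -3, 3, 3)` -/
def vW2 : Fin 5 → ℤ := ![0, 3, -3, 3, 3]
/-- `A₁ = (3, 6, 3, 0)` -/
def vA1 : Fin 5 → ℤ := ![0, 3, 6, 3, 0]
/-- `B₁ = (6, 3, 0, 3)` -/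
def vB1 : Fin 5 → ℤ := ![0, 6, 3, 0, 3]

/-- The configuration. -/
structure D8Cfg {G : Type*} [Group G] (φ : WM →* G) : Prop where
  inj : Function.Injective φ
  ti : ∀ m : WM, m ^ 4 ≠ 1 → ∀ g : G, g * φ m * g⁻¹ ∈ φ.range → g ∈ φ.range

/-- The class function with value `v k` on the conjugates of `φ m`, `wCls m = k ≠ 0`. -/
noncomputable def cfW {G : Type*} [Group G] (φ : WM →* G) (v : Fin 5 → ℤ) : G → ℂ :=
  fun g => ∑ k : Fin 5, @ite ℂ (∃ x : G, ∃ m : WM, wCls m = k ∧ k ≠ 0 ∧ x * g * x⁻¹ = φ m)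
    (Classical.propDecidable _) (v k : ℂ) 0

theorem cfW_isClassFunction {G : Type*} [Group G] (φ : WM →* G) (v : Fin 5 → ℤ) :
    Cfsg.IsClassFunction G (cfW φ v) := by
  intro g h
  have : ∀ k : Fin 5, (∃ x : G, ∃ m : WM, wCls m = k ∧ k ≠ 0 ∧ x * (h * g * h⁻¹) * x⁻¹ = φ m) ↔
      (∃ x : G, ∃ m : WM, wCls m = k ∧ k ≠ 0 ∧ x * g * x⁻¹ = φ m) := by
    intro k
    constructor
    · rintro ⟨x, m, hm, hk, hx⟩
      refine ⟨x * h, m, hm, hk, ?_⟩
      rw [← hx]; group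
    · rintro ⟨x, m, hm, hk, hx⟩
      refine ⟨x * h⁻¹, m, hm, hk, ?_⟩
      rw [← hx]; group
  unfold cfW
  refine Finset.sum_congr rfl (fun k _ => ?_)
  by_cases hg : ∃ x : G, ∃ m : WM, wCls m = k ∧ k ≠ 0 ∧ x * g * x⁻¹ = φ m
  · rw [if_pos hg, if_pos ((this k).mpr hg)]
  · rw [if_neg hg, if_neg (fun h' => hg ((this k).mp h'))]

set_option maxRecDepth 1000000 in
theorem wCls_conj : ∀ k m : WM, wCls (k * m * k⁻¹) = wCls m := by decide +kernel

theorem wCls_ne_zero_iff (m : WM) : wCls m ≠ 0 ↔ m ^ 4 ≠ 1 := by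
  revert m; decide

/-- `cfW φ v` vanishes at elements of order dividing 4. -/
theorem D8Cfg.cfW_eq_zero_of_pow {G : Type*} [Group G] {φ : WM →* G} (h : D8Cfg φ)
    (v : Fin 5 → ℤ) {g : G} (hg : g ^ 4 = 1) : cfW φ v g = 0 := by
  unfold cfW
  refine Finset.sum_eq_zero (fun k _ => ?_)
  rw [if_neg]
  rintro ⟨x, m, hm, hk, hx⟩
  have h1 : m ^ 4 ≠ 1 := (wCls_ne_zero_iff m).mp (by rw [hm]; exact hk)
  apply h1
  apply h.inj
  rw [map_pow, map_one, ← hx, conj_pow, hg]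
  group

/-- Values of `cfW` on `φ.range`. -/
theorem D8Cfg.cfW_apply {G : Type*} [Group G] {φ : WM →* G} (h : D8Cfg φ) (v : Fin 5 → ℤ)
    (m : WM) : cfW φ v (φ m) = if wCls m = 0 then 0 else (v (wCls m) : ℂ) := by
  have key : ∀ k : Fin 5, (∃ x : G, ∃ m' : WM, wCls m' = k ∧ k ≠ 0 ∧ x * φ m * x⁻¹ = φ m') ↔
      (wCls m = k ∧ k ≠ 0) := by
    intro k
    constructor
    · rintro ⟨x, m', hm', hk, hx⟩
      have h1 : m' ^ 4 ≠ 1 := (wCls_ne_zero_iff m').mp (by rw [hm']; exact hk)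
      have h2 : x⁻¹ ∈ φ.range := h.ti m' h1 x⁻¹ (by
        rw [← hx]; refine ⟨m, ?_⟩; group)
      obtain ⟨j, hj⟩ := h2
      have h3 : j⁻¹ * m * j = m' := by
        apply h.inj
        rw [← hx, map_mul, map_mul, map_inv, hj]; group
      refine ⟨?_, hk⟩
      rw [← hm', ← h3]
      have := wCls_conj j⁻¹ m
      rw [inv_inv] at this
      exact this.symm
    · rintro ⟨hm, hk⟩
      exact ⟨1, m, hm, hk, by simp⟩
  unfold cfW
  by_cases hm : wCls m = 0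
  · rw [if_pos hm]
    refine Finset.sum_eq_zero (fun k _ => ?_)
    rw [if_neg]
    rw [key k]
    rintro ⟨h1, h2⟩
    exact h2 (h1 ▸ hm)
  · rw [if_neg hm]
    rw [Finset.sum_eq_single (wCls m)]
    · rw [if_pos ((key _).mpr ⟨rfl, hm⟩)]
    · intro k _ hk
      rw [if_neg]
      rw [key k]
      rintro ⟨h1, _⟩
      exact hk h1.symm
    · intro h1
      exact absurd (Finset.mem_univ _) h1

/-- Two elements of order at most 2 whose product is a `φ m` of order 3 or 6 lie in `φ.range`. -/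
theorem D8Cfg.mem_range_of_mul {G : Type*} [Group G] {φ : WM →* G} (h : D8Cfg φ) {u v : G}
    (hu : u ^ 2 = 1) (hv : v ^ 2 = 1) {m : WM} (hm : m ^ 4 ≠ 1) (huv : u * v = φ m) :
    u ∈ φ.range ∧ v ∈ φ.range := by
  have hu' : u⁻¹ = u := by
    rw [inv_eq_iff_mul_eq_one, ← sq, hu]
  have hv' : v⁻¹ = v := by
    rw [inv_eq_iff_mul_eq_one, ← sq, hv]
  have h1 : u * φ m * u⁻¹ = φ m⁻¹ := by
    rw [map_inv, ← huv, mul_inv_rev, hu', hv']
    have : u * u = 1 := by rw [← sq, hu]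
    rw [← mul_assoc u u v, this, one_mul]
  have hu_mem : u ∈ φ.range := h.ti m hm u (by rw [h1]; exact ⟨m⁻¹, rfl⟩)
  refine ⟨hu_mem, ?_⟩
  have : v = u⁻¹ * φ m := by rw [← huv]; group
  rw [this]
  exact φ.range.mul_mem (φ.range.inv_mem hu_mem) ⟨m, rfl⟩

/-- The centralizer of an element `φ m` of order 3 or 6 lies in `φ.range`. -/
theorem D8Cfg.mem_range_of_commute {G : Type*} [Group G] {φ : WM →* G} (h : D8Cfg φ) {m : WM}
    (hm : m ^ 4 ≠ 1) {g : G} (hg : g * φ m = φ m * g) : g ∈ φ.range := by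
  apply h.ti m hm g
  rw [hg]
  exact ⟨m, by simp⟩

/-- Generators and relations for `N = N_G(M) ≅ S₃ ≀ 2` (output of the setup pieces). -/
structure D8Gens {G : Type*} [Group G] (M N : Subgroup G) (t₁ t₂ a b τ : G) : Prop where
  t₁3 : t₁ ^ 3 = 1
  t₂3 : t₂ ^ 3 = 1
  a2 : a ^ 2 = 1
  b2 : b ^ 2 = 1
  τ2 : τ ^ 2 = 1
  tt : t₁ * t₂ = t₂ * t₁
  ab : a * b = b * a
  at₁ : a * t₁ * a⁻¹ = t₁⁻¹
  at₂ : a * t₂ = t₂ * a
  bt₁ : b * t₁ = t₁ * b
  bt₂ : b * t₂ * b⁻¹ = t₂⁻¹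
  τt : τ * t₁ * τ⁻¹ = t₂
  τa : τ * a * τ⁻¹ = b
  memM : ∀ x : G, x ∈ M ↔ ∃ i j : ℕ, x = t₁ ^ i * t₂ ^ j
  memN : ∀ x : G, x ∈ N ↔ ∃ i j k l c : ℕ, x = t₁ ^ i * t₂ ^ j * a ^ k * b ^ l * τ ^ c

end Cfsg.Agent.Helper16
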