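import Cfsg.Agent.Helper16.D8Model
import Cfsg.Agent.Helper16.S3Glue1
import Cfsg.Agent.Helper93.D8TS
import Cfsg.Agent.Helper66.D8SC
import Cfsg.Agent.Helper61.D8N4
import Cfsg.Agent.Helper33.D8SH
import Cfsg.Agent.Helper37.D8IN

/-!
# S3716 glue, part 1: inner products of the class functions `cfW φ v`, the common constituent `X`
of `ω₁`, `ω₂` and its values on the 3-singular classes
-/

set_option autoImplicit false

namespace Cfsg.Agent.Helper16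

open Cfsg DihedralGroup
open scoped ComplexConjugate

/-- a sum over the model by classes -/
theorem wm_sum_cls {R : Type*} [AddCommMonoid R] (f : Fin 5 → R) :
    ∑ m : WM, f (wCls m) = 40 • f 0 + 4 • f 1 + 4 • f 2 + 12 • f 3 + 12 • f 4 := by
  have h1 : ∑ m : WM, f (wCls m) =
      ∑ k : Fin 5, ∑ m ∈ Finset.univ.filter (fun m : WM => wCls m = k), f (wCls m) :=
    (Finset.sum_fiberwise Finset.univ wCls (fun m => f (wCls m))).symm
  rw [h1]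
  have h2 : ∀ k : Fin 5, ∑ m ∈ Finset.univ.filter (fun m : WM => wCls m = k), f (wCls m) =
      (![40, 4, 4, 12, 12] k : ℕ) • f k := by
    intro k
    rw [← wm_card_cls k, ← Finset.sum_const]
    refine Finset.sum_congr rfl (fun m hm => ?_)
    rw [(Finset.mem_filter.mp hm).2]
  simp only [h2, Fin.sum_univ_five]
  rfl

section

variable {G : Type*} [Group G] [Fintype G] {φ : WM →* G}

theorem D8Cfg.cfW_inner_cfW (h : D8Cfg φ) (v v' : Fin 5 → ℤ) :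
    classInner (cfW φ v) (cfW φ v') = (1 / 72 : ℂ) * (wIP v v' : ℂ) := by
  rw [Cfsg.Agent.Helper93.d8_cfW_inner h v _ (cfW_isClassFunction φ v')]
  congr 1
  unfold wIP
  push_cast
  refine Finset.sum_congr rfl (fun m _ => ?_)
  rw [h.cfW_apply]
  by_cases hm : wCls m = 0
  · simp [hm]
  · simp [hm]

theorem D8Cfg.cfW_inner_one (h : D8Cfg φ) (v : Fin 5 → ℤ) :
    classInner (cfW φ v) (fun _ => (1 : ℂ)) = (1 / 72 : ℂ) * (wI1 v : ℂ) := by
  rw [Cfsg.Agent.Helper93.d8_cfW_inner h v _ (fun _ _ => rfl)]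
  congr 1
  unfold wI1
  push_cast
  refine Finset.sum_congr rfl (fun m _ => ?_)
  simp

omit [Fintype G] in
/-- The value of a class function at `φ m` depends only on the class of `m`. -/
theorem cls_apply_eq {f : G → ℂ} (hf : IsClassFunction G f) (m : WM) (hm : wCls m ≠ 0) :
    f (φ m) = f (φ (wRep (wCls m))) := by
  obtain ⟨k, hk⟩ := wm_cls_rep m
  rcases hk with hk | hk
  · rw [← hk, map_mul, map_mul, map_inv]
    exact (hf (φ m) (φ k)).symm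
  · exact absurd hk hm

/-- Frobenius reciprocity in class form. -/
theorem D8Cfg.cfW_inner_eq (h : D8Cfg φ) (v : Fin 5 → ℤ) {f : G → ℂ} (hf : IsClassFunction G f) :
    72 * classInner (cfW φ v) f = 4 * (v 1 : ℂ) * conj (f (φ (wRep 1)))
      + 4 * (v 2 : ℂ) * conj (f (φ (wRep 2))) + 12 * (v 3 : ℂ) * conj (f (φ (wRep 3)))
      + 12 * (v 4 : ℂ) * conj (f (φ (wRep 4))) := by
  rw [Cfsg.Agent.Helper93.d8_cfW_inner h v _ hf]
  have h1 : ∀ m : WM, (if wCls m = 0 then 0 else (v (wCls m) : ℂ)) * conj (f (φ m)) =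
      (fun k : Fin 5 => (if k = 0 then 0 else (v k : ℂ)) * conj (f (φ (wRep k)))) (wCls m) := by
    intro m
    by_cases hm : wCls m = 0
    · simp [hm]
    · simp only [if_neg hm]
      rw [cls_apply_eq hf m hm]
  rw [Finset.sum_congr rfl (fun m _ => h1 m),
    wm_sum_cls (fun k : Fin 5 => (if k = 0 then 0 else (v k : ℂ)) * conj (f (φ (wRep k))))]
  simp
  ring

theorem D8Cfg.cfW_inner_int (h : D8Cfg φ) (v : Fin 5 → ℤ)
    (hv : v = vW1 ∨ v = vW2 ∨ v = vA1 ∨ v = vB1) (X : IrrCharacter G) :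
    ∃ k : ℤ, classInner (cfW φ v) (X : G → ℂ) = (k : ℂ) := by
  have hX : IsCharacter G (X : G → ℂ) := Helper79.irr_isCharacter X
  rw [Cfsg.Agent.Helper93.d8_cfW_inner h v _ (Helper79.isCharacter_isClassFunction hX)]
  obtain ⟨k, hk⟩ := Cfsg.Agent.Helper37.d8_sum_int φ hX v hv
  refine ⟨k, ?_⟩
  have h1 : ∑ m : WM, (if wCls m = 0 then 0 else (v (wCls m) : ℂ)) * conj ((X : G → ℂ) (φ m)) =
      conj (∑ m : WM, (if wCls m = 0 then 0 else (v (wCls m) : ℂ)) * (X : G → ℂ) (φ m)) := by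
    rw [map_sum]
    refine Finset.sum_congr rfl (fun m _ => ?_)
    rw [map_mul]
    congr 1
    split_ifs <;> simp
  rw [h1, hk, map_mul]
  have h72 : (starRingEnd ℂ) (72 : ℂ) = 72 := Complex.conj_ofReal 72
  have hk' : (starRingEnd ℂ) (k : ℂ) = k := by
    have := Complex.conj_ofReal (k : ℝ)
    simp
  rw [h72, hk']
  ring

/-- The common constituent `X` of `ω₁`, `ω₂`, the decompositions and the values of `X` on the
3-singular classes. -/
theorem D8Cfg.exists_X (h : D8Cfg φ) :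
    ∃ (X Y₂ Y₃ Z₂ Z₃ : IrrCharacter G) (ε a₂ a₃ b₂ b₃ a b : ℤ),
      (X : G → ℂ) ≠ (fun _ => (1 : ℂ)) ∧ (ε = 1 ∨ ε = -1) ∧ (a₂ = 1 ∨ a₂ = -1) ∧
      (a₃ = 1 ∨ a₃ = -1) ∧ (b₂ = 1 ∨ b₂ = -1) ∧ (b₃ = 1 ∨ b₃ = -1) ∧ (a = 0 ∨ a = ε) ∧
      (b = 0 ∨ b = ε) ∧
      (∀ g, cfW φ vW1 g = 1 + (ε : ℂ) * (X : G → ℂ) g + (a₂ : ℂ) * (Y₂ : G → ℂ) g +
        (a₃ : ℂ) * (Y₃ : G → ℂ) g) ∧
      (∀ g, cfW φ vW2 g = 1 + (ε : ℂ) * (X : G → ℂ) g + (b₂ : ℂ) * (Z₂ : G → ℂ) g +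
        (b₃ : ℂ) * (Z₃ : G → ℂ) g) ∧
      (∀ m : WM, wCls m = 1 ∨ wCls m = 2 → (X : G → ℂ) (φ m) = ((a + b - ε : ℤ) : ℂ)) ∧
      (∀ m : WM, wCls m = 3 → (X : G → ℂ) (φ m) = ((a - b + ε : ℤ) : ℂ)) ∧
      (∀ m : WM, wCls m = 4 → (X : G → ℂ) (φ m) = ((b - a + ε : ℤ) : ℂ)) := by
  have hW1 := cfW_isClassFunction φ vW1
  have hW2 := cfW_isClassFunction φ vW2
  have hWA := cfW_isClassFunction φ vA1
  have hWB := cfW_isClassFunction φ vB1
  have n11 : classInner (cfW φ vW1) (cfW φ vW1) = 4 := by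
    rw [h.cfW_inner_cfW, wIP_W1_W1]; norm_num
  have n22 : classInner (cfW φ vW2) (cfW φ vW2) = 4 := by
    rw [h.cfW_inner_cfW, wIP_W2_W2]; norm_num
  have nAA : classInner (cfW φ vA1) (cfW φ vA1) = 4 := by
    rw [h.cfW_inner_cfW, wIP_A1_A1]; norm_num
  have nBB : classInner (cfW φ vB1) (cfW φ vB1) = 4 := by
    rw [h.cfW_inner_cfW, wIP_B1_B1]; norm_num
  have n12 : classInner (cfW φ vW1) (cfW φ vW2) = 2 := by
    rw [h.cfW_inner_cfW, wIP_W1_W2]; norm_num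
  have nA1 : classInner (cfW φ vA1) (cfW φ vW1) = 2 := by
    rw [h.cfW_inner_cfW, wIP_A1_W1]; norm_num
  have nB2 : classInner (cfW φ vB1) (cfW φ vW2) = 2 := by
    rw [h.cfW_inner_cfW, wIP_B1_W2]; norm_num
  have o1 : classInner (cfW φ vW1) (fun _ => (1 : ℂ)) = 1 := by
    rw [h.cfW_inner_one, wI1_W1]; norm_num
  have o2 : classInner (cfW φ vW2) (fun _ => (1 : ℂ)) = 1 := by
    rw [h.cfW_inner_one, wI1_W2]; norm_num
  have oA : classInner (cfW φ vA1) (fun _ => (1 : ℂ)) = 1 := by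
    rw [h.cfW_inner_one, wI1_A1]; norm_num
  have oB : classInner (cfW φ vB1) (fun _ => (1 : ℂ)) = 1 := by
    rw [h.cfW_inner_one, wI1_B1]; norm_num
  have z : ∀ v : Fin 5 → ℤ, cfW φ v 1 = 0 := fun v => h.cfW_eq_zero_of_pow v (one_pow 4)
  have i1 := h.cfW_inner_int vW1 (Or.inl rfl)
  have i2 := h.cfW_inner_int vW2 (Or.inr (Or.inl rfl))
  have iA := h.cfW_inner_int vA1 (Or.inr (Or.inr (Or.inl rfl)))
  have iB := h.cfW_inner_int vB1 (Or.inr (Or.inr (Or.inr rfl)))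
  obtain ⟨⟨X, ε, hX1, hε, hX1ε, hX2ε⟩, -⟩ :=
    Cfsg.Agent.Helper33.d8_share _ _ hW1 hW2 n11 n22 o1 o2 i1 i2 n12 (z _) (z _)
  obtain ⟨Y₂, Y₃, a₂, a₃, ha₂, ha₃, hdec1⟩ :=
    Cfsg.Agent.Helper61.d8_norm_four _ hW1 n11 o1 i1 X ε hε hX1ε hX1
  obtain ⟨Z₂, Z₃, b₂, b₃, hb₂, hb₃, hdec2⟩ :=
    Cfsg.Agent.Helper61.d8_norm_four _ hW2 n22 o2 i2 X ε hε hX2ε hX1
  obtain ⟨a, ha⟩ := iA X
  obtain ⟨b, hb⟩ := iB X
  have haε : a = 0 ∨ a = ε := by
    have := (Cfsg.Agent.Helper33.d8_share _ _ hWA hW1 nAA n11 oA o1 iA i1 nA1 (z _) (z _)).2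
      X a ε hX1 ha hX1ε
    rcases this with h' | h' | h'
    · exact Or.inl h'
    · rcases hε with h'' | h'' <;> omega
    · exact Or.inr h'
  have hbε : b = 0 ∨ b = ε := by
    have := (Cfsg.Agent.Helper33.d8_share _ _ hWB hW2 nBB n22 oB o2 iB i2 nB2 (z _) (z _)).2
      X b ε hX1 hb hX2ε
    rcases this with h' | h' | h'
    · exact Or.inl h'
    · rcases hε with h'' | h'' <;> omega
    · exact Or.inr h'
  have hXc : IsClassFunction G (X : G → ℂ) :=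
    Helper79.isCharacter_isClassFunction (Helper79.irr_isCharacter X)
  have e1 := h.cfW_inner_eq vW1 hXc
  have e2 := h.cfW_inner_eq vW2 hXc
  have eA := h.cfW_inner_eq vA1 hXc
  have eB := h.cfW_inner_eq vB1 hXc
  rw [hX1ε] at e1
  rw [hX2ε] at e2
  rw [ha] at eA
  rw [hb] at eB
  have v11 : vW1 1 = -3 := rfl
  have v12 : vW1 2 = 3 := rfl
  have v13 : vW1 3 = 3 := rfl
  have v14 : vW1 4 = 3 := rfl
  have v21 : vW2 1 = 3 := rfl
  have v22 : vW2 2 = -3 := rfl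
  have v23 : vW2 3 = 3 := rfl
  have v24 : vW2 4 = 3 := rfl
  have vA1' : vA1 1 = 3 := rfl
  have vA2 : vA1 2 = 6 := rfl
  have vA3 : vA1 3 = 3 := rfl
  have vA4 : vA1 4 = 0 := rfl
  have vB1' : vB1 1 = 6 := rfl
  have vB2 : vB1 2 = 3 := rfl
  have vB3 : vB1 3 = 0 := rfl
  have vB4 : vB1 4 = 3 := rfl
  rw [v11, v12, v13, v14] at e1
  rw [v21, v22, v23, v24] at e2
  rw [vA1', vA2, vA3, vA4] at eA
  rw [vB1', vB2, vB3, vB4] at eB
  push_cast at e1 e2 eA eB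
  have hc1 : conj ((X : G → ℂ) (φ (wRep 1))) = ((a + b - ε : ℤ) : ℂ) := by
    push_cast
    linear_combination (1 / 36 : ℂ) * e1 - (1 / 72 : ℂ) * e2 - (1 / 72 : ℂ) * eA
      - (1 / 72 : ℂ) * eB
  have hc2 : conj ((X : G → ℂ) (φ (wRep 2))) = ((a + b - ε : ℤ) : ℂ) := by
    push_cast
    linear_combination -(1 / 72 : ℂ) * e1 + (1 / 36 : ℂ) * e2 - (1 / 72 : ℂ) * eA
      - (1 / 72 : ℂ) * eB
  have hc3 : conj ((X : G → ℂ) (φ (wRep 3))) = ((a - b + ε : ℤ) : ℂ) := by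
    push_cast
    linear_combination -(1 / 72 : ℂ) * e2 - (1 / 72 : ℂ) * eA + (1 / 72 : ℂ) * eB
  have hc4 : conj ((X : G → ℂ) (φ (wRep 4))) = ((b - a + ε : ℤ) : ℂ) := by
    push_cast
    linear_combination -(1 / 72 : ℂ) * e1 + (1 / 72 : ℂ) * eA - (1 / 72 : ℂ) * eB
  have hconj : ∀ (x : ℂ) (k : ℤ), conj x = (k : ℂ) → x = (k : ℂ) := by
    intro x k hx
    have := congrArg conj hx
    rw [Complex.conj_conj] at this
    rw [this]
    simp
  refine ⟨X, Y₂, Y₃, Z₂, Z₃, ε, a₂, a₃, b₂, b₃, a, b, hX1, hε, ha₂, ha₃, hb₂, hb₃, haε, hbε,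
    hdec1, hdec2, ?_, ?_, ?_⟩
  · intro m hm
    rcases hm with hm | hm
    · rw [cls_apply_eq hXc m (by rw [hm]; decide), hm]
      exact hconj _ _ hc1
    · rw [cls_apply_eq hXc m (by rw [hm]; decide), hm]
      exact hconj _ _ hc2
  · intro m hm
    rw [cls_apply_eq hXc m (by rw [hm]; decide), hm]
    exact hconj _ _ hc3
  · intro m hm
    rw [cls_apply_eq hXc m (by rw [hm]; decide), hm]
    exact hconj _ _ hc4

end

end Cfsg.Agent.Helper16
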