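import Cfsg.Agent.Helper16.D8Glue1

/-!
# S3716 glue, part 2: the class-multiplication equations and their dual form
-/

set_option autoImplicit false

namespace Cfsg.Agent.Helper16

open Cfsg DihedralGroup
open scoped ComplexConjugate

/-- The dual identity: for three "signed characters" with `∑ E = ∑ x = ∑ y = -1`, the quadratic
form of the first coordinate is controlled by the Gram determinant of the `Q`-forms. -/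
theorem dual_identity {K : Type*} [Field K] (E₁ E₂ E₃ x₁ x₂ x₃ y₁ y₂ y₃ : K)
    (h1 : E₁ ≠ 0) (h2 : E₂ ≠ 0) (h3 : E₃ ≠ 0) (hE : E₁ + E₂ + E₃ = -1)
    (hx : x₁ + x₂ + x₃ = -1) (hy : y₁ + y₂ + y₃ = -1) :
    (x₁ - E₁) ^ 2 * (1 + y₁ ^ 2 / E₁ + y₂ ^ 2 / E₂ + y₃ ^ 2 / E₃)
      - 2 * (x₁ - E₁) * (y₁ - E₁) * (1 + x₁ * y₁ / E₁ + x₂ * y₂ / E₂ + x₃ * y₃ / E₃)
      + (y₁ - E₁) ^ 2 * (1 + x₁ ^ 2 / E₁ + x₂ ^ 2 / E₂ + x₃ ^ 2 / E₃)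
    = ((1 + x₁ ^ 2 / E₁ + x₂ ^ 2 / E₂ + x₃ ^ 2 / E₃) * (1 + y₁ ^ 2 / E₁ + y₂ ^ 2 / E₂ + y₃ ^ 2 / E₃)
        - (1 + x₁ * y₁ / E₁ + x₂ * y₂ / E₂ + x₃ * y₃ / E₃) ^ 2) * (E₁ * (E₁ + 1)) := by
  have hE3 : E₃ = -1 - E₁ - E₂ := by linear_combination hE
  have hx3 : x₃ = -1 - x₁ - x₂ := by linear_combination hx
  have hy3 : y₃ = -1 - y₁ - y₂ := by linear_combination hy
  subst hx3 hy3
  have h3' : -1 - E₁ - E₂ ≠ 0 := hE3 ▸ h3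
  rw [hE3]
  field_simp
  ring

/-- The dual identity applied to three class-multiplication equations. -/
theorem dual_consequence (g C₁ C₃ Tuu Tuw Tww d k₁ k₃ ε a₂ a₃ D₂ D₃ p₂ p₃ q₂ q₃ : ℂ)
    (hg : g ≠ 0) (hε : ε * ε = 1) (ha₂ : a₂ * a₂ = 1) (ha₃ : a₃ * a₃ = 1)
    (hd : d ≠ 0) (hD₂ : D₂ ≠ 0) (hD₃ : D₃ ≠ 0)
    (hE : 1 + ε * d + a₂ * D₂ + a₃ * D₃ = 0)
    (hx : 1 + ε * k₁ + a₂ * p₂ + a₃ * p₃ = 0)
    (hy : 1 + ε * k₃ + a₂ * q₂ + a₃ * q₃ = 0)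
    (hP : g ^ 2 * (1 + ε * k₁ * k₁ / d + a₂ * p₂ * p₂ / D₂ + a₃ * p₃ * p₃ / D₃)
      = g / 72 * C₁ * C₁ * Tuu)
    (hQ : g ^ 2 * (1 + ε * k₁ * k₃ / d + a₂ * p₂ * q₂ / D₂ + a₃ * p₃ * q₃ / D₃)
      = g / 72 * C₁ * C₃ * Tuw)
    (hR : g ^ 2 * (1 + ε * k₃ * k₃ / d + a₂ * q₂ * q₂ / D₂ + a₃ * q₃ * q₃ / D₃)
      = g / 72 * C₃ * C₃ * Tww) :
    72 * g * (((k₁ - d) * C₃) ^ 2 * Tww - 2 * ((k₁ - d) * C₃) * ((k₃ - d) * C₁) * Tuw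
      + ((k₃ - d) * C₁) ^ 2 * Tuu) = C₁ ^ 2 * C₃ ^ 2 * (Tuu * Tww - Tuw ^ 2) * (d * (d + ε)) := by
  have hε0 : ε ≠ 0 := fun h' => by rw [h'] at hε; simp at hε
  have ha₂0 : a₂ ≠ 0 := fun h' => by rw [h'] at ha₂; simp at ha₂
  have ha₃0 : a₃ ≠ 0 := fun h' => by rw [h'] at ha₃; simp at ha₃
  have hdi := dual_identity (ε * d) (a₂ * D₂) (a₃ * D₃) (ε * k₁) (a₂ * p₂) (a₃ * p₃)
    (ε * k₃) (a₂ * q₂) (a₃ * q₃) (mul_ne_zero hε0 hd) (mul_ne_zero ha₂0 hD₂)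
    (mul_ne_zero ha₃0 hD₃) (by linear_combination hE) (by linear_combination hx)
    (by linear_combination hy)
  have e1 : 1 + (ε * k₁) ^ 2 / (ε * d) + (a₂ * p₂) ^ 2 / (a₂ * D₂) + (a₃ * p₃) ^ 2 / (a₃ * D₃)
      = 1 + ε * k₁ * k₁ / d + a₂ * p₂ * p₂ / D₂ + a₃ * p₃ * p₃ / D₃ := by
    field_simp
  have e2 : 1 + (ε * k₁) * (ε * k₃) / (ε * d) + (a₂ * p₂) * (a₂ * q₂) / (a₂ * D₂)
      + (a₃ * p₃) * (a₃ * q₃) / (a₃ * D₃)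
      = 1 + ε * k₁ * k₃ / d + a₂ * p₂ * q₂ / D₂ + a₃ * p₃ * q₃ / D₃ := by
    field_simp
  have e3 : 1 + (ε * k₃) ^ 2 / (ε * d) + (a₂ * q₂) ^ 2 / (a₂ * D₂) + (a₃ * q₃) ^ 2 / (a₃ * D₃)
      = 1 + ε * k₃ * k₃ / d + a₂ * q₂ * q₂ / D₂ + a₃ * q₃ * q₃ / D₃ := by
    field_simp
  rw [e1, e2, e3] at hdi
  generalize 1 + ε * k₁ * k₁ / d + a₂ * p₂ * p₂ / D₂ + a₃ * p₃ * p₃ / D₃ = P at hdi hP
  generalize 1 + ε * k₁ * k₃ / d + a₂ * p₂ * q₂ / D₂ + a₃ * p₃ * q₃ / D₃ = Q at hdi hQ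
  generalize 1 + ε * k₃ * k₃ / d + a₂ * q₂ * q₂ / D₂ + a₃ * q₃ * q₃ / D₃ = R at hdi hR
  have hP' : 72 * g * P - C₁ ^ 2 * Tuu = 0 := by
    have : g * (72 * g * P - C₁ ^ 2 * Tuu) = 0 := by linear_combination 72 * hP
    rcases mul_eq_zero.mp this with h | h
    · exact absurd h hg
    · exact h
  have hQ' : 72 * g * Q - C₁ * C₃ * Tuw = 0 := by
    have : g * (72 * g * Q - C₁ * C₃ * Tuw) = 0 := by linear_combination 72 * hQ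
    rcases mul_eq_zero.mp this with h | h
    · exact absurd h hg
    · exact h
  have hR' : 72 * g * R - C₃ ^ 2 * Tww = 0 := by
    have : g * (72 * g * R - C₃ ^ 2 * Tww) = 0 := by linear_combination 72 * hR
    rcases mul_eq_zero.mp this with h | h
    · exact absurd h hg
    · exact h
  have hdi2 : (k₁ - d) ^ 2 * R - 2 * (k₁ - d) * (k₃ - d) * Q + (k₃ - d) ^ 2 * P
      = (P * R - Q ^ 2) * (d * (d + ε)) := by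
    linear_combination hdi - ((k₁ - d) ^ 2 * R - 2 * (k₁ - d) * (k₃ - d) * Q + (k₃ - d) ^ 2 * P
      - (P * R - Q ^ 2) * d ^ 2) * hε
  linear_combination (72 * g) ^ 2 * hdi2
    + (-(72 * g * (k₃ - d) ^ 2) + 72 * g * R * (d * (d + ε))) * hP'
    + (72 * g * 2 * (k₁ - d) * (k₃ - d) - (72 * g * Q + C₁ * C₃ * Tuw) * (d * (d + ε))) * hQ'
    + (-(72 * g * (k₁ - d) ^ 2) + C₁ ^ 2 * Tuu * (d * (d + ε))) * hR'

section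

variable {G : Type*} [Group G] [Fintype G] {φ : WM →* G}

/-- The class-multiplication equation for a decomposition of `cfW φ v` and two elements `u`, `w`
of order at most 2. -/
theorem D8Cfg.star_eq (h : D8Cfg φ) (v : Fin 5 → ℤ) (X₁ X₂ X₃ : IrrCharacter G) (e₁ e₂ e₃ : ℂ)
    (hdec : ∀ g, cfW φ v g = 1 + e₁ * (X₁ : G → ℂ) g + e₂ * (X₂ : G → ℂ) g
      + e₃ * (X₃ : G → ℂ) g)
    (u w : G) (hu : u ^ 2 = 1) (hw : w ^ 2 = 1) (P Q : WM → Prop) [DecidablePred P]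
    [DecidablePred Q] (hP : ∀ n, IsConj u (φ n) ↔ P n) (hQ : ∀ n, IsConj w (φ n) ↔ Q n) :
    (Nat.card G : ℂ) ^ 2 * (1 + e₁ * (X₁ : G → ℂ) u * (X₁ : G → ℂ) w / (X₁ : G → ℂ) 1 +
        e₂ * (X₂ : G → ℂ) u * (X₂ : G → ℂ) w / (X₂ : G → ℂ) 1 +
        e₃ * (X₃ : G → ℂ) u * (X₃ : G → ℂ) w / (X₃ : G → ℂ) 1) =
      (Nat.card G : ℂ) / 72 * (Nat.card (Subgroup.centralizer ({u} : Set G)) : ℂ) *
        (Nat.card (Subgroup.centralizer ({w} : Set G)) : ℂ) * (wT v P Q : ℂ) := by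
  have hsum : ∑ p : WM × WM, @ite ℂ (IsConj u (φ p.1) ∧ IsConj w (φ p.2))
      (Classical.propDecidable _)
      (if wCls (p.1 * p.2) = 0 then 0 else (v (wCls (p.1 * p.2)) : ℂ)) 0 = (wT v P Q : ℂ) := by
    unfold wT
    push_cast
    refine Finset.sum_congr rfl (fun p _ => ?_)
    by_cases hp : P p.1 ∧ Q p.2
    · rw [if_pos hp, if_pos ⟨(hP _).mpr hp.1, (hQ _).mpr hp.2⟩]
    · rw [if_neg hp, if_neg (fun h' => hp ⟨(hP _).mp h'.1, (hQ _).mp h'.2⟩)]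
  rw [← hsum, ← Cfsg.Agent.Helper66.d8_star_count h
    (fun v f hf => Cfsg.Agent.Helper93.d8_cfW_inner h v f hf) v u w hu hw]
  simp only [hdec]
  simp only [Finset.sum_add_distrib, ← Finset.mul_sum]
  rw [irr_double_sum X₁ u w, irr_double_sum X₂ u w, irr_double_sum X₃ u w]
  simp only [Finset.sum_const, Finset.card_univ, nsmul_eq_mul, mul_one]
  rw [← Nat.card_eq_fintype_card]
  ring

/-- The dual equation in integers. -/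
theorem D8Cfg.dual_eq (h : D8Cfg φ) (v : Fin 5 → ℤ) (X Y Y' : IrrCharacter G) (ε c c' : ℤ)
    (hε : ε = 1 ∨ ε = -1) (hc : c = 1 ∨ c = -1) (hc' : c' = 1 ∨ c' = -1)
    (hdec : ∀ g, cfW φ v g = 1 + (ε : ℂ) * (X : G → ℂ) g + (c : ℂ) * (Y : G → ℂ) g
      + (c' : ℂ) * (Y' : G → ℂ) g)
    (u w : G) (hu : u ^ 2 = 1) (hw : w ^ 2 = 1)
    (P Q : WM → Prop) [DecidablePred P] [DecidablePred Q]
    (hP : ∀ n, IsConj u (φ n) ↔ P n) (hQ : ∀ n, IsConj w (φ n) ↔ Q n)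
    (d k₁ k₃ : ℤ) (hd : (X : G → ℂ) 1 = (d : ℂ)) (hk₁ : (X : G → ℂ) u = (k₁ : ℂ))
    (hk₃ : (X : G → ℂ) w = (k₃ : ℂ)) :
    72 * (Nat.card G : ℤ) *
      (((k₁ - d) * (Nat.card (Subgroup.centralizer ({w} : Set G)) : ℤ)) ^ 2 * wT v Q Q
        - 2 * ((k₁ - d) * (Nat.card (Subgroup.centralizer ({w} : Set G)) : ℤ))
          * ((k₃ - d) * (Nat.card (Subgroup.centralizer ({u} : Set G)) : ℤ)) * wT v P Q
        + ((k₃ - d) * (Nat.card (Subgroup.centralizer ({u} : Set G)) : ℤ)) ^ 2 * wT v P P)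
    = (Nat.card (Subgroup.centralizer ({u} : Set G)) : ℤ) ^ 2
        * (Nat.card (Subgroup.centralizer ({w} : Set G)) : ℤ) ^ 2
        * (wT v P P * wT v Q Q - wT v P Q ^ 2) * (d * (d + ε)) := by
  have hG : (Nat.card G : ℂ) ≠ 0 := by exact_mod_cast Nat.card_pos.ne'
  have he : (ε : ℂ) * (ε : ℂ) = 1 := by
    rcases hε with h' | h' <;> rw [h'] <;> norm_num
  have hcc : (c : ℂ) * (c : ℂ) = 1 := by
    rcases hc with h' | h' <;> rw [h'] <;> norm_num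
  have hcc' : (c' : ℂ) * (c' : ℂ) = 1 := by
    rcases hc' with h' | h' <;> rw [h'] <;> norm_num
  have hd0 : (d : ℂ) ≠ 0 := by
    rw [← hd]; exact Helper3.irr_apply_one_ne_zero X.2
  have hE : (1 : ℂ) + (ε : ℂ) * (d : ℂ) + (c : ℂ) * (Y : G → ℂ) 1 + (c' : ℂ) * (Y' : G → ℂ) 1
      = 0 := by
    rw [← hd, ← hdec 1]; exact h.cfW_eq_zero_of_pow v (one_pow 4)
  have hu4 : u ^ 4 = 1 := by
    have : u ^ 4 = (u ^ 2) ^ 2 := by rw [← pow_mul]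
    rw [this, hu, one_pow]
  have hw4 : w ^ 4 = 1 := by
    have : w ^ 4 = (w ^ 2) ^ 2 := by rw [← pow_mul]
    rw [this, hw, one_pow]
  have hx : (1 : ℂ) + (ε : ℂ) * (k₁ : ℂ) + (c : ℂ) * (Y : G → ℂ) u + (c' : ℂ) * (Y' : G → ℂ) u
      = 0 := by
    rw [← hk₁, ← hdec u]; exact h.cfW_eq_zero_of_pow v hu4
  have hy : (1 : ℂ) + (ε : ℂ) * (k₃ : ℂ) + (c : ℂ) * (Y : G → ℂ) w + (c' : ℂ) * (Y' : G → ℂ) w
      = 0 := by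
    rw [← hk₃, ← hdec w]; exact h.cfW_eq_zero_of_pow v hw4
  have s1 := h.star_eq v X Y Y' (ε : ℂ) (c : ℂ) (c' : ℂ) hdec u u hu hu P P hP hP
  have s2 := h.star_eq v X Y Y' (ε : ℂ) (c : ℂ) (c' : ℂ) hdec u w hu hw P Q hP hQ
  have s3 := h.star_eq v X Y Y' (ε : ℂ) (c : ℂ) (c' : ℂ) hdec w w hw hw Q Q hQ hQ
  rw [hd, hk₁] at s1
  rw [hd, hk₁, hk₃] at s2
  rw [hd, hk₃] at s3
  have key := dual_consequence (Nat.card G : ℂ)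
    (Nat.card (Subgroup.centralizer ({u} : Set G)) : ℂ)
    (Nat.card (Subgroup.centralizer ({w} : Set G)) : ℂ)
    (wT v P P : ℂ) (wT v P Q : ℂ) (wT v Q Q : ℂ) (d : ℂ) (k₁ : ℂ) (k₃ : ℂ) (ε : ℂ) (c : ℂ) (c' : ℂ)
    ((Y : G → ℂ) 1) ((Y' : G → ℂ) 1) ((Y : G → ℂ) u) ((Y' : G → ℂ) u) ((Y : G → ℂ) w)
    ((Y' : G → ℂ) w) hG he hcc hcc' hd0 (Helper3.irr_apply_one_ne_zero Y.2)
    (Helper3.irr_apply_one_ne_zero Y'.2) hE hx hy s1 s2 s3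
  exact_mod_cast key

end

end Cfsg.Agent.Helper16
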