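import Cfsg.Agent.Helper16.D8Glue2
import Cfsg.Agent.Helper39.S3EV
import Cfsg.Agent.Helper39.D8CZ1
import Cfsg.Agent.Helper39.D8CZ2
import Cfsg.Agent.Helper61.D8NT
import Cfsg.Agent.Helper80.D8LIN
import Cfsg.Agent.Helper37.D8CONG
import Cfsg.Agent.Helper39.D8FU

/-!
# S3716 glue, part 3: fusion of involutions and the final contradiction
-/

set_option autoImplicit false

namespace Cfsg.Agent.Helper16

open Cfsg DihedralGroup
open scoped ComplexConjugate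

theorem wm_S1_sq : wS1 ^ 2 = 1 := by decide
theorem wm_Tau_sq : wTau ^ 2 = 1 := by decide
theorem wm_S1_ne : wS1 ≠ 1 := by decide
theorem wm_Tau_ne : wTau ≠ 1 := by decide

section

variable {G : Type*} [Group G] {φ : WM →* G}

theorem isConj_map_of_conj (φ : WM →* G) {k m n : WM} (hk : k * m * k⁻¹ = n) :
    IsConj (φ m) (φ n) := by
  rw [isConj_iff]
  exact ⟨φ k, by rw [← hk]; simp⟩

/-- An element `φ n` conjugate to `φ m` with `m` an involution is an involution. -/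
theorem D8Cfg.invol_of_isConj (h : D8Cfg φ) {m n : WM} (hm2 : m ^ 2 = 1) (hm1 : m ≠ 1)
    (hc : IsConj (φ m) (φ n)) : n ^ 2 = 1 ∧ n ≠ 1 := by
  rw [isConj_iff] at hc
  obtain ⟨c, hc⟩ := hc
  constructor
  · apply h.inj
    rw [map_pow, ← hc, conj_pow, ← map_pow, hm2, map_one]
    group
  · rintro rfl
    apply hm1
    apply h.inj
    rw [map_one] at hc ⊢
    have : φ m = c⁻¹ * 1 * c := by rw [← hc]; group
    rw [this]; group

theorem D8Cfg.isConj_S1_iff (h : D8Cfg φ) (hFU : ¬ IsConj (φ wS1) (φ wTau)) (n : WM) :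
    IsConj (φ wS1) (φ n) ↔ wTy1 n ∨ (IsConj (φ wS1) (φ wZ) ∧ wTy2 n) := by
  constructor
  · intro hc
    obtain ⟨h2, h1⟩ := h.invol_of_isConj wm_S1_sq wm_S1_ne hc
    rcases wm_invol_type n h2 h1 with ht | ht | ht
    · exact Or.inl ht
    · obtain ⟨k, hk⟩ := wm_ty2_conj n ht
      exact Or.inr ⟨hc.trans (isConj_map_of_conj φ hk).symm, ht⟩
    · obtain ⟨k, hk⟩ := wm_ty3_conj n ht
      exact absurd (hc.trans (isConj_map_of_conj φ hk).symm) hFU
  · rintro (ht | ⟨hc, ht⟩)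
    · obtain ⟨k, hk⟩ := wm_ty1_conj n ht
      exact isConj_map_of_conj φ hk
    · obtain ⟨k, hk⟩ := wm_ty2_conj n ht
      exact hc.trans (isConj_map_of_conj φ hk)

theorem D8Cfg.isConj_Tau_iff (h : D8Cfg φ) (hFU : ¬ IsConj (φ wS1) (φ wTau)) (n : WM) :
    IsConj (φ wTau) (φ n) ↔ wTy3 n ∨ (IsConj (φ wTau) (φ wZ) ∧ wTy2 n) := by
  constructor
  · intro hc
    obtain ⟨h2, h1⟩ := h.invol_of_isConj wm_Tau_sq wm_Tau_ne hc
    rcases wm_invol_type n h2 h1 with ht | ht | ht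
    · obtain ⟨k, hk⟩ := wm_ty1_conj n ht
      exact absurd ((hc.trans (isConj_map_of_conj φ hk).symm).symm) hFU
    · obtain ⟨k, hk⟩ := wm_ty2_conj n ht
      exact Or.inr ⟨hc.trans (isConj_map_of_conj φ hk).symm, ht⟩
    · exact Or.inl ht
  · rintro (ht | ⟨hc, ht⟩)
    · obtain ⟨k, hk⟩ := wm_ty3_conj n ht
      exact isConj_map_of_conj φ hk
    · obtain ⟨k, hk⟩ := wm_ty2_conj n ht
      exact hc.trans (isConj_map_of_conj φ hk)

end

section

variable {G : Type*} [Group G] [Fintype G] {φ : WM →* G}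

/-- **Main theorem of the configuration**: `G` is not simple. -/
theorem D8Cfg.not_simple (h : D8Cfg φ) : ¬ IsSimpleGroup G := by
  obtain ⟨X, Y₂, Y₃, Z₂, Z₃, ε, a₂, a₃, b₂, b₃, a, b, hX1, hε, ha₂, ha₃, hb₂, hb₃, haε, hbε,
    hdec1, hdec2, hx12, hx3, hx4⟩ := h.exists_X
  have hXch : IsCharacter G (X : G → ℂ) := Helper79.irr_isCharacter X
  obtain ⟨d, hdpos, hd⟩ := Helper3.irr_apply_one_eq_nat X.2
  have hu2 : (φ wS1) ^ 2 = 1 := by rw [← map_pow, wm_S1_sq, map_one]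
  have hw2 : (φ wTau) ^ 2 = 1 := by rw [← map_pow, wm_Tau_sq, map_one]
  obtain ⟨k₁, hk₁⟩ := Cfsg.Agent.Helper39.s3_invol_int hXch hu2
  obtain ⟨k₃, hk₃⟩ := Cfsg.Agent.Helper39.s3_invol_int hXch hw2
  have hd' : (X : G → ℂ) 1 = ((d : ℤ) : ℂ) := by rw [hd]; simp
  suffices hd1 : (d : ℤ) = 1 ∧ ε = -1 by
    have h1 : (X : G → ℂ) 1 = 1 := by rw [hd']; exact_mod_cast hd1.1
    exact Cfsg.Agent.Helper80.d8_not_simple_of_linear X h1 hX1 (φ wS1) (φ wT1) (by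
      rw [← map_mul, ← map_mul]; exact fun h' => wm_S1_T1 (h.inj h'))
  obtain ⟨hc9, hc1, hc3⟩ := Cfsg.Agent.Helper37.d8_cong φ hXch (d : ℤ) k₁ k₃ (a + b - ε) (a - b + ε)
    (b - a + ε) hd' hk₁ hk₃ hx12 hx3 hx4
  obtain ⟨hg9, hg27⟩ := Cfsg.Agent.Helper39.d8_card_three_part h
  obtain ⟨hC13, hC19⟩ := Cfsg.Agent.Helper39.d8_centralizer_three_part h wS1 (Or.inl rfl)
  obtain ⟨hC33, hC39⟩ := Cfsg.Agent.Helper39.d8_centralizer_three_part h wTau (Or.inr rfl)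
  have hgpos : (0 : ℤ) < (Nat.card G : ℤ) := by exact_mod_cast Nat.card_pos
  have hC₁pos : (0 : ℤ) < (Nat.card (Subgroup.centralizer ({φ wS1} : Set G)) : ℤ) := by
    exact_mod_cast Nat.card_pos
  have hC₃pos : (0 : ℤ) < (Nat.card (Subgroup.centralizer ({φ wTau} : Set G)) : ℤ) := by
    exact_mod_cast Nat.card_pos
  have hdpos' : (0 : ℤ) < (d : ℤ) := by exact_mod_cast hdpos
  have hg9' : (9 : ℤ) ∣ (Nat.card G : ℤ) := by exact_mod_cast hg9
  have hg27' : ¬ (27 : ℤ) ∣ (Nat.card G : ℤ) := by exact_mod_cast hg27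
  have hC13' : (3 : ℤ) ∣ (Nat.card (Subgroup.centralizer ({φ wS1} : Set G)) : ℤ) := by
    exact_mod_cast hC13
  have hC19' : ¬ (9 : ℤ) ∣ (Nat.card (Subgroup.centralizer ({φ wS1} : Set G)) : ℤ) := by
    exact_mod_cast hC19
  have hC33' : (3 : ℤ) ∣ (Nat.card (Subgroup.centralizer ({φ wTau} : Set G)) : ℤ) := by
    exact_mod_cast hC33
  have hC39' : ¬ (9 : ℤ) ∣ (Nat.card (Subgroup.centralizer ({φ wTau} : Set G)) : ℤ) := by
    exact_mod_cast hC39
  have hk1' : (3 : ℤ) ∣ (k₁ - (d : ℤ)) - (2 * ε - 2 * b) := by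
    have : (k₁ - (d : ℤ)) - (2 * ε - 2 * b) = (k₁ - (d : ℤ)) - ((a - b + ε) - (a + b - ε)) := by
      ring
    rw [this]; exact hc1
  have hk3' : (3 : ℤ) ∣ (k₃ - (d : ℤ)) - (2 * ε - 2 * a) := by
    have : (k₃ - (d : ℤ)) - (2 * ε - 2 * a) = (k₃ - (d : ℤ)) - ((b - a + ε) - (a + b - ε)) := by
      ring
    rw [this]; exact hc3
  have hFU := Cfsg.Agent.Helper39.d8_not_isConj h
  have hP := h.isConj_S1_iff hFU
  have hQ := h.isConj_Tau_iff hFU
  by_cases c12 : IsConj (φ wS1) (φ wZ)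
  · -- `s₁ ∼ z`
    have c32 : ¬ IsConj (φ wTau) (φ wZ) := fun h' => hFU (c12.trans h'.symm)
    have hP' : ∀ n, IsConj (φ wS1) (φ n) ↔ (wTy1 n ∨ wTy2 n) := fun n => by
      rw [hP n]
      constructor
      · rintro (h' | ⟨-, h'⟩)
        · exact Or.inl h'
        · exact Or.inr h'
      · rintro (h' | h')
        · exact Or.inl h'
        · exact Or.inr ⟨c12, h'⟩
    have hQ' : ∀ n, IsConj (φ wTau) (φ n) ↔ wTy3 n := fun n => by
      rw [hQ n]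
      constructor
      · rintro (h' | ⟨h', -⟩)
        · exact h'
        · exact absurd h' c32
      · exact fun h' => Or.inl h'
    have E1 := h.dual_eq vW1 X Y₂ Y₃ ε a₂ a₃ hε ha₂ ha₃ hdec1 (φ wS1) (φ wTau) hu2 hw2
      (fun n => wTy1 n ∨ wTy2 n) wTy3 hP' hQ' d k₁ k₃ hd' hk₁ hk₃
    have E2 := h.dual_eq vW2 X Z₂ Z₃ ε b₂ b₃ hε hb₂ hb₃ hdec2 (φ wS1) (φ wTau) hu2 hw2
      (fun n => wTy1 n ∨ wTy2 n) wTy3 hP' hQ' d k₁ k₃ hd' hk₁ hk₃
    rw [wT_W1_aa, wT_W1_a3, wT_W1_33] at E1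
    rw [wT_W2_aa, wT_W2_a3, wT_W2_33] at E2
    exact Cfsg.Agent.Helper61.d8_arith _ _ _ _ k₁ k₃ ε a b hgpos hC₁pos hC₃pos hdpos' hε haε hbε
      hg9' hg27' hC13' hC19' hC33' hC39' hc9 hk1' hk3' (by linarith) (by linarith)
  · have hP' : ∀ n, IsConj (φ wS1) (φ n) ↔ wTy1 n := fun n => by
      rw [hP n]
      constructor
      · rintro (h' | ⟨h', -⟩)
        · exact h'
        · exact absurd h' c12
      · exact fun h' => Or.inl h'
    by_cases c32 : IsConj (φ wTau) (φ wZ)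
    · -- `τ ∼ z`
      have hQ' : ∀ n, IsConj (φ wTau) (φ n) ↔ (wTy3 n ∨ wTy2 n) := fun n => by
        rw [hQ n]
        constructor
        · rintro (h' | ⟨-, h'⟩)
          · exact Or.inl h'
          · exact Or.inr h'
        · rintro (h' | h')
          · exact Or.inl h'
          · exact Or.inr ⟨c32, h'⟩
      have E1 := h.dual_eq vW1 X Y₂ Y₃ ε a₂ a₃ hε ha₂ ha₃ hdec1 (φ wS1) (φ wTau) hu2 hw2
        wTy1 (fun n => wTy3 n ∨ wTy2 n) hP' hQ' d k₁ k₃ hd' hk₁ hk₃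
      have E2 := h.dual_eq vW2 X Z₂ Z₃ ε b₂ b₃ hε hb₂ hb₃ hdec2 (φ wS1) (φ wTau) hu2 hw2
        wTy1 (fun n => wTy3 n ∨ wTy2 n) hP' hQ' d k₁ k₃ hd' hk₁ hk₃
      rw [wT_W1_11, wT_W1_1c, wT_W1_cc] at E1
      rw [wT_W2_11, wT_W2_1c, wT_W2_cc] at E2
      have hc9' : (9 : ℤ) ∣ (d : ℤ) - (b + a - ε) := by
        have : (d : ℤ) - (b + a - ε) = (d : ℤ) - (a + b - ε) := by ring
        rw [this]; exact hc9
      exact Cfsg.Agent.Helper61.d8_arith _ _ _ _ k₃ k₁ ε b a hgpos hC₃pos hC₁pos hdpos' hε hbε haε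
        hg9' hg27' hC33' hC39' hC13' hC19' hc9' hk3' hk1' (by linarith) (by linarith)
    · -- neither `s₁` nor `τ` is conjugate to `z`
      have hQ' : ∀ n, IsConj (φ wTau) (φ n) ↔ wTy3 n := fun n => by
        rw [hQ n]
        constructor
        · rintro (h' | ⟨h', -⟩)
          · exact h'
          · exact absurd h' c32
        · exact fun h' => Or.inl h'
      have E1 := h.dual_eq vW1 X Y₂ Y₃ ε a₂ a₃ hε ha₂ ha₃ hdec1 (φ wS1) (φ wTau) hu2 hw2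
        wTy1 wTy3 hP' hQ' d k₁ k₃ hd' hk₁ hk₃
      have E2 := h.dual_eq vW2 X Z₂ Z₃ ε b₂ b₃ hε hb₂ hb₃ hdec2 (φ wS1) (φ wTau) hu2 hw2
        wTy1 wTy3 hP' hQ' d k₁ k₃ hd' hk₁ hk₃
      rw [wT_W1_11, wT_W1_13, wT_W1_33] at E1
      rw [wT_W2_11, wT_W2_13, wT_W2_33] at E2
      have hz : (Nat.card (Subgroup.centralizer ({φ wS1} : Set G)) : ℤ) ^ 2
          * (Nat.card (Subgroup.centralizer ({φ wTau} : Set G)) : ℤ) ^ 2
          * ((d : ℤ) * ((d : ℤ) + ε)) = 0 := by linarith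
      have hsum : (d : ℤ) + ε = 0 := by
        rcases mul_eq_zero.mp hz with h' | h'
        · exfalso
          rcases mul_eq_zero.mp h' with h'' | h''
          · exact hC₁pos.ne' (pow_eq_zero_iff (by norm_num) |>.mp h'')
          · exact hC₃pos.ne' (pow_eq_zero_iff (by norm_num) |>.mp h'')
        · rcases mul_eq_zero.mp h' with h'' | h''
          · omega
          · exact h''
      constructor <;> rcases hε with h' | h' <;> omega

end

end Cfsg.Agent.Helper16
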