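import Cfsg.Agent.Helper16.HeightZero
import Cfsg.Agent.S0165

/-!
# Blocks of defect zero

* `irr_eq_zero_of_blockDefect_zero`: the characters of a block of defect zero vanish on the
  elements of order divisible by `p`.
* `inducedCentralChar_eq_zero_of_blockDefect_zero`: the induced central character of such a
  character vanishes on these elements.
* `exists_singular_centralChar_not_memLocalIdeal`: a block of positive defect has a `p`-singular
  element at which its central characters are local units.
-/

set_option autoImplicit false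
open Cfsg
open scoped ComplexConjugate

namespace Cfsg.Agent.Helper16

universe u

variable {G : Type u} [Group G] [Finite G]

/-- The characters of a block of defect zero vanish on the elements of order divisible by `p`. -/
theorem irr_eq_zero_of_blockDefect_zero {p : ℕ} (hp : p.Prime) {B : Set (Cfsg.IrrCharacter G)}
    (hd : Cfsg.blockDefect p B = 0) {χ : Cfsg.IrrCharacter G} (hχ : χ ∈ B) {g : G}
    (hg : p ∣ orderOf g) : (χ : G → ℂ) g = 0 := by
  obtain ⟨n, ρ, hρ, hχe⟩ := χ.2
  have hdeg : Cfsg.charDegree (χ : G → ℂ) = n := by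
    rw [← hχe]; exact Helper80.charDegree_rep_character ρ
  have h1 : sInf ((fun χ : Cfsg.IrrCharacter G =>
      (Cfsg.charDegree (χ : G → ℂ)).factorization p) '' B)
      ≤ (Cfsg.charDegree (χ : G → ℂ)).factorization p := Nat.sInf_le ⟨χ, hχ, rfl⟩
  unfold Cfsg.blockDefect at hd
  have h2 : (Nat.card G).factorization p ≤ n.factorization p := by
    rw [← hdeg]; omega
  have hn0 : n ≠ 0 := by
    rw [← hdeg]; exact (Helper81.charDegree_pos χ).ne'
  have := hρ
  rw [← hχe]
  refine Cfsg.Agent.S0165.result ρ p ((Nat.card G).factorization p) hp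
    (Nat.ordProj_dvd _ _) (Nat.pow_succ_factorization_not_dvd Nat.card_pos.ne' hp) ?_ g hg
  rw [Module.finrank_fin_fun]
  exact (hp.pow_dvd_iff_le_factorization hn0).mpr h2

/-- The induced central character of a character in a block of defect zero of `H` vanishes on
the elements of order divisible by `p`. -/
theorem inducedCentralChar_eq_zero_of_blockDefect_zero {p : ℕ} (hp : p.Prime) (H : Subgroup G)
    {b : Set (Cfsg.IrrCharacter H)} (hd : Cfsg.blockDefect p b = 0) {ξ : Cfsg.IrrCharacter H}
    (hξ : ξ ∈ b) {g : G} (hg : p ∣ orderOf g) :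
    Cfsg.inducedCentralChar H (ξ : H → ℂ) g = 0 := by
  unfold Cfsg.inducedCentralChar
  apply finsum_mem_eq_zero_of_forall_eq_zero
  intro h hh
  have hh' : IsConj g (h : G) := hh
  obtain ⟨c, hc⟩ := isConj_iff.mp hh'
  have hord : orderOf (h : G) = orderOf g := by
    rw [← hc]
    exact (MulAut.conj c).orderOf_eq g
  have hh2 : p ∣ orderOf h := by
    rw [← Subgroup.orderOf_coe, hord]; exact hg
  rw [irr_eq_zero_of_blockDefect_zero hp hd hξ hh2, zero_div]

/-- A block of positive defect has an element of order divisible by `p` at which its central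
characters are local units. -/
theorem exists_singular_centralChar_not_memLocalIdeal {p : ℕ} [Fact p.Prime]
    {M : Ideal Cfsg.AlgInt} (hM : Cfsg.IsPModular p M) {B : Set (Cfsg.IrrCharacter G)}
    (hB : Cfsg.IsPBlock M B) (hd : Cfsg.blockDefect p B ≠ 0) :
    ∃ g : G, p ∣ orderOf g ∧ ∀ χ ∈ B, ¬ Cfsg.MemLocalIdeal M (Cfsg.centralChar (χ : G → ℂ) g) := by
  have := Fintype.ofFinite G
  have hp := hM.1
  obtain ⟨y, hy⟩ := Helper77.exists_isDefectClass hM.2.1 hB
  have P : Sylow p (Subgroup.centralizer ({y} : Set G)) := default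
  have hPcard : Nat.card P = p ^ Cfsg.blockDefect p B := by
    rw [P.card_eq_multiplicity, factorization_centralizer_of_isDefectClass hM hB hy]
  have : Nontrivial (P : Subgroup (Subgroup.centralizer ({y} : Set G))) := by
    rw [← Finite.one_lt_card_iff_nontrivial]
    show 1 < Nat.card P
    rw [hPcard]
    exact Nat.one_lt_pow hd hp.one_lt
  have := P.isPGroup'.center_nontrivial
  obtain ⟨z, hz⟩ := exists_ne (1 : Subgroup.center (P : Subgroup (Subgroup.centralizer ({y} : Set G))))
  obtain ⟨x, hxe⟩ : ∃ x : G, x = (((z : (P : Subgroup (Subgroup.centralizer ({y} : Set G))))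
      : Subgroup.centralizer ({y} : Set G)) : G) := ⟨_, rfl⟩
  have hx1 : x ≠ 1 := by
    intro h1
    apply hz
    apply Subtype.ext
    apply Subtype.ext
    apply Subtype.ext
    rw [← hxe, h1]
    rfl
  have hxord : ∃ k : ℕ, orderOf x = p ^ k := by
    obtain ⟨k, hk⟩ := (IsPGroup.iff_orderOf.mp P.isPGroup') (z : P)
    refine ⟨k, ?_⟩
    rw [← hk, hxe, Subgroup.orderOf_coe, Subgroup.orderOf_coe]
  have hxy : Commute x y := by
    rw [hxe]
    exact Subgroup.mem_centralizer_singleton_iff.mp (z : P).1.2
  have hyreg : ¬ p ∣ orderOf y := by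
    intro hdvd
    apply hy.2.1
    rw [Helper77.blockCoeff_eq_zero_of_dvd_orderOf hM hB hdvd]
    exact Helper77.memLocalIdeal_zero hM.2.1
  refine ⟨x * y, ?_, fun χ hχ => ?_⟩
  · obtain ⟨i, hi⟩ := isPPart_eq_pow (isPPart_mul hxy hxord hyreg)
    obtain ⟨k, hk⟩ := hxord
    have hk0 : k ≠ 0 := by
      rintro rfl
      rw [pow_zero, orderOf_eq_one_iff] at hk
      exact hx1 hk
    have h1 : p ∣ orderOf x := by
      rw [hk]; exact dvd_pow_self p hk0
    have h2 : orderOf x ∣ orderOf (x * y) := by
      have h3 : orderOf ((x * y) ^ i) ∣ orderOf (x * y) := orderOf_pow_dvd i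
      rwa [hi] at h3
    exact h1.trans h2
  · refine centralChar_not_memLocalIdeal_of_center hM hB hy hxord hxy
      ((P : Subgroup (Subgroup.centralizer ({y} : Set G))).map
        (Subgroup.centralizer ({y} : Set G)).subtype) ?_ ?_ ?_ hχ
    · rw [Subgroup.card_map_of_injective (Subgroup.subtype_injective _)]
      exact hPcard
    · rintro w ⟨w', hw', rfl⟩
      have h1 := Subgroup.mem_center_iff.mp z.2 ⟨w', hw'⟩
      have h2 := congrArg (fun t : (P : Subgroup (Subgroup.centralizer ({y} : Set G))) =>
        ((t : Subgroup.centralizer ({y} : Set G)) : G)) h1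
      rw [hxe]
      exact h2
    · rintro w ⟨w', hw', rfl⟩
      exact Subgroup.mem_centralizer_singleton_iff.mp w'.2

end Cfsg.Agent.Helper16
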