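import Cfsg.Agent.Helper16.FongCount
import Cfsg.Agent.Helper16.DefectGroup
import Cfsg.Agent.Helper16.CenterFusion
import Cfsg.Agent.Helper76.Cover2

/-!
# Fong's theorem on blocks covering an invariant block

Let `N ⊴ G` and let `b` be a `G`-invariant block of `N`.

* `fong_blockCoeff_cover`: the idempotent of `b`, extended by zero, is the idempotent of the set
  of irreducible characters of `G` lying over `b`.
* `fong_exists_defectClass_centralizer`: a defect group of a block covering `b` centralizes a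
  defect class of `b`.
* `fong_exists_cover_defect_ge`: some block covering `b` has defect at least
  `d(b) + ν_p |G : N|`.
* `fong_main`: if `B` covers `b` with maximal defect and `P` is a defect group of `B`, then
  `p ∤ |G : P N|`, `P ∩ N` is a defect group of `b` and `d(B) = d(b) + ν_p |G : N|`.
-/

set_option autoImplicit false
open Cfsg
open scoped ComplexConjugate

namespace Cfsg.Agent.Helper16

universe u

variable {G : Type u} [Group G] [Fintype G]

/-- If the idempotent of a union of blocks is a unit at `g`, so is the idempotent of one of the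
blocks. -/
theorem fong_exists_block_of_closed {M : Ideal Cfsg.AlgInt} (hM : M.IsMaximal)
    {U : Set (Cfsg.IrrCharacter G)}
    (hU : ∀ ψ ψ' : Cfsg.IrrCharacter G, ψ ∈ U → Cfsg.SameBlock M (ψ : G → ℂ) (ψ' : G → ℂ) → ψ' ∈ U)
    (g : G) (hg : ¬ Cfsg.MemLocalIdeal M (Cfsg.blockCoeff U g)) :
    ∃ ψ ∈ U, ¬ Cfsg.MemLocalIdeal M (Cfsg.blockCoeff (Cfsg.blockOf M (ψ : G → ℂ)) g) := by
  classical
  have := Fintype.ofFinite (Cfsg.IrrCharacter G)
  obtain ⟨𝔅, h𝔅⟩ : ∃ 𝔅 : Finset (Set (Cfsg.IrrCharacter G)),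
      𝔅 = (Finset.univ.filter (fun ψ : Cfsg.IrrCharacter G => ψ ∈ U)).image
        (fun ψ : Cfsg.IrrCharacter G => Cfsg.blockOf M (ψ : G → ℂ)) := ⟨_, rfl⟩
  have hmem : ∀ B ∈ 𝔅, ∃ ψ ∈ U, B = Cfsg.blockOf M (ψ : G → ℂ) := by
    intro B hB
    rw [h𝔅, Finset.mem_image] at hB
    obtain ⟨ψ, hψ, rfl⟩ := hB
    exact ⟨ψ, (Finset.mem_filter.mp hψ).2, rfl⟩
  have key : Cfsg.blockCoeff U = fun g => ∑ B ∈ 𝔅, Cfsg.blockCoeff B g := by
    have hcl : Cfsg.IsClassFunction G (fun g => ∑ B ∈ 𝔅, Cfsg.blockCoeff B g) := by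
      intro g h
      exact Finset.sum_congr rfl fun B _ => Helper77.blockCoeff_isClassFunction B g h
    apply Helper77.eq_of_omega_eq (Helper77.blockCoeff_isClassFunction U) hcl
    intro ψ
    have h1 : Helper81.omega (ψ : G → ℂ) (fun g => ∑ B ∈ 𝔅, Cfsg.blockCoeff B g)
        = ∑ B ∈ 𝔅, Helper81.omega (ψ : G → ℂ) (Cfsg.blockCoeff B) := by
      simp only [Helper81.omega, Finset.sum_mul, ← Finset.sum_div]
      rw [Finset.sum_comm]
    rw [h1]
    by_cases hψ : ψ ∈ U
    · rw [Helper77.omega_blockCoeff_of_mem hψ,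
        Finset.sum_eq_single (Cfsg.blockOf M (ψ : G → ℂ))]
      · rw [Helper77.omega_blockCoeff_of_mem (sameBlock_refl hM _)]
      · intro B hB hne
        apply Helper77.omega_blockCoeff_of_not_mem
        intro hψB
        obtain ⟨ψ', -, rfl⟩ := hmem B hB
        exact hne (blockOf_eq_of_mem hM hψB).symm
      · intro hnot
        exfalso
        apply hnot
        rw [h𝔅, Finset.mem_image]
        exact ⟨ψ, Finset.mem_filter.mpr ⟨Finset.mem_univ _, hψ⟩, rfl⟩
    · rw [Helper77.omega_blockCoeff_of_not_mem hψ]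
      symm
      apply Finset.sum_eq_zero
      intro B hB
      apply Helper77.omega_blockCoeff_of_not_mem
      intro hψB
      obtain ⟨ψ', hψ', rfl⟩ := hmem B hB
      exact hψ (hU ψ' ψ hψ' hψB)
  by_contra hcon
  push Not at hcon
  apply hg
  rw [key]
  apply Helper77.memLocalIdeal_sum hM
  intro B hB
  obtain ⟨ψ', hψ', rfl⟩ := hmem B hB
  exact hcon ψ' hψ'

section fong

variable {p : ℕ} [Fact p.Prime] {M : Ideal Cfsg.AlgInt} (N : Subgroup G) [hN : N.Normal]
  [Fintype N] {b : Set (Cfsg.IrrCharacter N)}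

/-- The set of irreducible characters of `G` lying over the set `b` of characters of `N`. -/
def fongCover (N : Subgroup G) [Fintype N] (b : Set (Cfsg.IrrCharacter N)) :
    Set (Cfsg.IrrCharacter G) :=
  {χ | ∃ θ ∈ b, Cfsg.classInner (fun n : N => (χ : G → ℂ) n) (θ : N → ℂ) ≠ 0}

omit [Fintype G] in
theorem fong_ext0_isClassFunction (hinv : ∀ g : G, ∀ θ ∈ b, irrConj N g θ ∈ b) :
    Cfsg.IsClassFunction G (ext0 N (Cfsg.blockCoeff b)) :=
  ext0_isClassFunction_of_conj N (blockCoeff_conj_of_stable N hinv)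

theorem fong_omega_ext0 (hinv : ∀ g : G, ∀ θ ∈ b, irrConj N g θ ∈ b)
    (χ : Cfsg.IrrCharacter G) (θ : Cfsg.IrrCharacter N)
    (hθ : Cfsg.classInner (fun n : N => (χ : G → ℂ) n) (θ : N → ℂ) ≠ 0) :
    Helper81.omega (χ : G → ℂ) (ext0 N (Cfsg.blockCoeff b))
      = Helper81.omega (θ : N → ℂ) (Cfsg.blockCoeff b) := by
  have h := Helper76.omega_eq_omega_res_of_constituent N (fong_ext0_isClassFunction N hinv)
    (fun g hg => ext0_apply_not_mem N _ hg) χ θ hθ
  rw [h]
  congr 1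
  funext n
  exact ext0_apply_coe N _ n

/-- `Ω_χ` of the extended idempotent of `b` is `1` or `0` according as `χ` lies over `b`. -/
theorem fong_omega_cover (hinv : ∀ g : G, ∀ θ ∈ b, irrConj N g θ ∈ b)
    (χ : Cfsg.IrrCharacter G) :
    (χ ∈ fongCover N b → Helper81.omega (χ : G → ℂ) (ext0 N (Cfsg.blockCoeff b)) = 1) ∧
    (χ ∉ fongCover N b → Helper81.omega (χ : G → ℂ) (ext0 N (Cfsg.blockCoeff b)) = 0) := by
  constructor
  · rintro ⟨θ, hθb, hθ⟩
    rw [fong_omega_ext0 N hinv χ θ hθ]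
    exact Helper77.omega_blockCoeff_of_mem hθb
  · intro hχ
    have hne : (fun n : N => (χ : G → ℂ) n) ≠ 0 := by
      intro h0
      have h1 := congrFun h0 1
      exact Helper81.irr_one_ne_zero χ (by simpa using h1)
    obtain ⟨θ, hθ⟩ := Helper15.exists_constituent
      (isClassFunction_res (Helper81.irr_isClassFunction χ) N) hne
    rw [fong_omega_ext0 N hinv χ θ hθ]
    apply Helper77.omega_blockCoeff_of_not_mem
    intro hθb
    exact hχ ⟨θ, hθb, hθ⟩

/-- The extended idempotent of an invariant block `b` of `N` is the idempotent of the set of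
characters of `G` lying over `b`. -/
theorem fong_blockCoeff_cover (hinv : ∀ g : G, ∀ θ ∈ b, irrConj N g θ ∈ b) :
    Cfsg.blockCoeff (fongCover N b) = ext0 N (Cfsg.blockCoeff b) := by
  apply Helper77.eq_of_omega_eq (Helper77.blockCoeff_isClassFunction _)
    (fong_ext0_isClassFunction N hinv)
  intro ψ
  by_cases hψ : ψ ∈ fongCover N b
  · rw [Helper77.omega_blockCoeff_of_mem hψ, (fong_omega_cover N hinv ψ).1 hψ]
  · rw [Helper77.omega_blockCoeff_of_not_mem hψ, (fong_omega_cover N hinv ψ).2 hψ]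

/-- The set of characters lying over an invariant block is a union of blocks. -/
theorem fong_cover_closed (hM : M.IsMaximal) (hb : Cfsg.IsPBlock M b)
    (hinv : ∀ g : G, ∀ θ ∈ b, irrConj N g θ ∈ b) (ψ ψ' : Cfsg.IrrCharacter G)
    (hψ : ψ ∈ fongCover N b) (h : Cfsg.SameBlock M (ψ : G → ℂ) (ψ' : G → ℂ)) :
    ψ' ∈ fongCover N b := by
  by_contra hψ'
  have h1 := omega_sub_memLocalIdeal hM ψ ψ' h (fong_ext0_isClassFunction N hinv)
    (ext0_memLocalRing hM N (fun k => Helper77.blockCoeff_memLocalRing hM hb k))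
  rw [(fong_omega_cover N hinv ψ).1 hψ, (fong_omega_cover N hinv ψ').2 hψ', sub_zero] at h1
  exact Helper77.not_memLocalIdeal_one hM h1

/-- A character lying over `b` has a class in `N` at which both the idempotent of `b` and its
central character are units. -/
theorem fong_exists_class (hM : M.IsMaximal) (hb : Cfsg.IsPBlock M b)
    (hinv : ∀ g : G, ∀ θ ∈ b, irrConj N g θ ∈ b) (χ : Cfsg.IrrCharacter G)
    (hχ : χ ∈ fongCover N b) :
    ∃ x : N, ¬ Cfsg.MemLocalIdeal M (Cfsg.blockCoeff b x) ∧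
      ¬ Cfsg.MemLocalIdeal M (Cfsg.centralChar (χ : G → ℂ) (x : G)) := by
  classical
  have := Fintype.ofFinite (ConjClasses G)
  have h1 := (fong_omega_cover N hinv χ).1 hχ
  rw [Helper77.omega_eq_sum_conjClasses χ (fong_ext0_isClassFunction N hinv)] at h1
  by_contra hcon
  push Not at hcon
  apply Helper77.not_memLocalIdeal_one hM
  rw [← h1]
  refine Helper77.memLocalIdeal_sum hM _ _ fun c _ => ?_
  by_cases hc : Quotient.out c ∈ N
  · rw [ext0_apply_mem N _ hc]
    by_cases h2 : Cfsg.MemLocalIdeal M (Cfsg.blockCoeff b ⟨Quotient.out c, hc⟩)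
    · exact Helper77.memLocalIdeal_mul' hM h2 (centralChar_memLocalRing hM χ _)
    · exact Helper77.memLocalIdeal_mul hM (Helper77.blockCoeff_memLocalRing hM hb _)
        (hcon ⟨Quotient.out c, hc⟩ h2)
  · rw [ext0_apply_not_mem N _ hc, zero_mul]
    exact Helper77.memLocalIdeal_zero hM

omit [Fintype G] [Fintype N] in
theorem fong_centralChar_irrConj (g : G) (θ : Cfsg.IrrCharacter N) (x : N) :
    Cfsg.centralChar (irrConj N g θ : N → ℂ) x
      = Cfsg.centralChar (θ : N → ℂ) ⟨g⁻¹ * (x : G) * g, by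
          have := hN.conj_mem x x.2 g⁻¹
          rwa [inv_inv] at this⟩ :=
  Helper75.centralChar_comp_mulEquiv _ _ _

/-- A class of `N` at which the idempotent of `b` and the central character of a character lying
over `b` are units is a defect class of `b`. -/
theorem fong_isDefectClass (hM : M.IsMaximal) (hb : Cfsg.IsPBlock M b)
    (hinv : ∀ g : G, ∀ θ ∈ b, irrConj N g θ ∈ b) (χ : Cfsg.IrrCharacter G)
    (θ : Cfsg.IrrCharacter N) (hθb : θ ∈ b)
    (hθ : Cfsg.classInner (fun n : N => (χ : G → ℂ) n) (θ : N → ℂ) ≠ 0) (x : N)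
    (h1 : ¬ Cfsg.MemLocalIdeal M (Cfsg.blockCoeff b x))
    (h2 : ¬ Cfsg.MemLocalIdeal M (Cfsg.centralChar (χ : G → ℂ) (x : G))) :
    Cfsg.IsDefectClass M b x ∧
      ¬ Cfsg.MemLocalIdeal M (Cfsg.inducedCentralChar N (θ : N → ℂ) (x : G)) := by
  have h3 := Helper76.centralChar_sub_inducedCentralChar_memLocalIdeal hM N χ χ
    (sameBlock_refl hM _) θ θ (sameBlock_refl hM _) hθ x
  have h4 : ¬ Cfsg.MemLocalIdeal M (Cfsg.inducedCentralChar N (θ : N → ℂ) (x : G)) := by
    intro h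
    apply h2
    have := Helper77.memLocalIdeal_add hM h3 h
    rwa [sub_add_cancel] at this
  refine ⟨⟨Helper77.blockCoeff_memLocalRing hM hb x, h1, ?_⟩, h4⟩
  obtain ⟨h', hconj, hh'⟩ := exists_centralChar_not_memLocalIdeal_of_induced hM N θ h4
  obtain ⟨c, hc⟩ := isConj_iff.mp hconj
  have h5 : ¬ Cfsg.MemLocalIdeal M (Cfsg.centralChar (irrConj N c⁻¹ θ : N → ℂ) x) := by
    rw [fong_centralChar_irrConj]
    have e : (⟨c⁻¹⁻¹ * (x : G) * c⁻¹, by
        rw [inv_inv]; exact hN.conj_mem x x.2 c⟩ : N) = h' :=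
      Subtype.ext (by
        show c⁻¹⁻¹ * (x : G) * c⁻¹ = (h' : G)
        rw [inv_inv]; exact hc)
    rw [e]
    exact hh'
  intro θ' hθ'
  exact not_memLocalIdeal_centralChar_of_mem hM hb ⟨_, hinv c⁻¹ θ hθb, h5⟩ hθ'

/-- A defect group of a block covering the invariant block `b` centralizes a defect class of
`b`. -/
theorem fong_exists_defectClass_centralizer (hM : Cfsg.IsPModular p M) (hb : Cfsg.IsPBlock M b)
    (hinv : ∀ g : G, ∀ θ ∈ b, irrConj N g θ ∈ b) {B' : Set (Cfsg.IrrCharacter G)}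
    (hB' : Cfsg.IsPBlock M B') (χ : Cfsg.IrrCharacter G) (hχ : χ ∈ B')
    (θ : Cfsg.IrrCharacter N) (hθb : θ ∈ b)
    (hθ : Cfsg.classInner (fun n : N => (χ : G → ℂ) n) (θ : N → ℂ) ≠ 0) {P' : Subgroup G}
    (hP' : Cfsg.IsDefectGroup p M B' P') :
    ∃ x : N, Cfsg.IsDefectClass M b x ∧ P' ≤ Subgroup.centralizer ({(x : G)} : Set G) := by
  classical
  have hMm := hM.2.1
  obtain ⟨x₀, hx1, hx2⟩ := fong_exists_class N hMm hb hinv χ ⟨θ, hθb, hθ⟩
  obtain ⟨g₀, hg₀, hPg₀, -, hPp⟩ := isDefectGroup_exists_data hP'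
  have S : Sylow p (Subgroup.centralizer ({(x₀ : G)} : Set G)) := default
  obtain ⟨u, hu⟩ := minmax_conjLE hM hB' (x₀ : G) ⟨χ, hχ, hx2⟩ S g₀ hg₀.2.1 P' hPp hPg₀
  have hxN : u⁻¹ * (x₀ : G) * u ∈ N := by
    have := hN.conj_mem x₀ x₀.2 u⁻¹
    rwa [inv_inv] at this
  refine ⟨⟨u⁻¹ * (x₀ : G) * u, hxN⟩, ?_, ?_⟩
  · refine (fong_isDefectClass N hMm hb hinv χ θ hθb hθ _ ?_ ?_).1
    · rw [blockCoeff_conj_of_stable N hinv u x₀]
      exact hx1
    · have h := centralChar_conj χ (x₀ : G) u⁻¹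
      rw [inv_inv] at h
      show ¬ Cfsg.MemLocalIdeal M (Cfsg.centralChar (χ : G → ℂ) (u⁻¹ * (x₀ : G) * u))
      rw [h]
      exact hx2
  · intro q hq
    obtain ⟨s, -, hs⟩ := hu q hq
    have h1 : (x₀ : G) * (u * q * u⁻¹) = (u * q * u⁻¹) * (x₀ : G) := by
      have := Subgroup.mem_centralizer_iff.mp s.2 (x₀ : G) rfl
      rw [← hs]
      exact this
    rw [Subgroup.mem_centralizer_iff]
    intro y hy
    rw [Set.mem_singleton_iff] at hy
    subst hy
    show u⁻¹ * (x₀ : G) * u * q = q * (u⁻¹ * (x₀ : G) * u)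
    calc u⁻¹ * (x₀ : G) * u * q = u⁻¹ * ((x₀ : G) * (u * q * u⁻¹)) * u := by group
      _ = u⁻¹ * ((u * q * u⁻¹) * (x₀ : G)) * u := by rw [h1]
      _ = q * (u⁻¹ * (x₀ : G) * u) := by group

omit [Fintype G] [Fintype N] in
/-- Counting for a `p`-subgroup centralizing an element of the normal subgroup `N`. -/
theorem fong_card_pSubgroup [Finite G] {P' : Subgroup G} (hPp : IsPGroup p P') (x : N)
    (hPx : P' ≤ Subgroup.centralizer ({(x : G)} : Set G)) :
    ∃ i j : ℕ, Nat.card (N ⊓ P' : Subgroup G) = p ^ i ∧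
      i ≤ (Nat.card (Subgroup.centralizer ({x} : Set N))).factorization p ∧
      N.relIndex P' = p ^ j ∧ j ≤ N.index.factorization p ∧ Nat.card P' = p ^ (i + j) := by
  have hp : p.Prime := Fact.out
  have h1 := fongCount_card_eq_inf_mul_relIndex N P'
  obtain ⟨a, ha⟩ := IsPGroup.iff_card.mp hPp
  have hinf : IsPGroup p (N ⊓ P' : Subgroup G) := hPp.to_le inf_le_right
  obtain ⟨i, hi⟩ := IsPGroup.iff_card.mp hinf
  have hdvd : N.relIndex P' ∣ p ^ a := by
    rw [← ha, h1]
    exact Dvd.intro_left _ rfl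
  obtain ⟨j, -, hj⟩ := (Nat.dvd_prime_pow hp).mp hdvd
  refine ⟨i, j, hi, ?_, hj, ?_, ?_⟩
  · have h2 : Nat.card (N ⊓ P' : Subgroup G)
        ∣ Nat.card (N ⊓ Subgroup.centralizer ({(x : G)} : Set G) : Subgroup G) :=
      Subgroup.card_dvd_of_le (inf_le_inf_left N hPx)
    rw [← fongCount_card_inf_centralizer N x, hi] at h2
    exact (hp.pow_dvd_iff_le_factorization Nat.card_pos.ne').mp h2
  · have h2 : N.relIndex P' ∣ N.index := Subgroup.relIndex_dvd_index_of_normal N P'
    rw [hj] at h2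
    exact (hp.pow_dvd_iff_le_factorization Subgroup.index_ne_zero_of_finite).mp h2
  · rw [h1, hi, hj, pow_add]

/-- Some block covering the invariant block `b` has defect at least `d(b) + ν_p |G : N|`. -/
theorem fong_exists_cover_defect_ge (hM : Cfsg.IsPModular p M) (hb : Cfsg.IsPBlock M b)
    (hinv : ∀ g : G, ∀ θ ∈ b, irrConj N g θ ∈ b) :
    ∃ B' : Set (Cfsg.IrrCharacter G), Cfsg.IsPBlock M B' ∧
      (∃ χ ∈ B', ∃ θ ∈ b, Cfsg.classInner (fun n : N => (χ : G → ℂ) n) (θ : N → ℂ) ≠ 0) ∧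
      Cfsg.blockDefect p b + N.index.factorization p ≤ Cfsg.blockDefect p B' := by
  classical
  have hMm := hM.2.1
  obtain ⟨θ, hθb⟩ := exists_mem_of_isPBlock hMm hb
  obtain ⟨χ, hθ⟩ := Helper76.exists_irr_over N θ
  obtain ⟨x, hx1, hx2⟩ := fong_exists_class N hMm hb hinv χ ⟨θ, hθb, hθ⟩
  obtain ⟨hdef, hind⟩ := fong_isDefectClass N hMm hb hinv χ θ hθb hθ x hx1 hx2
  have hθinv : ∀ g : G, Cfsg.SameBlock M (irrConj N g θ : N → ℂ) (θ : N → ℂ) :=
    fun g => sameBlock_of_mem hMm hb (hinv g θ hθb) hθb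
  have hfac := (fongCount_factorization_centralizer hM N θ hθinv x hind).1
  rw [factorization_centralizer_of_isDefectClass hM hb hdef] at hfac
  have hU : ¬ Cfsg.MemLocalIdeal M (Cfsg.blockCoeff (fongCover N b) (x : G)) := by
    rw [fong_blockCoeff_cover N hinv, ext0_apply_coe]
    exact hx1
  obtain ⟨ψ, hψU, hψ⟩ := fong_exists_block_of_closed hMm (fong_cover_closed N hMm hb hinv)
    (x : G) hU
  refine ⟨Cfsg.blockOf M (ψ : G → ℂ), ⟨ψ, rfl⟩, ⟨ψ, sameBlock_refl hMm _, hψU⟩, ?_⟩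
  have h2 := Helper77.factorization_centralizer_le_blockDefect hM
    (⟨ψ, rfl⟩ : Cfsg.IsPBlock M (Cfsg.blockOf M (ψ : G → ℂ))) hψ
  omega

/-- **Fong's theorem.** Let `b` be a `G`-invariant block of the normal subgroup `N`, `B` a block
of `G` covering `b` of maximal defect among the blocks covering `b`, and `P` a defect group of
`B`.  Then `p ∤ |G : P N|`, `P ∩ N` is a defect group of `b` and `d(B) = d(b) + ν_p |G : N|`. -/
theorem fong_main (hM : Cfsg.IsPModular p M) (hb : Cfsg.IsPBlock M b)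
    (hinv : ∀ g : G, ∀ θ ∈ b, irrConj N g θ ∈ b) {B : Set (Cfsg.IrrCharacter G)}
    (hB : Cfsg.IsPBlock M B)
    (hcov : ∃ χ ∈ B, ∃ θ ∈ b, Cfsg.classInner (fun n : N => (χ : G → ℂ) n) (θ : N → ℂ) ≠ 0)
    (hmax : ∀ B' : Set (Cfsg.IrrCharacter G), Cfsg.IsPBlock M B' →
      (∃ χ ∈ B', ∃ θ ∈ b, Cfsg.classInner (fun n : N => (χ : G → ℂ) n) (θ : N → ℂ) ≠ 0) →
      Cfsg.blockDefect p B' ≤ Cfsg.blockDefect p B)
    {P : Subgroup G} (hP : Cfsg.IsDefectGroup p M B P) :
    ¬ p ∣ (P ⊔ N).index ∧ Cfsg.IsDefectGroup p M b ((P ⊓ N).subgroupOf N) ∧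
      Cfsg.blockDefect p B = Cfsg.blockDefect p b + N.index.factorization p := by
  classical
  have hp : p.Prime := Fact.out
  obtain ⟨χ, hχ, θ, hθb, hθ⟩ := hcov
  obtain ⟨x, hx, hPx⟩ := fong_exists_defectClass_centralizer N hM hb hinv hB χ hχ θ hθb hθ hP
  obtain ⟨-, -, -, -, hPp⟩ := isDefectGroup_exists_data hP
  obtain ⟨i, j, hi, hile, hj, hjle, hij⟩ := fong_card_pSubgroup N hPp x hPx
  have hcardP := Helper77.card_of_isDefectGroup hM hB hP
  have hdB : Cfsg.blockDefect p B = i + j := by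
    rw [hcardP] at hij
    exact Nat.pow_right_injective hp.two_le hij
  have hfac := factorization_centralizer_of_isDefectClass hM hb hx
  obtain ⟨B', hB', hcov', hge⟩ := fong_exists_cover_defect_ge N hM hb hinv
  have hle := hmax B' hB' hcov'
  have hi' : i = Cfsg.blockDefect p b := by omega
  have hj' : j = N.index.factorization p := by omega
  refine ⟨?_, ?_, by omega⟩
  · intro hdvd
    have h1 : N.relIndex (P ⊔ N) * (P ⊔ N : Subgroup G).index = N.index :=
      Subgroup.relIndex_mul_index le_sup_right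
    have h2 : N.relIndex (P ⊔ N) = N.relIndex P := Subgroup.relIndex_sup_right P N
    rw [h2, hj, hj'] at h1
    have h3 : p ^ (N.index.factorization p) * p
        ∣ p ^ (N.index.factorization p) * (P ⊔ N : Subgroup G).index :=
      Nat.mul_dvd_mul_left _ hdvd
    rw [h1, ← pow_succ] at h3
    exact Nat.pow_succ_factorization_not_dvd (Subgroup.index_ne_zero_of_finite (H := N)) hp h3
  · apply isDefectGroup_of_card hx
    · intro n hn
      rw [Subgroup.mem_subgroupOf] at hn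
      have h1 := Subgroup.mem_centralizer_iff.mp (hPx hn.1) (x : G) rfl
      rw [Subgroup.mem_centralizer_iff]
      intro y hy
      rw [Set.mem_singleton_iff] at hy
      subst hy
      exact Subtype.ext h1
    · rw [hfac, ← hi', ← hi, inf_comm N P]
      exact Nat.card_congr (Subgroup.subgroupOfEquivOfLe (inf_le_right : P ⊓ N ≤ N)).toEquiv

end fong

end Cfsg.Agent.Helper16
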