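import Cfsg.Agent.Helper16.CoverInd
import Cfsg.Agent.Helper16.IndCentral
import Cfsg.Agent.Helper16.HeightZero

/-!
# Counting lemmas for Fong's theorem on covering blocks

* `fongCount_card_sup_centralizer`: `|N C_G(x)| |C_N(x)| = |N| |C_G(x)|` for `x ∈ N ⊴ G`.
* `fongCount_sum_cosets`: a sum over `G` of a function invariant under right multiplication by
  a subgroup `T` is `|T|` times the sum over coset representatives.
* `fongCount_inducedCentralChar_congr`: if all `G`-conjugates of `θ ∈ Irr(N)` lie in the block of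
  `θ`, then the induced central character of `θ` at `x ∈ N` is congruent to
  `|G : N C_G(x)|` times the central character of `θ` at `x`.
-/

set_option autoImplicit false
open Cfsg
open scoped ComplexConjugate

namespace Cfsg.Agent.Helper16

universe u

variable {G : Type u} [Group G] [Fintype G]

omit [Fintype G] in
theorem fongCount_card_inf_centralizer [Finite G] (N : Subgroup G) (x : N) :
    Nat.card (Subgroup.centralizer ({x} : Set N))
      = Nat.card (N ⊓ Subgroup.centralizer ({(x : G)} : Set G) : Subgroup G) := by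
  have h1 : (Subgroup.centralizer ({x} : Set N)).map N.subtype
      = N ⊓ Subgroup.centralizer ({(x : G)} : Set G) := by
    ext y
    simp only [Subgroup.mem_map, Subgroup.mem_inf, Subgroup.mem_centralizer_iff,
      Set.mem_singleton_iff, forall_eq, Subgroup.coe_subtype]
    constructor
    · rintro ⟨n, hn, rfl⟩
      exact ⟨n.2, congrArg Subtype.val hn⟩
    · rintro ⟨hy, hc⟩
      exact ⟨⟨y, hy⟩, Subtype.ext hc, rfl⟩
  rw [← h1, Subgroup.card_map_of_injective N.subtype_injective]

omit [Fintype G] in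
/-- `|N C_G(x)| |C_N(x)| = |N| |C_G(x)|` for `x` in the normal subgroup `N`. -/
theorem fongCount_card_sup_centralizer [Finite G] (N : Subgroup G) [N.Normal] (x : N) :
    Nat.card (N ⊔ Subgroup.centralizer ({(x : G)} : Set G) : Subgroup G)
        * Nat.card (Subgroup.centralizer ({x} : Set N))
      = Nat.card N * Nat.card (Subgroup.centralizer ({(x : G)} : Set G)) := by
  obtain ⟨C, hC⟩ : ∃ C : Subgroup G, C = Subgroup.centralizer ({(x : G)} : Set G) := ⟨_, rfl⟩
  rw [← hC]
  have h1 : Nat.card (N.subgroupOf (N ⊔ C)) * N.relIndex (N ⊔ C) = Nat.card (N ⊔ C : Subgroup G) :=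
    Subgroup.card_mul_index (N.subgroupOf (N ⊔ C))
  have h2 : Nat.card (N.subgroupOf (N ⊔ C)) = Nat.card N :=
    Nat.card_congr (Subgroup.subgroupOfEquivOfLe (le_sup_left : N ≤ N ⊔ C)).toEquiv
  have h3 : N.relIndex (N ⊔ C) = N.relIndex C := Subgroup.relIndex_sup_left C N
  have h4 : Nat.card (N.subgroupOf C) * N.relIndex C = Nat.card C :=
    Subgroup.card_mul_index (N.subgroupOf C)
  have h5 : Nat.card (N.subgroupOf C) = Nat.card (N ⊓ C : Subgroup G) := by
    rw [← Subgroup.subgroupOf_map_subtype, Subgroup.card_map_of_injective C.subtype_injective]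
  have h6 := fongCount_card_inf_centralizer N x
  rw [← hC] at h6
  rw [← h1, h2, h3, h6, ← h4, h5]
  ring

/-- A sum over `G` of a function invariant under right multiplication by the subgroup `T` is
`|T|` times the sum over coset representatives. -/
theorem fongCount_sum_cosets (T : Subgroup G) [Fintype (G ⧸ T)] (ψ : G → ℂ)
    (hψ : ∀ u : G, ∀ t ∈ T, ψ (u * t) = ψ u) :
    ∑ u : G, ψ u = (Nat.card T : ℂ) * ∑ q : G ⧸ T, ψ (Quotient.out q) := by
  classical
  rw [← Finset.sum_fiberwise Finset.univ (fun u : G => (u : G ⧸ T)) ψ, Finset.mul_sum]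
  refine Finset.sum_congr rfl fun q _ => ?_
  have h1 : ∀ u ∈ Finset.univ.filter (fun u : G => (u : G ⧸ T) = q), ψ u = ψ (Quotient.out q) := by
    intro u hu
    have hu' : (u : G ⧸ T) = q := (Finset.mem_filter.mp hu).2
    have h2 : ((Quotient.out q : G) : G ⧸ T) = (u : G ⧸ T) := by
      rw [hu']; exact QuotientGroup.out_eq' q
    have h3 : (Quotient.out q)⁻¹ * u ∈ T := QuotientGroup.eq.mp h2
    have h4 := hψ (Quotient.out q) _ h3
    rw [mul_inv_cancel_left] at h4
    exact h4
  rw [Finset.sum_congr rfl h1, Finset.sum_const, nsmul_eq_mul]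
  congr 2
  have h5 := QuotientGroup.card_preimage_mk T ({q} : Set (G ⧸ T))
  have h6 : Nat.card ({q} : Set (G ⧸ T)) = 1 := by simp
  rw [h6, mul_one] at h5
  rw [← h5, Nat.card_eq_fintype_card, Fintype.card_subtype]
  congr 1
  ext u
  simp

omit [Fintype G] in
theorem fongCount_ext0_eq_extendByZero (H : Subgroup G) (f : H → ℂ) :
    ext0 H f = Cfsg.extendByZero H f := by
  funext y
  unfold Cfsg.extendByZero
  by_cases hy : y ∈ H
  · rw [ext0_apply_mem H f hy]
    exact (Subtype.val_injective.extend_apply f 0 ⟨y, hy⟩).symm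
  · rw [ext0_apply_not_mem H f hy, Function.extend_apply']
    · rfl
    · rintro ⟨a, rfl⟩
      exact hy a.2

omit [Fintype G] in
/-- The central character of a conjugate character. -/
theorem fongCount_centralChar_irrConj (N : Subgroup G) [hN : N.Normal]
    (θ : Cfsg.IrrCharacter N) (u : G) (x : N) :
    Cfsg.centralChar (irrConj N u⁻¹ θ : N → ℂ) x
      = ((Subgroup.centralizer ({x} : Set N)).index : ℂ)
          * ext0 N (θ : N → ℂ) (u * (x : G) * u⁻¹) / (θ : N → ℂ) 1 := by
  unfold Cfsg.centralChar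
  rw [irrConj_apply, irrConj_apply, ext0_apply_mem N _ (hN.conj_mem x x.2 u)]
  have e1 : (⟨u⁻¹⁻¹ * ((1 : N) : G) * u⁻¹, by
      simp⟩ : N) = 1 := Subtype.ext (by simp)
  have e2 : (⟨u⁻¹⁻¹ * (x : G) * u⁻¹, by
      simpa using hN.conj_mem x x.2 u⟩ : N) = ⟨u * (x : G) * u⁻¹, hN.conj_mem x x.2 u⟩ :=
    Subtype.ext (by simp)
  rw [e1, e2]

/-- If all `G`-conjugates of `θ ∈ Irr(N)` lie in the block of `θ`, the induced central
character of `θ` at `x ∈ N` is congruent to `|G : N C_G(x)|` times the central character of `θ`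
at `x`. -/
theorem fongCount_inducedCentralChar_congr {M : Ideal Cfsg.AlgInt} (hM : M.IsMaximal)
    (N : Subgroup G) [hN : N.Normal] [Fintype N] (θ : Cfsg.IrrCharacter N)
    (hθ : ∀ g : G, Cfsg.SameBlock M (irrConj N g θ : N → ℂ) (θ : N → ℂ)) (x : N) :
    Cfsg.MemLocalIdeal M (Cfsg.inducedCentralChar N (θ : N → ℂ) (x : G)
      - ((N ⊔ Subgroup.centralizer ({(x : G)} : Set G) : Subgroup G).index : ℂ)
          * Cfsg.centralChar (θ : N → ℂ) x) := by
  classical
  have hcount := fongCount_card_sup_centralizer N x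
  obtain ⟨T, hT⟩ : ∃ T : Subgroup G, T = N ⊔ Subgroup.centralizer ({(x : G)} : Set G) :=
    ⟨_, rfl⟩
  rw [← hT] at hcount ⊢
  have := Fintype.ofFinite (G ⧸ T)
  obtain ⟨ψ, hψdef⟩ : ∃ ψ : G → ℂ, ψ = fun u => ext0 N (θ : N → ℂ) (u * (x : G) * u⁻¹) :=
    ⟨_, rfl⟩
  have hθcl : Cfsg.IsClassFunction N (θ : N → ℂ) := Helper81.irr_isClassFunction θ
  have hinv : ∀ u : G, ∀ t ∈ T, ψ (u * t) = ψ u := by
    intro u t ht
    rw [hT, ← SetLike.mem_coe, Subgroup.normal_mul] at ht
    obtain ⟨n, hn, c, hc, rfl⟩ := Set.mem_mul.mp ht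
    have hc' : c * (x : G) * c⁻¹ = (x : G) := by
      have h := Subgroup.mem_centralizer_iff.mp hc (x : G) rfl
      rw [← h, mul_inv_cancel_right]
    rw [hψdef]
    show ext0 N _ (u * (n * c) * (x : G) * (u * (n * c))⁻¹) = ext0 N _ (u * (x : G) * u⁻¹)
    have e : u * (n * c) * (x : G) * (u * (n * c))⁻¹
        = (u * n * u⁻¹) * (u * (x : G) * u⁻¹) * (u * n * u⁻¹)⁻¹ := by
      calc u * (n * c) * (x : G) * (u * (n * c))⁻¹
          = u * n * (c * (x : G) * c⁻¹) * n⁻¹ * u⁻¹ := by group
        _ = u * n * (x : G) * n⁻¹ * u⁻¹ := by rw [hc']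
        _ = _ := by group
    rw [e]
    exact ext0_conjInv N hθcl (hN.conj_mem n hn u) _
  have h1 := inducedCentralChar_eq_sum N (θ : N → ℂ) (x : G)
  have h2 := sum_conj_eq (x : G) (Cfsg.extendByZero N (θ : N → ℂ))
  have h3 : ∑ u : G, Cfsg.extendByZero N (θ : N → ℂ) (u⁻¹ * (x : G) * u) = ∑ u : G, ψ u := by
    rw [← Equiv.sum_comp (Equiv.inv G) ψ]
    refine Finset.sum_congr rfl fun u _ => ?_
    rw [hψdef, fongCount_ext0_eq_extendByZero]
    simp
  have h4 := fongCount_sum_cosets T ψ hinv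
  have h5 : ∀ q : G ⧸ T, Cfsg.centralChar (irrConj N (Quotient.out q)⁻¹ θ : N → ℂ) x
      = ((Subgroup.centralizer ({x} : Set N)).index : ℂ) * ψ (Quotient.out q)
          / (θ : N → ℂ) 1 := by
    intro q
    rw [fongCount_centralChar_irrConj, hψdef]
  have hθ1 : (θ : N → ℂ) 1 ≠ 0 := Helper81.irr_one_ne_zero θ
  have hC : (Nat.card (Subgroup.centralizer ({(x : G)} : Set G)) : ℂ) ≠ 0 := by
    have : 0 < Nat.card (Subgroup.centralizer ({(x : G)} : Set G)) := Nat.card_pos
    exact_mod_cast this.ne'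
  have hCN : (Nat.card (Subgroup.centralizer ({x} : Set N)) : ℂ) ≠ 0 := by
    have : 0 < Nat.card (Subgroup.centralizer ({x} : Set N)) := Nat.card_pos
    exact_mod_cast this.ne'
  have hidx : ((Subgroup.centralizer ({x} : Set N)).index : ℂ)
      * (Nat.card (Subgroup.centralizer ({x} : Set N)) : ℂ) = (Nat.card N : ℂ) := by
    have := Subgroup.card_mul_index (Subgroup.centralizer ({x} : Set N))
    rw [mul_comm] at this
    exact_mod_cast this
  have hcount' : (Nat.card T : ℂ) * (Nat.card (Subgroup.centralizer ({x} : Set N)) : ℂ)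
      = (Nat.card N : ℂ) * (Nat.card (Subgroup.centralizer ({(x : G)} : Set G)) : ℂ) := by
    exact_mod_cast hcount
  have key : Cfsg.inducedCentralChar N (θ : N → ℂ) (x : G)
      = ∑ q : G ⧸ T, Cfsg.centralChar (irrConj N (Quotient.out q)⁻¹ θ : N → ℂ) x := by
    rw [h1, Finset.sum_congr rfl fun q _ => h5 q, ← Finset.sum_div, ← Finset.mul_sum]
    have h6 : ∑ k ∈ Finset.univ.filter (fun k : G => IsConj (x : G) k),
        Cfsg.extendByZero N (θ : N → ℂ) k
        = (Nat.card T : ℂ) * (∑ q : G ⧸ T, ψ (Quotient.out q))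
          / (Nat.card (Subgroup.centralizer ({(x : G)} : Set G)) : ℂ) := by
      rw [← h4, ← h3, h2]
      field_simp
    rw [h6]
    congr 1
    have h7 : (Nat.card T : ℂ) / (Nat.card (Subgroup.centralizer ({(x : G)} : Set G)) : ℂ)
        = ((Subgroup.centralizer ({x} : Set N)).index : ℂ) := by
      rw [div_eq_iff hC]
      have h8 : ((Subgroup.centralizer ({x} : Set N)).index : ℂ)
          = (Nat.card N : ℂ) / (Nat.card (Subgroup.centralizer ({x} : Set N)) : ℂ) := by
        rw [eq_div_iff hCN]; exact hidx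
      rw [h8, div_mul_eq_mul_div, eq_div_iff hCN]
      exact hcount'
    rw [← h7]
    ring
  have hidxT : (T.index : ℂ) = (Fintype.card (G ⧸ T) : ℂ) := by
    rw [Subgroup.index_eq_card, Nat.card_eq_fintype_card]
  have hfin : Cfsg.inducedCentralChar N (θ : N → ℂ) (x : G)
      - (T.index : ℂ) * Cfsg.centralChar (θ : N → ℂ) x
      = ∑ q : G ⧸ T, (Cfsg.centralChar (irrConj N (Quotient.out q)⁻¹ θ : N → ℂ) x
          - Cfsg.centralChar (θ : N → ℂ) x) := by
    rw [key, Finset.sum_sub_distrib, Finset.sum_const, Finset.card_univ, nsmul_eq_mul, hidxT]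
  rw [hfin]
  exact Helper77.memLocalIdeal_sum hM _ _ fun q _ => hθ (Quotient.out q)⁻¹ x

omit [Fintype G] in
/-- `|K| = |N ∩ K| |K N : N|`. -/
theorem fongCount_card_eq_inf_mul_relIndex [Finite G] (N K : Subgroup G) :
    Nat.card K = Nat.card (N ⊓ K : Subgroup G) * N.relIndex K := by
  have h4 : Nat.card (N.subgroupOf K) * N.relIndex K = Nat.card K :=
    Subgroup.card_mul_index (N.subgroupOf K)
  have h5 : Nat.card (N.subgroupOf K) = Nat.card (N ⊓ K : Subgroup G) := by
    rw [← Subgroup.subgroupOf_map_subtype, Subgroup.card_map_of_injective K.subtype_injective]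
  rw [← h4, h5]

/-- If the induced central character of an invariant `θ` is a unit at `x ∈ N`, then the
central character of `θ` at `x` is a unit and `|C_G(x)|_p = |G : N|_p |C_N(x)|_p`. -/
theorem fongCount_factorization_centralizer {p : ℕ} [Fact p.Prime] {M : Ideal Cfsg.AlgInt}
    (hM : Cfsg.IsPModular p M) (N : Subgroup G) [hN : N.Normal] [Fintype N]
    (θ : Cfsg.IrrCharacter N)
    (hθ : ∀ g : G, Cfsg.SameBlock M (irrConj N g θ : N → ℂ) (θ : N → ℂ)) (x : N)
    (h : ¬ Cfsg.MemLocalIdeal M (Cfsg.inducedCentralChar N (θ : N → ℂ) (x : G))) :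
    (Nat.card (Subgroup.centralizer ({(x : G)} : Set G))).factorization p
        = N.index.factorization p
          + (Nat.card (Subgroup.centralizer ({x} : Set N))).factorization p ∧
      ¬ Cfsg.MemLocalIdeal M (Cfsg.centralChar (θ : N → ℂ) x) := by
  have hMm := hM.2.1
  have hp := hM.1
  have hcong := fongCount_inducedCentralChar_congr hMm N θ hθ x
  obtain ⟨C, hC⟩ : ∃ C : Subgroup G, C = Subgroup.centralizer ({(x : G)} : Set G) := ⟨_, rfl⟩
  rw [← hC] at hcong ⊢
  have hcc : ¬ Cfsg.MemLocalIdeal M (Cfsg.centralChar (θ : N → ℂ) x) := by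
    intro hcc
    apply h
    have h1 := Helper77.memLocalIdeal_mul hMm
      (Helper77.memLocalRing_of_isIntegral hMm
        (isIntegral_natCast _ : IsIntegral ℤ (((N ⊔ C : Subgroup G).index : ℕ) : ℂ))) hcc
    have h2 := Helper77.memLocalIdeal_add hMm hcong h1
    rwa [sub_add_cancel] at h2
  have hT : ¬ p ∣ (N ⊔ C : Subgroup G).index := by
    rintro ⟨k, hk⟩
    apply h
    have h1 : Cfsg.MemLocalIdeal M (((N ⊔ C : Subgroup G).index : ℂ)
        * Cfsg.centralChar (θ : N → ℂ) x) := by
      rw [hk, Nat.cast_mul, mul_assoc]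
      exact Helper77.memLocalIdeal_mul' hMm (Helper77.memLocalIdeal_prime hM)
        (Helper77.memLocalRing_mul hMm
          (Helper77.memLocalRing_of_isIntegral hMm (isIntegral_natCast _ : IsIntegral ℤ ((k : ℕ) : ℂ)))
          (centralChar_memLocalRing hMm θ x))
    have h2 := Helper77.memLocalIdeal_add hMm hcong h1
    rwa [sub_add_cancel] at h2
  refine ⟨?_, hcc⟩
  have h1 : N.relIndex (N ⊔ C) * (N ⊔ C : Subgroup G).index = N.index :=
    Subgroup.relIndex_mul_index le_sup_left
  have h2 : N.relIndex (N ⊔ C) = N.relIndex C := Subgroup.relIndex_sup_left C N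
  have h3 := fongCount_card_eq_inf_mul_relIndex N C
  have h4 := fongCount_card_inf_centralizer N x
  rw [← hC] at h4
  have hr0 : N.relIndex C ≠ 0 := by
    intro h0
    rw [h2, h0, zero_mul] at h1
    exact Subgroup.index_ne_zero_of_finite h1.symm
  have hT0 : (N ⊔ C : Subgroup G).index ≠ 0 := Subgroup.index_ne_zero_of_finite
  have hc0 : Nat.card (N ⊓ C : Subgroup G) ≠ 0 := Nat.card_pos.ne'
  rw [h3, ← h1, h2, Nat.factorization_mul hc0 hr0, Nat.factorization_mul hr0 hT0, h4]
  simp only [Finsupp.coe_add, Pi.add_apply]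
  rw [Nat.factorization_eq_zero_of_not_dvd hT]
  omega

end Cfsg.Agent.Helper16
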