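import Cfsg.Agent.Helper16.Fong

/-!
# Stable blocks of a normal subgroup of `p`-power index

* `fongPIndex_cover_eq_blockOf`: if `N ⊴ G` has `p`-power index, the characters of `G` lying over
  the block `b` of `N` form one block.
* `fongPIndex_main`: if moreover `b` is `G`-stable, then the idempotent of `b` (extended by zero) is
  the idempotent of a block `B` of `G`, and every defect group `P` of such a block satisfies
  `N P = G` with `P ∩ N` a defect group of `b`.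
-/

set_option autoImplicit false
open Cfsg
open scoped ComplexConjugate

namespace Cfsg.Agent.Helper16

universe u

variable {G : Type u} [Group G] [Fintype G] {p : ℕ} [Fact p.Prime] {M : Ideal Cfsg.AlgInt}
  (N : Subgroup G) [hN : N.Normal] [Fintype N] {b : Set (Cfsg.IrrCharacter N)}

/-- Over a normal subgroup of `p`-power index, the characters lying over a block form a block. -/
theorem fongPIndex_cover_eq_blockOf (hM : Cfsg.IsPModular p M) (hidx : ∃ k : ℕ, N.index = p ^ k)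
    (hb : Cfsg.IsPBlock M b) (hinv : ∀ g : G, ∀ θ ∈ b, irrConj N g θ ∈ b)
    {χ₀ : Cfsg.IrrCharacter G} (hχ₀ : χ₀ ∈ fongCover N b) :
    fongCover N b = Cfsg.blockOf M (χ₀ : G → ℂ) := by
  have hMm := hM.2.1
  obtain ⟨θ₀, hθ₀b, hθ₀⟩ := hχ₀
  ext χ'
  constructor
  · rintro ⟨θ', hθ'b, hθ'⟩
    exact Helper76.sameBlock_of_constituents_sameBlock hM N hidx χ₀ χ' θ₀ θ'
      (sameBlock_of_mem hMm hb hθ₀b hθ'b) hθ₀ hθ'
  · intro h
    exact fong_cover_closed N hMm hb hinv χ₀ χ' ⟨θ₀, hθ₀b, hθ₀⟩ h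

/-- **Stable blocks under `p`-power index.** -/
theorem fongPIndex_main (hM : Cfsg.IsPModular p M) (hidx : ∃ k : ℕ, N.index = p ^ k)
    (hb : Cfsg.IsPBlock M b) (hinv : ∀ g : G, ∀ θ ∈ b, irrConj N g θ ∈ b) :
    (∃ B : Set (Cfsg.IrrCharacter G), Cfsg.IsPBlock M B ∧
        Cfsg.blockCoeff B = ext0 N (Cfsg.blockCoeff b)) ∧
      ∀ B : Set (Cfsg.IrrCharacter G), Cfsg.IsPBlock M B →
        Cfsg.blockCoeff B = ext0 N (Cfsg.blockCoeff b) →
        ∀ P : Subgroup G, Cfsg.IsDefectGroup p M B P →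
          N ⊔ P = ⊤ ∧ Cfsg.IsDefectGroup p M b ((P ⊓ N).subgroupOf N) := by
  classical
  have hMm := hM.2.1
  have hp : p.Prime := Fact.out
  obtain ⟨θ₀, hθ₀b⟩ := exists_mem_of_isPBlock hMm hb
  obtain ⟨χ₀, hθ₀⟩ := Helper76.exists_irr_over N θ₀
  have hχ₀ : χ₀ ∈ fongCover N b := ⟨θ₀, hθ₀b, hθ₀⟩
  have hcover := fongPIndex_cover_eq_blockOf N hM hidx hb hinv hχ₀
  have hcoeff : Cfsg.blockCoeff (Cfsg.blockOf M (χ₀ : G → ℂ)) = ext0 N (Cfsg.blockCoeff b) := by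
    rw [← hcover]
    exact fong_blockCoeff_cover N hinv
  refine ⟨⟨_, ⟨χ₀, rfl⟩, hcoeff⟩, ?_⟩
  intro B hB hBc P hP
  -- `B` is the block of `χ₀`
  have hBeq : B = Cfsg.blockOf M (χ₀ : G → ℂ) := by
    obtain ⟨χ, hχ⟩ := exists_mem_of_isPBlock hMm hB
    have h1 : Helper81.omega (χ : G → ℂ) (Cfsg.blockCoeff B) = 1 :=
      Helper77.omega_blockCoeff_of_mem hχ
    rw [hBc, ← hcoeff] at h1
    have h2 : χ ∈ Cfsg.blockOf M (χ₀ : G → ℂ) := by
      by_contra hcon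
      rw [Helper77.omega_blockCoeff_of_not_mem hcon] at h1
      exact zero_ne_one h1
    rw [eq_blockOf_of_mem hMm hB hχ]
    exact blockOf_eq_of_mem hMm h2
  subst hBeq
  have hcov : ∃ χ ∈ Cfsg.blockOf M (χ₀ : G → ℂ), ∃ θ ∈ b,
      Cfsg.classInner (fun n : N => (χ : G → ℂ) n) (θ : N → ℂ) ≠ 0 :=
    ⟨χ₀, sameBlock_refl hMm _, θ₀, hθ₀b, hθ₀⟩
  have hmax : ∀ B' : Set (Cfsg.IrrCharacter G), Cfsg.IsPBlock M B' →
      (∃ χ ∈ B', ∃ θ ∈ b, Cfsg.classInner (fun n : N => (χ : G → ℂ) n) (θ : N → ℂ) ≠ 0) →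
      Cfsg.blockDefect p B' ≤ Cfsg.blockDefect p (Cfsg.blockOf M (χ₀ : G → ℂ)) := by
    rintro B' hB' ⟨χ', hχ'B', θ', hθ'b, hθ'⟩
    have h1 : χ' ∈ Cfsg.blockOf M (χ₀ : G → ℂ) := by
      rw [← hcover]
      exact ⟨θ', hθ'b, hθ'⟩
    have h2 : B' = Cfsg.blockOf M (χ₀ : G → ℂ) := by
      rw [eq_blockOf_of_mem hMm hB' hχ'B']
      exact blockOf_eq_of_mem hMm h1
    rw [h2]
  obtain ⟨h1, h2, -⟩ := fong_main N hM hb hinv hB hcov hmax hP
  refine ⟨?_, h2⟩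
  obtain ⟨k, hk⟩ := hidx
  have h3 : (P ⊔ N : Subgroup G).index ∣ p ^ k := by
    rw [← hk]
    exact Subgroup.index_dvd_of_le le_sup_right
  obtain ⟨j, -, hj⟩ := (Nat.dvd_prime_pow hp).mp h3
  have hj0 : j = 0 := by
    by_contra hj0
    apply h1
    rw [hj]
    exact dvd_pow_self p hj0
  rw [hj0, pow_zero] at hj
  rw [sup_comm]
  exact Subgroup.index_eq_one.mp hj

end Cfsg.Agent.Helper16
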