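import Cfsg.Agent.Helper16.H3Core

/-!
# S3701, piece CFG: the hypotheses of the statement give the TI configuration `H3Cfg φ`
-/

set_option autoImplicit false

namespace Cfsg.Agent.Helper16

open DihedralGroup

set_option maxRecDepth 1000000 in
theorem hm_pow27 : ∀ m : HM, m ^ 27 = 1 → m ^ 3 = 1 := by decide +kernel

theorem hm_card_cube : (Finset.univ.filter (fun m : HM => m ^ 3 = 1)).card = 27 := by decide

set_option maxRecDepth 1000000 in
theorem hm_cube_comm : ∀ m m' : HM, m ^ 3 = 1 → m' ^ 3 = 1 → m * m' = m' * m := by decide +kernel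

theorem hm_pow4 : ∀ m : HM, m ^ 2 ≠ 1 → m ^ 4 ≠ 1 := by decide

set_option maxRecDepth 1000000 in
theorem hm_pow4_cube : ∀ m : HM, (m ^ 4) ^ 3 = 1 := by decide +kernel

/-- PIECE CFG -/
theorem h3_cfg {G : Type*} [Group G] [Finite G] (φ : HM →* G) (hφ : Function.Injective φ)
    (T : Subgroup G) (hTH : T ≤ φ.range) (hT : Nat.card T = 27)
    (hN : Subgroup.normalizer (T : Set G) = φ.range)
    (hC : ∀ t ∈ T, t ≠ 1 → Subgroup.centralizer ({t} : Set G) ≤ φ.range) : H3Cfg φ := by
  classical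
  -- elements of `T` are images of elements of cube one
  have ha : ∀ x ∈ T, ∃ m : HM, m ^ 3 = 1 ∧ φ m = x := by
    intro x hx
    obtain ⟨m, rfl⟩ := hTH hx
    refine ⟨m, ?_, rfl⟩
    apply hm_pow27
    apply hφ
    rw [map_pow, map_one]
    have h1 : (⟨φ m, hx⟩ : ↥T) ^ Nat.card ↥T = 1 := pow_card_eq_one'
    rw [hT] at h1
    have h2 := congrArg Subtype.val h1
    simpa using h2
  -- conversely
  have hb : ∀ m : HM, m ^ 3 = 1 → φ m ∈ T := by
    have hsub : Finset.univ.filter (fun m : HM => φ m ∈ T) ⊆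
        Finset.univ.filter (fun m : HM => m ^ 3 = 1) := by
      intro m hm
      rw [Finset.mem_filter] at hm ⊢
      obtain ⟨m', hm'3, hm'⟩ := ha _ hm.2
      rw [← hφ hm']
      exact ⟨Finset.mem_univ _, hm'3⟩
    have hcard : (Finset.univ.filter (fun m : HM => φ m ∈ T)).card = 27 := by
      haveI : Fintype ↥T := Fintype.ofFinite _
      rw [← hT, Nat.card_eq_fintype_card (α := ↥T), ← Fintype.card_subtype]
      refine Fintype.card_congr (Equiv.ofBijective
        (fun m : {m : HM // φ m ∈ T} => (⟨φ m.1, m.2⟩ : ↥T)) ⟨?_, ?_⟩)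
      · intro a b hab
        exact Subtype.ext (hφ (congrArg Subtype.val hab))
      · intro x
        obtain ⟨m, hm⟩ := hTH x.2
        exact ⟨⟨m, by rw [hm]; exact x.2⟩, Subtype.ext hm⟩
    have heq := Finset.eq_of_subset_of_card_le hsub (by rw [hcard, hm_card_cube])
    intro m hm
    have : m ∈ Finset.univ.filter (fun m : HM => φ m ∈ T) := by
      rw [heq, Finset.mem_filter]
      exact ⟨Finset.mem_univ _, hm⟩
    exact (Finset.mem_filter.mp this).2
  -- `T` is commutative
  have hc : ∀ x ∈ T, ∀ y ∈ T, x * y = y * x := by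
    intro x hx y hy
    obtain ⟨m, hm3, rfl⟩ := ha x hx
    obtain ⟨m', hm'3, rfl⟩ := ha y hy
    rw [← map_mul, ← map_mul, hm_cube_comm m m' hm3 hm'3]
  have hcube : ∀ x ∈ T, x ^ 3 = 1 := by
    intro x hx
    obtain ⟨m, hm3, rfl⟩ := ha x hx
    rw [← map_pow, hm3, map_one]
  refine ⟨hφ, ?_, ?_⟩
  · intro k m hm h1
    apply hm
    have h2 : (k⁻¹ * m * k) ^ 2 = k⁻¹ * m ^ 2 * k := by
      rw [pow_two, pow_two]; group
    rw [h2] at h1
    have h3 : m ^ 2 = k * (k⁻¹ * m ^ 2 * k) * k⁻¹ := by group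
    rw [h3, h1]; group
  · intro m hm g hg
    obtain ⟨m₁, hm₁⟩ := hg
    have ht : φ (m ^ 4) ∈ T := hb _ (hm_pow4_cube m)
    have ht1 : φ (m ^ 4) ≠ 1 := by
      intro h1
      rw [← map_one φ] at h1
      exact hm_pow4 m hm (hφ h1)
    have hs : g * φ (m ^ 4) * g⁻¹ = φ (m₁ ^ 4) := by
      rw [map_pow, map_pow, hm₁, conj_pow]
    have hsT : g * φ (m ^ 4) * g⁻¹ ∈ T := by
      rw [hs]; exact hb _ (hm_pow4_cube m₁)
    have hs1 : g * φ (m ^ 4) * g⁻¹ ≠ 1 := by
      intro h1
      apply ht1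
      have : φ (m ^ 4) = g⁻¹ * (g * φ (m ^ 4) * g⁻¹) * g := by group
      rw [this, h1]; group
    have hcent := hC _ hsT hs1
    -- `g T g⁻¹ ≤ T`
    have hconj : ∀ y ∈ T, g * y * g⁻¹ ∈ T := by
      intro y hy
      have h1 : g * y * g⁻¹ ∈ Subgroup.centralizer ({g * φ (m ^ 4) * g⁻¹} : Set G) := by
        rw [Subgroup.mem_centralizer_singleton_iff]
        have h2 := hc y hy _ ht
        calc g * y * g⁻¹ * (g * φ (m ^ 4) * g⁻¹) = g * (y * φ (m ^ 4)) * g⁻¹ := by group
          _ = g * (φ (m ^ 4) * y) * g⁻¹ := by rw [h2]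
          _ = g * φ (m ^ 4) * g⁻¹ * (g * y * g⁻¹) := by group
      obtain ⟨m₂, hm₂⟩ := hcent h1
      rw [← hm₂]
      apply hb
      apply hφ
      rw [map_pow, hm₂, conj_pow, hcube y hy, map_one]
      group
    have hgn : g ∈ Subgroup.normalizer (T : Set G) := by
      rw [Subgroup.mem_normalizer_iff]
      intro y
      constructor
      · exact hconj y
      · intro hy
        have hinj : Function.Injective (fun y : ↥T => (⟨g * y.1 * g⁻¹, hconj y.1 y.2⟩ : ↥T)) := by
          intro a b hab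
          have h1 := congrArg Subtype.val hab
          simp only at h1
          apply Subtype.ext
          have h2 : a.1 = g⁻¹ * (g * a.1 * g⁻¹) * g := by group
          rw [h2, h1]; group
        obtain ⟨y', hy'⟩ := Finite.surjective_of_injective hinj ⟨g * y * g⁻¹, hy⟩
        have h1 := congrArg Subtype.val hy'
        simp only at h1
        have h2 : y = y'.1 := by
          have h3 : y = g⁻¹ * (g * y * g⁻¹) * g := by group
          rw [h3, ← h1]; group
        rw [h2]; exact y'.2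
    rw [hN] at hgn
    exact hgn

end Cfsg.Agent.Helper16
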