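import Cfsg.Agent.Helper16.TICore
import Cfsg.Agent.Helper16.S3Core

/-!
# Core definitions for S3701 (`H ≅ 3³:2²` with `N_G(T) = H`, `C_G(t) ≤ H` for `t ∈ T ∖ 1`)

`H₀ = {(x, y, z) ∈ S₃ × S₃ × S₃ : x y z even}` is modelled by `HM`: pairs `(n, k)` with
`n = (x, y) ∈ NM = S₃ × S₃` and `k ∈ ZMod 3`, standing for the element `(x, y, c₃ ^ k * τ ^ p)`
where `c₃` is a fixed 3-cycle, `τ` a fixed transposition and `p` the parity of `x y`.
So `HM = ZMod 3 ⋊ NM`, with `NM` acting on `ZMod 3` through the sign `nmSg`.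
-/

set_option autoImplicit false

namespace Cfsg.Agent.Helper16

open DihedralGroup

/-- `true` on reflections -/
def dRefl : DihedralGroup 3 → Bool
  | r _ => false
  | sr _ => true

/-- the sign of `n = (x, y)`: `1` if `x y` is even, `-1` otherwise -/
def nmSg (n : NM) : ZMod 3 := if dRefl n.1 = dRefl n.2 then 1 else -1

theorem nmSg_mul : ∀ a b : NM, nmSg (a * b) = nmSg a * nmSg b := by decide

theorem nmSg_one : nmSg 1 = 1 := by decide

theorem nmSg_inv : ∀ a : NM, nmSg a⁻¹ = nmSg a := by decide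

theorem nmSg_mul_self : ∀ a : NM, nmSg a * nmSg a = 1 := by decide

/-- Model of `H₀ = 3³:2²`. -/
structure HM where
  /-- the first two coordinates -/
  n : NM
  /-- the exponent of the 3-cycle in the third coordinate -/
  k : ZMod 3
deriving DecidableEq, Fintype

namespace HM

instance : Mul HM := ⟨fun a b => ⟨a.n * b.n, a.k + nmSg a.n * b.k⟩⟩

instance : One HM := ⟨⟨1, 0⟩⟩

instance : Inv HM := ⟨fun a => ⟨a.n⁻¹, -(nmSg a.n * a.k)⟩⟩

theorem mul_def (a b : HM) : a * b = ⟨a.n * b.n, a.k + nmSg a.n * b.k⟩ := rfl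

theorem one_def : (1 : HM) = ⟨1, 0⟩ := rfl

theorem inv_def (a : HM) : a⁻¹ = ⟨a.n⁻¹, -(nmSg a.n * a.k)⟩ := rfl

@[ext] theorem ext' {a b : HM} (h1 : a.n = b.n) (h2 : a.k = b.k) : a = b := by
  cases a; cases b; simp_all

instance : Group HM :=
  Group.ofLeftAxioms
    (by
      intro a b c
      apply ext'
      · simp [mul_def, mul_assoc]
      · simp only [mul_def, nmSg_mul]
        ring)
    (by
      intro a
      apply ext'
      · simp [mul_def, one_def]
      · simp [mul_def, one_def, nmSg_one])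
    (by
      intro a
      apply ext'
      · simp [mul_def, one_def, inv_def]
      · simp only [mul_def, one_def, inv_def, nmSg_inv]
        ring)

end HM

/-- `t₁` -/
def hT1 : HM := ⟨(r 1, 1), 0⟩
/-- `t₂` -/
def hT2 : HM := ⟨(1, r 1), 0⟩
/-- `t₃` -/
def hT3 : HM := ⟨1, 1⟩
/-- the involution `v₁ = (1, τ, τ)` (centralizes `t₁`, inverts `t₂`, `t₃`) -/
def hV1 : HM := ⟨(1, sr 0), 0⟩
/-- the involution `v₂ = (τ, 1, τ)` (centralizes `t₂`, inverts `t₁`, `t₃`) -/
def hV2 : HM := ⟨(sr 0, 1), 0⟩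
/-- the involution `v₃ = (τ, τ, 1)` (centralizes `t₃`, inverts `t₁`, `t₂`) -/
def hV3 : HM := ⟨(sr 0, sr 0), 0⟩

/-- the elements whose third coordinate is a 3-cycle -/
def hE (m : HM) : Prop := nmSg m.n = 1 ∧ m.k ≠ 0

instance : DecidablePred hE := fun m => by unfold hE; infer_instance

/-- the embedding of `S₃ × S₃` (third coordinate in `⟨τ⟩`) -/
def hι : NM →* HM where
  toFun n := ⟨n, 0⟩
  map_one' := rfl
  map_mul' a b := by
    apply HM.ext'
    · rfl
    · simp [HM.mul_def]

theorem hι_injective : Function.Injective hι := by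
  intro a b hab
  exact congrArg HM.n hab

/-- The configuration: `φ : HM →* G` injective, and the elements `φ m` of order `3` or `6`
(`m ^ 2 ≠ 1`) are conjugated into `φ.range` only by elements of `φ.range`. -/
abbrev H3Cfg {G : Type*} [Group G] (φ : HM →* G) : Prop := TICfg φ (fun m : HM => m ^ 2 ≠ 1)

end Cfsg.Agent.Helper16
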