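import Mathlib
import Cfsg.Prelude.Def_Characters

/-!
# General TI configurations

`φ : M →* G` is an injective homomorphism from a (finite) model group `M`, and `E : M → Prop` is a
conjugation-invariant set of elements of `M` such that an element `φ m`, `E m`, is conjugated into
`φ.range` only by elements of `φ.range`.  `cfI φ E c` is the class function of `G` with value `c`
on the conjugates of the elements `φ m`, `E m`, and `0` elsewhere (the class function induced from
`c · 1_E`).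
-/

set_option autoImplicit false

namespace Cfsg.Agent.Helper16

/-- A TI configuration. -/
structure TICfg {M G : Type*} [Group M] [Group G] (φ : M →* G) (E : M → Prop) : Prop where
  inj : Function.Injective φ
  conj : ∀ k m : M, E m → E (k⁻¹ * m * k)
  ti : ∀ m : M, E m → ∀ g : G, g * φ m * g⁻¹ ∈ φ.range → g ∈ φ.range

/-- The class function with value `c` on the conjugates of `φ m`, `E m`. -/
noncomputable def cfI {M G : Type*} [Group M] [Group G] (φ : M →* G) (E : M → Prop) (c : ℂ) :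
    G → ℂ :=
  fun g => @ite ℂ (∃ x : G, ∃ m : M, E m ∧ x * g * x⁻¹ = φ m) (Classical.propDecidable _) c 0

section

variable {M G : Type*} [Group M] [Group G] {φ : M →* G} {E : M → Prop} {c : ℂ}

theorem cfI_pos {g : G} (hg : ∃ x : G, ∃ m : M, E m ∧ x * g * x⁻¹ = φ m) : cfI φ E c g = c := by
  unfold cfI
  rw [if_pos hg]

theorem cfI_neg {g : G} (hg : ¬ ∃ x : G, ∃ m : M, E m ∧ x * g * x⁻¹ = φ m) :
    cfI φ E c g = 0 := by
  unfold cfI
  rw [if_neg hg]

theorem cfI_isClassFunction (φ : M →* G) (E : M → Prop) (c : ℂ) :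
    Cfsg.IsClassFunction G (cfI φ E c) := by
  intro g h
  have : (∃ x : G, ∃ m : M, E m ∧ x * (h * g * h⁻¹) * x⁻¹ = φ m) ↔
      (∃ x : G, ∃ m : M, E m ∧ x * g * x⁻¹ = φ m) := by
    constructor
    · rintro ⟨x, m, hm, hx⟩
      refine ⟨x * h, m, hm, ?_⟩
      rw [← hx]; group
    · rintro ⟨x, m, hm, hx⟩
      refine ⟨x * h⁻¹, m, hm, ?_⟩
      rw [← hx]; group
  unfold cfI
  by_cases hg : ∃ x : G, ∃ m : M, E m ∧ x * g * x⁻¹ = φ m
  · rw [if_pos hg, if_pos (this.mpr hg)]
  · rw [if_neg hg, if_neg (fun h' => hg (this.mp h'))]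

/-- Values of `cfI` on `φ.range`. -/
theorem TICfg.cfI_apply (h : TICfg φ E) (c : ℂ) (m : M) [Decidable (E m)] :
    cfI φ E c (φ m) = if E m then c else 0 := by
  by_cases hm : E m
  · rw [if_pos hm]
    exact cfI_pos ⟨1, m, hm, by simp⟩
  · rw [if_neg hm]
    apply cfI_neg
    rintro ⟨x, m', hm', hx⟩
    have h2 : x⁻¹ ∈ φ.range := h.ti m' hm' x⁻¹ (by
      rw [← hx]; refine ⟨m, ?_⟩; group)
    obtain ⟨j, hj⟩ := h2
    have h3 : j⁻¹ * m * j = m' := by
      apply h.inj
      rw [← hx, map_mul, map_mul, map_inv, hj]; group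
    apply hm
    have h4 : m = j * m' * j⁻¹ := by rw [← h3]; group
    rw [h4]
    have := h.conj j⁻¹ m' hm'
    rw [inv_inv] at this
    exact this

/-- Two elements of order at most 2 whose product is a `φ m`, `E m`, lie in `φ.range`. -/
theorem TICfg.mem_range_of_mul (h : TICfg φ E) {u v : G} (hu : u ^ 2 = 1) (hv : v ^ 2 = 1)
    {m : M} (hm : E m) (huv : u * v = φ m) : u ∈ φ.range ∧ v ∈ φ.range := by
  have hu' : u⁻¹ = u := by
    rw [inv_eq_iff_mul_eq_one, ← sq, hu]
  have hv' : v⁻¹ = v := by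
    rw [inv_eq_iff_mul_eq_one, ← sq, hv]
  have h1 : u * φ m * u⁻¹ = φ m⁻¹ := by
    rw [map_inv, ← huv, mul_inv_rev, hu', hv']
    have : u * u = 1 := by rw [← sq, hu]
    rw [← mul_assoc u u v, this, one_mul]
  have hu_mem : u ∈ φ.range := h.ti m hm u (by rw [h1]; exact ⟨m⁻¹, rfl⟩)
  refine ⟨hu_mem, ?_⟩
  have : v = u⁻¹ * φ m := by rw [← huv]; group
  rw [this]
  exact φ.range.mul_mem (φ.range.inv_mem hu_mem) ⟨m, rfl⟩

/-- Restriction of a TI configuration to a smaller invariant set. -/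
theorem TICfg.mono (h : TICfg φ E) {E' : M → Prop} (hsub : ∀ m, E' m → E m)
    (hconj : ∀ k m : M, E' m → E' (k⁻¹ * m * k)) : TICfg φ E' :=
  ⟨h.inj, hconj, fun m hm g hg => h.ti m (hsub m hm) g hg⟩

end

end Cfsg.Agent.Helper16
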