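import Cfsg.Agent.Helper16.H3Core
import Cfsg.Agent.Helper16.S3Glue3
import Cfsg.Agent.Helper37.H3FU
import Cfsg.Agent.Helper37.TITS
import Cfsg.Agent.Helper37.TISC
import Cfsg.Agent.Helper37.H3IN

/-!
# S3701 glue: a TI configuration `φ : HM →* G` (`HM = 3³:2²`) is surjective
-/

set_option autoImplicit false

namespace Cfsg.Agent.Helper16

open Cfsg DihedralGroup
open scoped ComplexConjugate

set_option maxRecDepth 1000000 in
theorem hE_conj : ∀ k m : HM, hE m → hE (k⁻¹ * m * k) := by decide +kernel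

theorem hE_sq : ∀ m : HM, hE m → m ^ 2 ≠ 1 := by decide

theorem hm_card_E : (Finset.univ.filter hE).card = 36 := by decide

theorem hm_card : Fintype.card HM = 108 := by decide

set_option maxRecDepth 1000000 in
theorem hm_gen : ∀ m : HM, nmSg m.n = 1 → m.k = 0 →
    ∃ j j' : HM, m = (j * hV3 * j⁻¹) * (j' * hV3 * j'⁻¹) ∨ m = j * hV3 * j⁻¹ := by decide +kernel

theorem hm_comm_E : ∀ m : HM, nmSg m.n ≠ 1 → hE (m * hT3 * m⁻¹ * hT3⁻¹) := by decide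

theorem hm_conj_V3 : ∀ j : HM, nmSg (j * hV3 * j⁻¹).n = 1 ∧ (j * hV3 * j⁻¹).k = 0 := by decide

set_option maxRecDepth 1000000 in
theorem hm_invol : ∀ p : HM, p ^ 2 = 1 → p ≠ 1 →
    ∃ j : HM, p = j * hV3 * j⁻¹ ∨ p = j * hV1 * j⁻¹ ∨ p = j * hV2 * j⁻¹ := by decide +kernel

theorem hm_V3_sq : hV3 ^ 2 = 1 := by decide
theorem hm_V3_ne : hV3 ≠ 1 := by decide
theorem hm_T1_sq : hT1 ^ 2 ≠ 1 := by decide
theorem hm_T1_sg : nmSg hT1.n = 1 := by decide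
theorem hm_T1_k : hT1.k = 0 := rfl

theorem hm_not_E_mul (a b : HM) (ha : nmSg a.n = 1 ∧ a.k = 0) (hb : nmSg b.n = 1 ∧ b.k = 0) :
    ¬ hE (a * b) := by
  intro h
  apply h.2
  rw [HM.mul_def]
  simp [ha.2, hb.2]

theorem hm_k_of_mul_inv (m : HM) (n : NM) (h : (m * (hι n)⁻¹).k = 0) : m.k = 0 := by
  rw [HM.mul_def, HM.inv_def] at h
  simpa [hι] using h

theorem hι_eq (m : HM) (h : m.k = 0) : hι m.n = m := by
  apply HM.ext'
  · rfl
  · exact h.symm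

section General

variable {M G : Type*} [Group M] [Fintype M] [Group G] [Fintype G] {φ : M →* G} {E : M → Prop}
  [DecidablePred E]

omit [Fintype M] [Fintype G] [DecidablePred E] in
/-- `cfI` vanishes at elements of order at most 2 if no element of `E` has order at most 2. -/
theorem TICfg.cfI_eq_zero_of_sq (h : TICfg φ E) (hE2 : ∀ m, E m → m ^ 2 ≠ 1) (c : ℂ) {g : G}
    (hg : g ^ 2 = 1) : cfI φ E c g = 0 := by
  apply cfI_neg
  rintro ⟨x, m, hm, hx⟩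
  apply hE2 m hm
  apply h.inj
  rw [map_pow, map_one, ← hx, conj_pow, hg]
  group

/-- The class-multiplication equation for `cfI φ E c = 1 + e₁ X₁ + e₂ X₂` and an element `u` of
order at most 2. -/
theorem TICfg.star_eq (h : TICfg φ E) (c : ℂ) (X₁ X₂ : IrrCharacter G) (e₁ e₂ : ℂ)
    (hdec : ∀ g, cfI φ E c g = 1 + e₁ * (X₁ : G → ℂ) g + e₂ * (X₂ : G → ℂ) g)
    (u : G) (hu : u ^ 2 = 1) :
    (Nat.card G : ℂ) ^ 2 * (1 + e₁ * (X₁ : G → ℂ) u ^ 2 / (X₁ : G → ℂ) 1 +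
        e₂ * (X₂ : G → ℂ) u ^ 2 / (X₂ : G → ℂ) 1) =
      (Nat.card G : ℂ) * c / (Fintype.card M : ℂ) *
        (Nat.card (Subgroup.centralizer ({u} : Set G)) : ℂ) *
        (Nat.card (Subgroup.centralizer ({u} : Set G)) : ℂ) *
        (Nat.card {p : M × M // IsConj u (φ p.1) ∧ IsConj u (φ p.2) ∧ E (p.1 * p.2)} : ℂ) := by
  rw [← Cfsg.Agent.Helper37.ti_star_count h c (fun f hf => Cfsg.Agent.Helper37.ti_cfI_inner h c f hf) u u hu hu]
  simp only [hdec]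
  simp only [Finset.sum_add_distrib, ← Finset.mul_sum]
  rw [irr_double_sum X₁ u u, irr_double_sum X₂ u u]
  simp only [Finset.sum_const, Finset.card_univ, nsmul_eq_mul, mul_one]
  rw [← Nat.card_eq_fintype_card]
  ring

/-- If no two conjugates of `u` in `φ.range` have their product in `E`, then `u` lies in the
kernels of `X₁` and `X₂`. -/
theorem TICfg.ker_of_count_zero (h : TICfg φ E) (hE2 : ∀ m, E m → m ^ 2 ≠ 1) (c : ℂ)
    (X₁ X₂ : IrrCharacter G) (ε₁ ε₂ : ℤ)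
    (hε₁ : ε₁ = 1 ∨ ε₁ = -1) (hε₂ : ε₂ = 1 ∨ ε₂ = -1)
    (hdec : ∀ g, cfI φ E c g = 1 + (ε₁ : ℂ) * (X₁ : G → ℂ) g + (ε₂ : ℂ) * (X₂ : G → ℂ) g)
    (u : G) (hu : u ^ 2 = 1)
    (hcount : ∀ p : M × M, IsConj u (φ p.1) → IsConj u (φ p.2) → ¬ E (p.1 * p.2)) :
    (X₁ : G → ℂ) u = (X₁ : G → ℂ) 1 ∧ (X₂ : G → ℂ) u = (X₂ : G → ℂ) 1 := by
  have hstar := h.star_eq c X₁ X₂ (ε₁ : ℂ) (ε₂ : ℂ) hdec u hu
  have hempty : IsEmpty {p : M × M // IsConj u (φ p.1) ∧ IsConj u (φ p.2) ∧ E (p.1 * p.2)} :=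
    ⟨fun p => hcount p.1 p.2.1 p.2.2.1 p.2.2.2⟩
  rw [@Nat.card_of_isEmpty _ hempty, Nat.cast_zero, mul_zero] at hstar
  have hG : (Nat.card G : ℂ) ≠ 0 := by exact_mod_cast Nat.card_pos.ne'
  have h0 : 1 + (ε₁ : ℂ) * (X₁ : G → ℂ) u ^ 2 / (X₁ : G → ℂ) 1 +
        (ε₂ : ℂ) * (X₂ : G → ℂ) u ^ 2 / (X₂ : G → ℂ) 1 = 0 := by
    rcases mul_eq_zero.mp hstar with h' | h'
    · exact absurd h' (pow_ne_zero 2 hG)
    · exact h'
  have hd1 : (X₁ : G → ℂ) 1 ≠ 0 := Helper3.irr_apply_one_ne_zero X₁.2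
  have hd2 : (X₂ : G → ℂ) 1 ≠ 0 := Helper3.irr_apply_one_ne_zero X₂.2
  have hone : (1 : ℂ) + (ε₁ : ℂ) * (X₁ : G → ℂ) 1 + (ε₂ : ℂ) * (X₂ : G → ℂ) 1 = 0 := by
    rw [← hdec 1]; exact h.cfI_eq_zero_of_sq hE2 c (one_pow 2)
  have hu0 : (1 : ℂ) + (ε₁ : ℂ) * (X₁ : G → ℂ) u + (ε₂ : ℂ) * (X₂ : G → ℂ) u = 0 := by
    rw [← hdec u]; exact h.cfI_eq_zero_of_sq hE2 c hu
  have he1 : (ε₁ : ℂ) * (ε₁ : ℂ) = 1 := by
    rcases hε₁ with h' | h' <;> rw [h'] <;> norm_num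
  have he2 : (ε₂ : ℂ) * (ε₂ : ℂ) = 1 := by
    rcases hε₂ with h' | h' <;> rw [h'] <;> norm_num
  set x : ℂ := (ε₁ : ℂ) * (X₁ : G → ℂ) 1 with hx
  set P : ℂ := (ε₁ : ℂ) * (X₁ : G → ℂ) u with hP
  set y : ℂ := (ε₂ : ℂ) * (X₂ : G → ℂ) 1 with hy
  set Q : ℂ := (ε₂ : ℂ) * (X₂ : G → ℂ) u with hQ
  have he1' : (ε₁ : ℂ) ≠ 0 := fun h' => by rw [h'] at he1; simp at he1
  have he2' : (ε₂ : ℂ) ≠ 0 := fun h' => by rw [h'] at he2; simp at he2
  have hx0 : x ≠ 0 := mul_ne_zero he1' hd1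
  have hy0 : y ≠ 0 := mul_ne_zero he2' hd2
  have h1 : (ε₁ : ℂ) * (X₁ : G → ℂ) u ^ 2 / (X₁ : G → ℂ) 1 = P ^ 2 / x := by
    rw [hP, hx]
    field_simp
  have h2 : (ε₂ : ℂ) * (X₂ : G → ℂ) u ^ 2 / (X₂ : G → ℂ) 1 = Q ^ 2 / y := by
    rw [hQ, hy]
    field_simp
  rw [h1, h2] at h0
  have hy' : y = -1 - x := by linear_combination hone
  have hQ' : Q = -1 - P := by linear_combination hu0
  have h3 : (x - P) ^ 2 = 0 := by
    have h4 : x * y + P ^ 2 * y + Q ^ 2 * x = 0 := by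
      have := h0
      field_simp at this
      linear_combination this
    rw [hy', hQ'] at h4
    linear_combination -h4
  have h5 : x = P := by
    have := pow_eq_zero_iff (n := 2) (by norm_num) |>.mp h3
    linear_combination this
  have h6 : y = Q := by rw [hy', hQ', h5]
  constructor
  · have : (ε₁ : ℂ) * (X₁ : G → ℂ) u = (ε₁ : ℂ) * (X₁ : G → ℂ) 1 := h5.symm
    exact mul_left_cancel₀ he1' this
  · have : (ε₂ : ℂ) * (X₂ : G → ℂ) u = (ε₂ : ℂ) * (X₂ : G → ℂ) 1 := h6.symm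
    exact mul_left_cancel₀ he2' this

end General

section

variable {G : Type*} [Group G] [Fintype G] {φ : HM →* G}

theorem H3Cfg.cfgE (h : H3Cfg φ) : TICfg φ hE := h.mono hE_sq hE_conj

theorem H3Cfg.inner_self (h : H3Cfg φ) : classInner (cfI φ hE 3) (cfI φ hE 3) = 3 := by
  rw [Cfsg.Agent.Helper37.ti_cfI_inner h.cfgE 3 _ (cfI_isClassFunction φ hE 3)]
  have : ∀ m : HM, (if hE m then conj (cfI φ hE 3 (φ m)) else 0) = if hE m then (3 : ℂ) else 0 := by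
    intro m
    by_cases hm : hE m
    · rw [if_pos hm, if_pos hm, h.cfgE.cfI_apply, if_pos hm]
      exact Complex.conj_ofReal 3
    · rw [if_neg hm, if_neg hm]
  rw [Finset.sum_congr rfl (fun m _ => this m), ← Finset.sum_filter, Finset.sum_const, hm_card_E,
    hm_card]
  norm_num

theorem H3Cfg.inner_one (h : H3Cfg φ) : classInner (cfI φ hE 3) (fun _ => (1 : ℂ)) = 1 := by
  rw [Cfsg.Agent.Helper37.ti_cfI_inner h.cfgE 3 _ (fun _ _ => rfl)]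
  simp only [map_one]
  rw [← Finset.sum_filter, Finset.sum_const, hm_card_E, hm_card]
  norm_num

theorem H3Cfg.inner_int (h : H3Cfg φ) (X : IrrCharacter G) :
    ∃ k : ℤ, classInner (cfI φ hE 3) (X : G → ℂ) = (k : ℂ) := by
  have hX : IsCharacter G (X : G → ℂ) := Helper79.irr_isCharacter X
  rw [Cfsg.Agent.Helper37.ti_cfI_inner h.cfgE 3 _ (Helper79.isCharacter_isClassFunction hX)]
  obtain ⟨k, hk⟩ := Cfsg.Agent.Helper37.h3_sum_int φ hX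
  refine ⟨k, ?_⟩
  have h1 : ∑ m : HM, (if hE m then conj ((X : G → ℂ) (φ m)) else 0) =
      conj (∑ m : HM, (if hE m then (X : G → ℂ) (φ m) else 0)) := by
    rw [map_sum]
    refine Finset.sum_congr rfl (fun m _ => ?_)
    split_ifs <;> simp
  rw [h1, hk, map_mul, hm_card]
  have h36 : (starRingEnd ℂ) (36 : ℂ) = 36 := Complex.conj_ofReal 36
  have hk' : (starRingEnd ℂ) (k : ℂ) = k := by
    have := Complex.conj_ofReal (k : ℝ)
    simp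
  rw [h36, hk']
  push_cast
  ring

/-- The decomposition `cfI φ hE 3 = 1 + ε₁ X₁ + ε₂ X₂`. -/
theorem H3Cfg.decomp (h : H3Cfg φ) :
    ∃ (X₁ X₂ : IrrCharacter G) (ε₁ ε₂ : ℤ), X₁ ≠ X₂ ∧
      (X₁ : G → ℂ) ≠ (fun _ => (1 : ℂ)) ∧ (X₂ : G → ℂ) ≠ (fun _ => (1 : ℂ)) ∧
      (ε₁ = 1 ∨ ε₁ = -1) ∧ (ε₂ = 1 ∨ ε₂ = -1) ∧
      ∀ g, cfI φ hE 3 g = 1 + (ε₁ : ℂ) * (X₁ : G → ℂ) g + (ε₂ : ℂ) * (X₂ : G → ℂ) g :=
  Cfsg.Agent.Helper39.s3_norm_three (cfI φ hE 3) (cfI_isClassFunction φ hE 3) h.inner_self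
    h.inner_one h.inner_int

omit [Fintype G] in
/-- Conjugates of `φ hV3` inside `φ.range`. -/
theorem H3Cfg.conj_V3 (h : H3Cfg φ)
    (hFU : ¬ IsConj (φ hV3) (φ hV1) ∧ ¬ IsConj (φ hV3) (φ hV2)) (p : HM)
    (hp : IsConj (φ hV3) (φ p)) : nmSg p.n = 1 ∧ p.k = 0 := by
  have hp2 : p ^ 2 = 1 ∧ p ≠ 1 := by
    rw [isConj_iff] at hp
    obtain ⟨c, hc⟩ := hp
    constructor
    · apply h.inj
      rw [map_pow, ← hc, conj_pow, ← map_pow, hm_V3_sq, map_one]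
      group
    · rintro rfl
      apply hm_V3_ne
      apply h.inj
      rw [map_one] at hc ⊢
      have : φ hV3 = c⁻¹ * 1 * c := by rw [← hc]; group
      rw [this]; group
  obtain ⟨j, hj | hj | hj⟩ := hm_invol p hp2.1 hp2.2
  · rw [hj]; exact hm_conj_V3 j
  · exfalso
    apply hFU.1
    refine hp.trans ?_
    rw [isConj_iff]
    exact ⟨φ j⁻¹, by rw [hj]; simp [mul_assoc]⟩
  · exfalso
    apply hFU.2
    refine hp.trans ?_
    rw [isConj_iff]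
    exact ⟨φ j⁻¹, by rw [hj]; simp [mul_assoc]⟩

/-- **Main theorem of the configuration**: `H = G`. -/
theorem H3Cfg.surjective (h : H3Cfg φ) : Function.Surjective φ := by
  classical
  have hE' : TICfg φ hE := h.cfgE
  obtain ⟨X₁, X₂, ε₁, ε₂, -, -, -, hε₁, hε₂, hdec⟩ := h.decomp
  have hFU := Cfsg.Agent.Helper37.h3_not_isConj h
  have hu2 : (φ hV3) ^ 2 = 1 := by rw [← map_pow, hm_V3_sq, map_one]
  have hker := hE'.ker_of_count_zero hE_sq 3 X₁ X₂ ε₁ ε₂ hε₁ hε₂ hdec (φ hV3) hu2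
    (fun p hp1 hp2 => hm_not_E_mul p.1 p.2 (h.conj_V3 hFU p.1 hp1) (h.conj_V3 hFU p.2 hp2))
  have hc₁ : IsCharacter G (X₁ : G → ℂ) := Helper79.irr_isCharacter X₁
  have hc₂ : IsCharacter G (X₂ : G → ℂ) := Helper79.irr_isCharacter X₂
  obtain ⟨K, hKdef⟩ : ∃ K : Subgroup G, K = Helper79.charKer hc₁ ⊓ Helper79.charKer hc₂ :=
    ⟨_, rfl⟩
  have hKn : K.Normal := by
    haveI := Helper79.charKer_normal hc₁
    haveI := Helper79.charKer_normal hc₂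
    rw [hKdef]
    infer_instance
  have hKmem : ∀ g, g ∈ K ↔ (X₁ : G → ℂ) g = (X₁ : G → ℂ) 1 ∧ (X₂ : G → ℂ) g = (X₂ : G → ℂ) 1 := by
    intro g
    rw [hKdef, Subgroup.mem_inf, Helper79.mem_charKer, Helper79.mem_charKer]
  have hKzero : ∀ g ∈ K, cfI φ hE 3 g = 0 := by
    intro g hg
    rw [hdec g, ((hKmem g).mp hg).1, ((hKmem g).mp hg).2, ← hdec 1]
    exact hE'.cfI_eq_zero_of_sq hE_sq 3 (one_pow 2)
  have hu : φ hV3 ∈ K := (hKmem _).mpr hker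
  have h7a : ∀ m : HM, nmSg m.n = 1 → m.k = 0 → φ m ∈ K := by
    intro m h1 h2
    have hconj : ∀ j : HM, φ (j * hV3 * j⁻¹) ∈ K := by
      intro j
      rw [map_mul, map_mul, map_inv]
      exact hKn.conj_mem _ hu _
    obtain ⟨j, j', hm | hm⟩ := hm_gen m h1 h2
    · rw [hm, map_mul]; exact K.mul_mem (hconj j) (hconj j')
    · rw [hm]; exact hconj j
  have hnotE : ∀ m' : HM, φ m' ∈ K → ¬ hE m' := by
    intro m' hm' hEm
    have := hKzero _ hm'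
    rw [hE'.cfI_apply, if_pos hEm] at this
    norm_num at this
  have h7b : ∀ m : HM, φ m ∈ K → nmSg m.n = 1 ∧ m.k = 0 := by
    intro m hm
    by_contra hcon
    by_cases hs : nmSg m.n = 1
    · have hk : m.k ≠ 0 := fun hk => hcon ⟨hs, hk⟩
      exact hnotE m hm ⟨hs, hk⟩
    · have hc := hm_comm_E m hs
      apply hnotE _ _ hc
      have : φ (m * hT3 * m⁻¹ * hT3⁻¹) = φ m * (φ hT3 * (φ m)⁻¹ * (φ hT3)⁻¹) := by
        simp [mul_assoc]
      rw [this]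
      exact K.mul_mem hm (hKn.conj_mem _ (K.inv_mem hm) _)
  obtain ⟨R, hRdef⟩ : ∃ R : Subgroup G, R = (φ.comp hι).range := ⟨_, rfl⟩
  obtain ⟨L, hLdef⟩ : ∃ L : Subgroup G, L = K ⊔ R := ⟨_, rfl⟩
  have h8 : ∀ m : HM, φ m ∈ L → ∃ n : NM, φ (hι n) = φ m := by
    intro m hm
    have hmem : (φ m) ∈ ((K ⊔ R : Subgroup G) : Set G) := by rw [← hLdef]; exact hm
    rw [Subgroup.normal_mul] at hmem
    obtain ⟨k, hk, r, hr, hkr⟩ := Set.mem_mul.mp hmem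
    rw [SetLike.mem_coe, hRdef] at hr
    obtain ⟨n, hn⟩ := hr
    have hk' : φ (m * (hι n)⁻¹) ∈ K := by
      have : φ (m * (hι n)⁻¹) = k := by
        rw [map_mul, map_inv, ← hkr, ← hn]
        simp
      rw [this]; exact hk
    have hk0 : m.k = 0 := hm_k_of_mul_inv m n (h7b _ hk').2
    exact ⟨m.n, by rw [hι_eq m hk0]⟩
  have hRL : ∀ n : NM, (φ.comp hι) n ∈ L := by
    intro n
    rw [hLdef]
    exact (le_sup_right : R ≤ K ⊔ R) (by rw [hRdef]; exact ⟨n, rfl⟩)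
  obtain ⟨φ', hφ'⟩ : ∃ φ' : NM →* ↥L, ∀ n, ((φ' n : ↥L) : G) = φ (hι n) :=
    ⟨(φ.comp hι).codRestrict L hRL, fun n => rfl⟩
  have hcfg' : S3Cfg φ' := by
    refine ⟨?_, ?_⟩
    · intro a b hab
      have h1 := congrArg Subtype.val hab
      rw [hφ', hφ'] at h1
      exact hι_injective (h.inj h1)
    · intro n hn ℓ hℓ
      obtain ⟨n', hn'⟩ := hℓ
      have h1 : (ℓ : G) * φ (hι n) * (ℓ : G)⁻¹ = φ (hι n') := by
        have h2 := congrArg Subtype.val hn'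
        rw [hφ'] at h2
        rw [h2]
        simp [hφ']
      have hn2 : (hι n) ^ 2 ≠ 1 := by
        intro h'
        apply hn
        apply hι_injective
        rw [map_pow, h', map_one]
      have h2 : (ℓ : G) ∈ φ.range := h.ti (hι n) hn2 ℓ (by rw [h1]; exact ⟨_, rfl⟩)
      obtain ⟨m, hm⟩ := h2
      obtain ⟨n'', hn''⟩ := h8 m (by rw [hm]; exact ℓ.2)
      exact ⟨n'', Subtype.ext (by rw [hφ', hn'', hm])⟩
  haveI : Fintype ↥L := Fintype.ofFinite _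
  have hsurj := hcfg'.surjective
  intro g
  have ht1 : φ hT1 ∈ K := h7a hT1 hm_T1_sg hm_T1_k
  have hg : g * φ hT1 * g⁻¹ ∈ K := hKn.conj_mem _ ht1 g
  have hgL : g * φ hT1 * g⁻¹ ∈ L := by
    rw [hLdef]
    exact (le_sup_left : K ≤ K ⊔ R) hg
  obtain ⟨n, hn⟩ := hsurj ⟨_, hgL⟩
  have hmem : g * φ hT1 * g⁻¹ ∈ φ.range := by
    refine ⟨hι n, ?_⟩
    have h1 := congrArg Subtype.val hn
    rw [hφ'] at h1
    exact h1
  exact h.ti hT1 hm_T1_sq g hmem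

end

end Cfsg.Agent.Helper16
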