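import Cfsg.Agent.Helper73.BrauerFeit
import Cfsg.Agent.Helper16.HeightZero

/-!
# Blocks with exactly two irreducible characters: the arithmetic of the degrees

If `B = {χ₁, χ₂}` is a `p`-block of defect `d`, then there are positive integers `a`, `b` with
`a ^ 2 + b ^ 2 = p ^ d` and `χ₂(1) a = χ₁(1) b`.
-/

set_option autoImplicit false
open scoped ComplexConjugate

namespace Cfsg.Agent.Helper16

universe u

/-- The case in which `χ₁` has height zero. -/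
theorem k2_two_chars_aux {G : Type u} [Group G] [Fintype G] {p : ℕ} [Fact p.Prime]
    {M : Ideal Cfsg.AlgInt} (hM : Cfsg.IsPModular p M) {B : Set (Cfsg.IrrCharacter G)}
    (hB : Cfsg.IsPBlock M B) (χ₁ χ₂ : Cfsg.IrrCharacter G) (hne : χ₁ ≠ χ₂)
    (hBeq : B = {χ₁, χ₂}) (h0 : Cfsg.blockHeight p B (χ₁ : G → ℂ) = 0) :
    ∃ a b : ℕ, 0 < a ∧ 0 < b ∧ a ^ 2 + b ^ 2 = p ^ Cfsg.blockDefect p B ∧
      Cfsg.charDegree (χ₂ : G → ℂ) * a = Cfsg.charDegree (χ₁ : G → ℂ) * b := by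
  classical
  have := Fintype.ofFinite (Cfsg.IrrCharacter G)
  have hp : p.Prime := hM.1
  have h1B : χ₁ ∈ B := by rw [hBeq]; simp
  have h2B : χ₂ ∈ B := by rw [hBeq]; simp
  obtain ⟨m, hm, hmnot, hmB⟩ := Helper73.exists_mult_of_height_zero hM hB h1B h0
  obtain ⟨d, hd⟩ : ∃ d, d = Cfsg.blockDefect p B := ⟨_, rfl⟩
  rw [← hd] at hm ⊢
  have hpars := Helper73.sum_sq_classInner_pregScal p (p ^ d) χ₁ m hm
  have hout : ∀ ψ : Cfsg.IrrCharacter G, ψ ∉ ({χ₁, χ₂} : Finset (Cfsg.IrrCharacter G)) →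
      m ψ = 0 := by
    intro ψ hψ
    apply hmnot ψ
    rw [hBeq]
    simpa using hψ
  have hsum : ∑ ψ : Cfsg.IrrCharacter G, (m ψ) ^ 2 = (m χ₁) ^ 2 + (m χ₂) ^ 2 := by
    rw [← Finset.sum_subset (Finset.subset_univ ({χ₁, χ₂} : Finset (Cfsg.IrrCharacter G)))]
    · rw [Finset.sum_pair hne]
    · intro ψ _ hψ
      rw [hout ψ hψ]; simp
  rw [hsum] at hpars
  have hcl := Helper73.pregScal_isClassFunction p ((p ^ d : ℕ) : ℂ)
    (Cfsg.Agent.Helper81.irr_isClassFunction χ₁)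
  have hexp := Cfsg.Agent.Helper15.classFun_eq_sum hcl
  have hval : ((p ^ d : ℕ) : ℂ) * (χ₁ : G → ℂ) 1
      = (m χ₁ : ℂ) * (χ₁ : G → ℂ) 1 + (m χ₂ : ℂ) * (χ₂ : G → ℂ) 1 := by
    have h1 := congrFun hexp 1
    rw [Finset.sum_apply] at h1
    have h2 : Helper73.pregScal p ((p ^ d : ℕ) : ℂ) (χ₁ : G → ℂ) 1
        = ((p ^ d : ℕ) : ℂ) * (χ₁ : G → ℂ) 1 := by
      unfold Helper73.pregScal
      rw [orderOf_one, if_neg (by simpa using hp.ne_one)]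
    rw [h2] at h1
    rw [h1, ← Finset.sum_subset (Finset.subset_univ ({χ₁, χ₂} : Finset (Cfsg.IrrCharacter G)))]
    · rw [Finset.sum_pair hne]
      simp only [Pi.smul_apply, smul_eq_mul, hm]
    · intro ψ _ hψ
      simp only [Pi.smul_apply, smul_eq_mul, hm, hout ψ hψ]
      simp
  rw [Helper81.irr_one_eq_charDegree, Helper81.irr_one_eq_charDegree] at hval
  obtain ⟨D1, hD1⟩ : ∃ D1, D1 = Cfsg.charDegree (χ₁ : G → ℂ) := ⟨_, rfl⟩
  obtain ⟨D2, hD2⟩ : ∃ D2, D2 = Cfsg.charDegree (χ₂ : G → ℂ) := ⟨_, rfl⟩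
  have hD1pos : 0 < D1 := hD1 ▸ Helper81.charDegree_pos χ₁
  have hD2pos : 0 < D2 := hD2 ▸ Helper81.charDegree_pos χ₂
  rw [← hD1, ← hD2] at hval ⊢
  have hvalZ : ((p : ℤ) ^ d) * (D1 : ℤ) = m χ₁ * (D1 : ℤ) + m χ₂ * (D2 : ℤ) := by
    exact_mod_cast hval
  obtain ⟨m1, hm1⟩ : ∃ m1, m1 = m χ₁ := ⟨_, rfl⟩
  obtain ⟨m2, hm2⟩ : ∃ m2, m2 = m χ₂ := ⟨_, rfl⟩
  have hm1ne : m1 ≠ 0 := hm1 ▸ (hmB χ₁ h1B).1
  have hm2ne : m2 ≠ 0 := hm2 ▸ (hmB χ₂ h2B).1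
  have hval1 : padicValInt p m1 = 0 := by
    rw [hm1, (hmB χ₁ h1B).2, h0]
  rw [← hm1, ← hm2] at hpars hvalZ
  obtain ⟨P, hP⟩ : ∃ P : ℤ, P = (p : ℤ) ^ d := ⟨_, rfl⟩
  have hPpos : 0 < P := by
    rw [hP]
    exact pow_pos (by exact_mod_cast hp.pos) d
  have hpars' : m1 ^ 2 + m2 ^ 2 = P * m1 := by
    rw [hP]; exact_mod_cast hpars
  rw [← hP] at hvalZ
  have hm2sq : 0 < m2 ^ 2 := by positivity
  have hm1sq : 0 < m1 ^ 2 := by positivity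
  have hm1pos : 0 < m1 := by
    by_contra hcon
    have : m1 ≤ 0 := not_lt.mp hcon
    nlinarith
  have hprod : m1 * (P - m1) = m2 ^ 2 := by linarith
  have hQpos : 0 < P - m1 := by
    by_contra hcon
    have : P - m1 ≤ 0 := not_lt.mp hcon
    nlinarith
  have hD1Z : (0 : ℤ) < D1 := by exact_mod_cast hD1pos
  have hD2Z : (0 : ℤ) < D2 := by exact_mod_cast hD2pos
  have hrel : m2 * (D2 : ℤ) = (P - m1) * (D1 : ℤ) := by linarith
  have hm2pos : 0 < m2 := by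
    by_contra hcon
    have h1 : m2 ≤ 0 := not_lt.mp hcon
    have h2 : 0 < (P - m1) * (D1 : ℤ) := mul_pos hQpos hD1Z
    nlinarith
  -- coprimality
  have hndvd : ¬ (p : ℤ) ∣ m1 := by
    intro hdvd
    have h1 : (p : ℤ) ^ 1 ∣ m1 := by simpa using hdvd
    have h2 := (padicValInt_dvd_iff (p := p) 1 m1).mp h1
    rcases h2 with h2 | h2
    · exact hm1ne h2
    · omega
  have hcop0 : IsCoprime (p : ℤ) m1 :=
    (Prime.coprime_iff_not_dvd (Nat.prime_iff_prime_int.mp hp)).mpr hndvd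
  have hcop1 : IsCoprime m1 P := by
    rw [hP]
    exact (hcop0.pow_left).symm
  have hcop : IsCoprime m1 (P - m1) := by
    have := hcop1.add_mul_right_right (-1)
    simpa [sub_eq_add_neg] using this
  obtain ⟨a0, ha0⟩ := Int.sq_of_isCoprime hcop hprod
  have hprod' : (P - m1) * m1 = m2 ^ 2 := by rw [mul_comm]; exact hprod
  obtain ⟨b0, hb0⟩ := Int.sq_of_isCoprime hcop.symm hprod'
  have ha : m1 = a0 ^ 2 := by
    rcases ha0 with h | h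
    · exact h
    · exfalso
      have := sq_nonneg a0
      linarith
  have hb : P - m1 = b0 ^ 2 := by
    rcases hb0 with h | h
    · exact h
    · exfalso
      have := sq_nonneg b0
      linarith
  have ha0ne : a0 ≠ 0 := by
    rintro rfl
    rw [ha] at hm1pos
    simp at hm1pos
  have hb0ne : b0 ≠ 0 := by
    rintro rfl
    rw [hb] at hQpos
    simp at hQpos
  have haabs : ((a0.natAbs : ℕ) : ℤ) ^ 2 = a0 ^ 2 := Int.natAbs_sq a0
  have hbabs : ((b0.natAbs : ℕ) : ℤ) ^ 2 = b0 ^ 2 := Int.natAbs_sq b0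
  have hapos : 0 < a0.natAbs := Int.natAbs_pos.mpr ha0ne
  have hbpos : 0 < b0.natAbs := Int.natAbs_pos.mpr hb0ne
  have haZ : (0 : ℤ) < (a0.natAbs : ℤ) := by exact_mod_cast hapos
  have hbZ : (0 : ℤ) < (b0.natAbs : ℤ) := by exact_mod_cast hbpos
  have hm2eq : m2 = (a0.natAbs : ℤ) * (b0.natAbs : ℤ) := by
    have h1 : m2 ^ 2 = ((a0.natAbs : ℤ) * (b0.natAbs : ℤ)) ^ 2 := by
      rw [mul_pow, haabs, hbabs, ← ha, ← hb, hprod]
    have h2 : (0 : ℤ) ≤ (a0.natAbs : ℤ) * (b0.natAbs : ℤ) := (mul_pos haZ hbZ).le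
    exact (sq_eq_sq₀ hm2pos.le h2).mp h1
  refine ⟨a0.natAbs, b0.natAbs, hapos, hbpos, ?_, ?_⟩
  · have h1 : ((a0.natAbs : ℕ) : ℤ) ^ 2 + ((b0.natAbs : ℕ) : ℤ) ^ 2 = (p : ℤ) ^ d := by
      rw [haabs, hbabs, ← ha, ← hb, ← hP]; ring
    exact_mod_cast h1
  · have h1 : (D2 : ℤ) * (a0.natAbs : ℤ) = (D1 : ℤ) * (b0.natAbs : ℤ) := by
      have h2 : (b0.natAbs : ℤ) * ((D2 : ℤ) * (a0.natAbs : ℤ))
          = (b0.natAbs : ℤ) * ((D1 : ℤ) * (b0.natAbs : ℤ)) := by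
        have h3 : (P - m1) = (b0.natAbs : ℤ) ^ 2 := by rw [hbabs]; exact hb
        rw [hm2eq, h3] at hrel
        linarith
      exact mul_left_cancel₀ hbZ.ne' h2
    exact_mod_cast h1

/-- **Blocks with two characters.** If `B = {χ₁, χ₂}` is a `p`-block of defect `d` with
`χ₁ ≠ χ₂`, there are positive integers `a`, `b` with `a ^ 2 + b ^ 2 = p ^ d` and
`χ₂(1) a = χ₁(1) b`. -/
theorem k2_two_chars {G : Type u} [Group G] [Fintype G] {p : ℕ} [Fact p.Prime]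
    {M : Ideal Cfsg.AlgInt} (hM : Cfsg.IsPModular p M) {B : Set (Cfsg.IrrCharacter G)}
    (hB : Cfsg.IsPBlock M B) (χ₁ χ₂ : Cfsg.IrrCharacter G) (hne : χ₁ ≠ χ₂)
    (hBeq : B = {χ₁, χ₂}) :
    ∃ a b : ℕ, 0 < a ∧ 0 < b ∧ a ^ 2 + b ^ 2 = p ^ Cfsg.blockDefect p B ∧
      Cfsg.charDegree (χ₂ : G → ℂ) * a = Cfsg.charDegree (χ₁ : G → ℂ) * b := by
  obtain ⟨χ₀, hχ₀, h0⟩ := exists_height_zero (p := p) hM.2.1 hB
  rw [hBeq] at hχ₀
  rcases hχ₀ with rfl | hχ₀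
  · exact k2_two_chars_aux hM hB χ₀ χ₂ hne hBeq h0
  · rw [Set.mem_singleton_iff] at hχ₀
    subst hχ₀
    have hBeq' : B = {χ₀, χ₁} := by rw [hBeq, Set.pair_comm]
    obtain ⟨a, b, ha, hb, hab, hrel⟩ := k2_two_chars_aux hM hB χ₀ χ₁ hne.symm hBeq' h0
    exact ⟨b, a, hb, ha, by rw [add_comm]; exact hab, hrel.symm⟩

end Cfsg.Agent.Helper16
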