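import Mathlib
import Cfsg.Agent.Helper16.NGDefs
import Cfsg.Agent.Helper36.NGFACTS
import Cfsg.Agent.Helper10.NGLTS

/-!
# S4404, piece P6A: the commutator `c = g x g⁻¹ x⁻¹` for `g` in an `x`-invariant `p`-subgroup, `p ≥ 5`
-/

set_option autoImplicit false

namespace Cfsg.Agent.Helper16.NGP6A
open Cfsg.Agent.Helper16.NG
open Cfsg.Agent.Helper36.NGFACTS (ng_V_le ng_V_conj ng_V_irred)
open Cfsg.Agent.Helper10.NGLTS (ng_LTS)

variable {S : Type*} [Group S]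

section basic

variable {M : Subgroup S}

theorem psi_mem (hn : M.Normal) (c : S) {m : S} (hm : m ∈ M) : c * m * c⁻¹ * m⁻¹ ∈ M :=
  M.mul_mem (hn.conj_mem m hm c) (M.inv_mem hm)

theorem psi_mul (hn : M.Normal) (hc : ∀ a ∈ M, ∀ b ∈ M, a * b = b * a) (c : S) {m₁ m₂ : S}
    (h₁ : m₁ ∈ M) (h₂ : m₂ ∈ M) :
    c * (m₁ * m₂) * c⁻¹ * (m₁ * m₂)⁻¹ = (c * m₁ * c⁻¹ * m₁⁻¹) * (c * m₂ * c⁻¹ * m₂⁻¹) := by
  have hb : c * m₂ * c⁻¹ * m₂⁻¹ ∈ M := psi_mem hn c h₂
  have hi1 : m₁⁻¹ ∈ M := M.inv_mem h₁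
  have e := hc _ hb _ hi1
  calc c * (m₁ * m₂) * c⁻¹ * (m₁ * m₂)⁻¹
      = c * m₁ * c⁻¹ * ((c * m₂ * c⁻¹ * m₂⁻¹) * m₁⁻¹) := by group
    _ = c * m₁ * c⁻¹ * (m₁⁻¹ * (c * m₂ * c⁻¹ * m₂⁻¹)) := by rw [e]
    _ = _ := by group

/-- the hom `m ↦ [c, m]` -/
def psiHom (hn : M.Normal) (hc : ∀ a ∈ M, ∀ b ∈ M, a * b = b * a) (c : S) : ↥M →* S where
  toFun m := c * (m : S) * c⁻¹ * (m : S)⁻¹
  map_one' := by simp
  map_mul' a b := by simpa using psi_mul hn hc c a.2 b.2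

theorem U_eq_range (hn : M.Normal) (hc : ∀ a ∈ M, ∀ b ∈ M, a * b = b * a) (c : S) :
    U M c = (psiHom hn hc c).range := by
  apply le_antisymm
  · rw [U, Subgroup.closure_le]
    rintro u ⟨m, hm, rfl⟩
    exact ⟨⟨m, hm⟩, rfl⟩
  · rintro _ ⟨m, rfl⟩
    exact Subgroup.subset_closure ⟨m, m.2, rfl⟩

theorem mem_U (hn : M.Normal) (hc : ∀ a ∈ M, ∀ b ∈ M, a * b = b * a) (c u : S) :
    u ∈ U M c ↔ ∃ m ∈ M, u = c * m * c⁻¹ * m⁻¹ := by
  rw [U_eq_range hn hc]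
  constructor
  · rintro ⟨m, rfl⟩
    exact ⟨m, m.2, rfl⟩
  · rintro ⟨m, hm, rfl⟩
    exact ⟨⟨m, hm⟩, rfl⟩

theorem U_le (hn : M.Normal) (hc : ∀ a ∈ M, ∀ b ∈ M, a * b = b * a) (c : S) : U M c ≤ M := by
  intro u hu
  obtain ⟨m, hm, rfl⟩ := (mem_U hn hc c u).1 hu
  exact psi_mem hn c hm

/-- `c` normalizes `U M c` -/
theorem U_conj (hn : M.Normal) (hc : ∀ a ∈ M, ∀ b ∈ M, a * b = b * a) (c : S) {u : S}
    (hu : u ∈ U M c) : c * u * c⁻¹ ∈ U M c := by
  obtain ⟨m, hm, rfl⟩ := (mem_U hn hc c u).1 hu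
  rw [mem_U hn hc]
  exact ⟨c * m * c⁻¹, hn.conj_mem m hm c, by group⟩

/-- `[c^j, m] ∈ U M c` -/
theorem pow_psi_mem (hn : M.Normal) (hc : ∀ a ∈ M, ∀ b ∈ M, a * b = b * a) (c : S) (j : ℕ) {m : S}
    (hm : m ∈ M) : c ^ j * m * (c ^ j)⁻¹ * m⁻¹ ∈ U M c := by
  induction j generalizing m with
  | zero => simp
  | succ j ih =>
    have h1 : c ^ (j + 1) * m * (c ^ (j + 1))⁻¹ * m⁻¹ =
        (c ^ j * (c * m * c⁻¹) * (c ^ j)⁻¹ * (c * m * c⁻¹)⁻¹) * (c * m * c⁻¹ * m⁻¹) := by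
      rw [pow_succ]; group
    rw [h1]
    exact (U M c).mul_mem (ih (hn.conj_mem m hm c)) ((mem_U hn hc c _).2 ⟨m, hm, rfl⟩)

theorem conj_pow_fix (c m u : S) (h : c * m * c⁻¹ = u * m) (hfix : c * u * c⁻¹ = u) (j : ℕ) :
    c ^ j * m * (c ^ j)⁻¹ = u ^ j * m := by
  induction j with
  | zero => simp
  | succ j ih =>
    have h1 : c ^ (j + 1) * m * (c ^ (j + 1))⁻¹ = c * (c ^ j * m * (c ^ j)⁻¹) * c⁻¹ := by
      rw [pow_succ']; group
    have h2 : c * (u ^ j * m) * c⁻¹ = (c * u * c⁻¹) ^ j * (c * m * c⁻¹) := by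
      rw [conj_pow]; group
    rw [h1, ih, h2, hfix, h, pow_succ, mul_assoc]

/-- a fixed point of `c` in `U M c` is trivial when some odd power of `c` centralizes `M` -/
theorem U_fpf (hn : M.Normal) (hc : ∀ a ∈ M, ∀ b ∈ M, a * b = b * a) (hs : ∀ a ∈ M, a ^ 2 = 1)
    (c : S) (n : ℕ) (hn2 : Odd n) (hcn : ∀ m ∈ M, c ^ n * m * (c ^ n)⁻¹ = m) {u : S} (hu : u ∈ U M c)
    (hfix : c * u * c⁻¹ = u) : u = 1 := by
  obtain ⟨m, hm, hum⟩ := (mem_U hn hc c u).1 hu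
  have huM : u ∈ M := by rw [hum]; exact psi_mem hn c hm
  have h3 : c * m * c⁻¹ = u * m := by rw [hum]; group
  have h4 := conj_pow_fix c m u h3 hfix n
  rw [hcn m hm] at h4
  have h5 : u ^ n = 1 := by
    have : u ^ n * m = 1 * m := by rw [← h4, one_mul]
    exact mul_right_cancel this
  obtain ⟨k, rfl⟩ := hn2
  have h6 : u ^ (2 * k + 1) = u := by
    rw [pow_succ, pow_mul, hs u huM, one_pow, one_mul]
  rw [h6] at h5
  exact h5

end basic

section J

/-- the subgroup of elements normalizing `W` and acting trivially on `M/W` -/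
def Ksub (M W : Subgroup S) : Subgroup S where
  carrier := {j | (∀ w ∈ W, j * w * j⁻¹ ∈ W) ∧ (∀ w ∈ W, j⁻¹ * w * j ∈ W) ∧
    (∀ m ∈ M, j * m * j⁻¹ * m⁻¹ ∈ W) ∧ (∀ m ∈ M, j⁻¹ * m * j * m⁻¹ ∈ W)}
  mul_mem' := by
    rintro a b ⟨a1, a2, a3, a4⟩ ⟨b1, b2, b3, b4⟩
    refine ⟨fun w hw => ?_, fun w hw => ?_, fun m hm => ?_, fun m hm => ?_⟩
    · have := a1 _ (b1 w hw)
      convert this using 1; group
    · have := b2 _ (a2 w hw)
      convert this using 1; group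
    · have := W.mul_mem (a1 _ (b3 m hm)) (a3 m hm)
      convert this using 1; group
    · have := W.mul_mem (b2 _ (a4 m hm)) (b4 m hm)
      convert this using 1; group
  one_mem' := by
    refine ⟨fun w hw => by simpa using hw, fun w hw => by simpa using hw, fun m _ => by simp,
      fun m _ => by simp⟩
  inv_mem' := by
    rintro a ⟨a1, a2, a3, a4⟩
    refine ⟨?_, ?_, ?_, ?_⟩
    · simpa using a2
    · simpa using a1
    · simpa using a4
    · simpa using a3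

theorem mem_Ksub_of {M W : Subgroup S} (hWM : W ≤ M) (j : S)
    (h3 : ∀ m ∈ M, j * m * j⁻¹ * m⁻¹ ∈ W) (h4 : ∀ m ∈ M, j⁻¹ * m * j * m⁻¹ ∈ W) : j ∈ Ksub M W := by
  refine ⟨fun w hw => ?_, fun w hw => ?_, h3, h4⟩
  · have := W.mul_mem (h3 w (hWM hw)) hw
    convert this using 1; group
  · have := W.mul_mem (h4 w (hWM hw)) hw
    convert this using 1; group

theorem card_sup_le [Finite S] {M : Subgroup S} (hc : ∀ a ∈ M, ∀ b ∈ M, a * b = b * a)
    (A B : Subgroup S) (hA : A ≤ M) (hB : B ≤ M) :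
    Nat.card ↥(A ⊔ B) ≤ Nat.card A * Nat.card B := by
  let T : Subgroup S :=
    { carrier := {w | ∃ a ∈ A, ∃ b ∈ B, w = a * b}
      mul_mem' := by
        rintro _ _ ⟨a, ha, b, hb, rfl⟩ ⟨a', ha', b', hb', rfl⟩
        refine ⟨a * a', A.mul_mem ha ha', b * b', B.mul_mem hb hb', ?_⟩
        have e := hc b (hB hb) a' (hA ha')
        calc a * b * (a' * b') = a * (b * a') * b' := by group
          _ = a * (a' * b) * b' := by rw [e]
          _ = _ := by group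
      one_mem' := ⟨1, A.one_mem, 1, B.one_mem, by simp⟩
      inv_mem' := by
        rintro _ ⟨a, ha, b, hb, rfl⟩
        refine ⟨a⁻¹, A.inv_mem ha, b⁻¹, B.inv_mem hb, ?_⟩
        have e := hc b⁻¹ (hB (B.inv_mem hb)) a⁻¹ (hA (A.inv_mem ha))
        rw [mul_inv_rev, e] }
  have hle : A ⊔ B ≤ T :=
    sup_le (fun a ha => ⟨a, ha, 1, B.one_mem, by simp⟩) (fun b hb => ⟨1, A.one_mem, b, hb, by simp⟩)
  let f : ↥A × ↥B → ↥(A ⊔ B) := fun q =>
    ⟨(q.1 : S) * (q.2 : S), (A ⊔ B).mul_mem (le_sup_left (a := A) q.1.2) (le_sup_right (b := B) q.2.2)⟩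
  have hf : Function.Surjective f := by
    rintro ⟨w, hw⟩
    obtain ⟨a, ha, b, hb, rfl⟩ := hle hw
    exact ⟨(⟨a, ha⟩, ⟨b, hb⟩), rfl⟩
  have := Nat.card_le_card_of_surjective f hf
  rwa [Nat.card_prod] at this

end J

/-- a general group identity -/
theorem cube_formula {G : Type*} [Group G] (a c : G) (k : ℕ) (ha : a ^ 3 = 1)
    (hk : a * c * a⁻¹ = c ^ k) : (c * a) ^ 3 = c ^ (1 + k + k ^ 2) := by
  have h2 : a ^ 2 * c * (a ^ 2)⁻¹ = c ^ (k ^ 2) := by
    have e : a ^ 2 * c * (a ^ 2)⁻¹ = a * (a * c * a⁻¹) * a⁻¹ := by rw [sq]; group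
    rw [e, hk, ← conj_pow, hk, ← pow_mul, sq]
  have h3 : (c * a) ^ 3 = c * (a * c * a⁻¹) * (a ^ 2 * c * (a ^ 2)⁻¹) * a ^ 3 := by
    have e3 : a ^ 3 = a * a * a := by rw [pow_succ, sq]
    have e2 : a ^ 2 = a * a := sq a
    have e1 : (c * a) ^ 3 = c * a * (c * a) * (c * a) := by rw [pow_succ, sq]
    rw [e1, e2, e3]; group
  rw [h3, hk, h2, ha, mul_one, ← pow_succ', ← pow_add]
  congr 1
  ring

section main

variable [Finite S] {M V : Subgroup S} {x : S}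

theorem rho_eq_one_iff (hn : M.Normal) (s : S) :
    (@MulAut.conjNormal S _ M hn) s = 1 ↔ s ∈ Subgroup.centralizer (M : Set S) := by
  constructor
  · intro hs
    rw [Subgroup.mem_centralizer_iff]
    intro m hm
    have := congrArg (fun f : MulAut M => ((f ⟨m, hm⟩ : M) : S)) hs
    simp only [MulAut.conjNormal_apply, MulAut.one_apply] at this
    calc m * s = (s * m * s⁻¹) * s := by rw [this]
      _ = s * m := by group
  · intro hs
    rw [Subgroup.mem_centralizer_iff] at hs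
    ext m
    simp only [MulAut.conjNormal_apply, MulAut.one_apply]
    rw [← hs m m.2]; group

omit [Finite S] in
theorem cent_conj {s m : S} (hs : s ∈ Subgroup.centralizer (M : Set S)) (hm : m ∈ M) :
    s * m * s⁻¹ = m := by
  rw [Subgroup.mem_centralizer_iff] at hs
  rw [← hs m hm]; group

set_option maxHeartbeats 1600000 in
theorem ng_p6a (h : Cfg M V x) (p : ℕ) (hp : p.Prime) (hp5 : 5 ≤ p)
    (P : Subgroup S) (hP : IsPGroup p ↥P) (hxP : ∀ a ∈ P, x * a * x⁻¹ ∈ P) (g : S) (hg : g ∈ P) :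
    g * x * g⁻¹ * x⁻¹ ∈ Subgroup.centralizer (M : Set S) ∨
    (p = 7 ∧ (g * x * g⁻¹ * x⁻¹) ^ 7 ∈ Subgroup.centralizer (M : Set S) ∧
      Nat.card (U M (g * x * g⁻¹ * x⁻¹)) = 8 ∧ V ≤ U M (g * x * g⁻¹ * x⁻¹)) := by
  classical
  have hn := h.normal
  have hpF : Fact p.Prime := ⟨hp⟩
  by_cases hcM : g * x * g⁻¹ * x⁻¹ ∈ Subgroup.centralizer (M : Set S)
  · exact Or.inl hcM
  right
  obtain ⟨c, hcdef⟩ : ∃ c, c = g * x * g⁻¹ * x⁻¹ := ⟨_, rfl⟩
  rw [← hcdef] at hcM ⊢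
  obtain ⟨y, hydef⟩ : ∃ y, y = g * x * g⁻¹ := ⟨_, rfl⟩
  have hcy : c = y * x⁻¹ := by rw [hcdef, hydef]
  have hVM : V ≤ M := ng_V_le h
  obtain ⟨Vg, hVg⟩ : ∃ Vg, Vg = V.map (MulAut.conj g).toMonoidHom := ⟨_, rfl⟩
  have hVg_mem : ∀ v ∈ V, g * v * g⁻¹ ∈ Vg := by
    intro v hv; rw [hVg]; exact ⟨v, hv, by simp [MulAut.conj_apply]⟩
  have hVgM : Vg ≤ M := by
    rw [hVg]; rintro _ ⟨v, hv, rfl⟩
    simpa [MulAut.conj_apply] using hn.conj_mem v (hVM hv) g
  have hVgcard : Nat.card Vg = 4 := by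
    rw [hVg, ← h.card]
    exact Nat.card_congr (V.equivMapOfInjective _ (MulAut.conj g).injective).symm.toEquiv
  obtain ⟨W, hWdef⟩ : ∃ W, W = V ⊔ Vg := ⟨_, rfl⟩
  have hVW : V ≤ W := hWdef ▸ le_sup_left
  have hVgW : Vg ≤ W := hWdef ▸ le_sup_right
  have hWM : W ≤ M := hWdef ▸ sup_le hVM hVgM
  have hW16 : Nat.card W ≤ 16 := by
    have := card_sup_le h.comm V Vg hVM hVgM
    rw [h.card, hVgcard] at this
    rw [hWdef]; exact this
  -- x and y lie in Ksub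
  have hx3 : ∀ m ∈ M, x * m * x⁻¹ * m⁻¹ ∈ V := fun m hm => (h.hV _).2 ⟨m, hm, rfl⟩
  have hx4 : ∀ m ∈ M, x⁻¹ * m * x * m⁻¹ ∈ V := by
    intro m hm
    have h1 : x⁻¹ * m * x ∈ M := by simpa using hn.conj_mem m hm x⁻¹
    have h2 := V.inv_mem (hx3 _ h1)
    convert h2 using 1; group
  have hxK : x ∈ Ksub M W :=
    mem_Ksub_of hWM x (fun m hm => hVW (hx3 m hm)) (fun m hm => hVW (hx4 m hm))
  have hyK : y ∈ Ksub M W := by
    apply mem_Ksub_of hWM
    · intro m hm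
      have h1 : g⁻¹ * m * g ∈ M := by simpa using hn.conj_mem m hm g⁻¹
      have h2 := hVg_mem _ (hx3 _ h1)
      apply hVgW
      convert h2 using 1; rw [hydef]; group
    · intro m hm
      have h1 : g⁻¹ * m * g ∈ M := by simpa using hn.conj_mem m hm g⁻¹
      have h2 := hVg_mem _ (hx4 _ h1)
      apply hVgW
      convert h2 using 1; rw [hydef]; group
  obtain ⟨J, hJdef⟩ : ∃ J, J = Subgroup.closure ({x, y} : Set S) := ⟨_, rfl⟩
  have hxJ : x ∈ J := hJdef ▸ Subgroup.subset_closure (by simp)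
  have hyJ : y ∈ J := hJdef ▸ Subgroup.subset_closure (by simp)
  have hJK : J ≤ Ksub M W := by
    rw [hJdef, Subgroup.closure_le]
    rintro _ (rfl | rfl)
    · exact hxK
    · exact hyK
  have hcP : c ∈ P := by
    have h1 : x * g⁻¹ * x⁻¹ ∈ P := hxP _ (P.inv_mem hg)
    have h2 := P.mul_mem hg h1
    convert h2 using 1; rw [hcdef]; group
  have hcJ : c ∈ J := by rw [hcy]; exact J.mul_mem hyJ (J.inv_mem hxJ)
  have hc'J : x * c * x⁻¹ ∈ J := J.mul_mem (J.mul_mem hxJ hcJ) (J.inv_mem hxJ)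
  have hc'P : x * c * x⁻¹ ∈ P := hxP c hcP
  have hTp : IsPGroup p ↥(J ⊓ P) := hP.to_le inf_le_right
  have hidx := ng_LTS M h.comm h.sq W hWM hW16 p hp hp5 (J ⊓ P) hTp
    (fun t ht w hw => (hJK ht.1).1 w hw) (fun t ht m hm => (hJK ht.1).2.2.1 m hm)
  -- pass to automorphisms of M
  obtain ⟨ρ, hρ⟩ : ∃ ρ : S →* MulAut M, ρ = @MulAut.conjNormal S _ M hn := ⟨_, rfl⟩
  have hker : ∀ s : S, ρ s = 1 ↔ s ∈ Subgroup.centralizer (M : Set S) := by
    intro s; rw [hρ]; exact rho_eq_one_iff hn s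
  have hkerS : ρ.ker = Subgroup.centralizer (M : Set S) := by
    ext s; rw [MonoidHom.mem_ker]; exact hker s
  have hcard : Nat.card ((J ⊓ P).map ρ) ≤ 7 := by
    rw [← Subgroup.relIndex_ker, hkerS, ← Subgroup.inf_relIndex_right, inf_comm]
    exact hidx
  have hTbp : IsPGroup p ↥((J ⊓ P).map ρ) := hTp.map ρ
  have hcb1 : ρ c ≠ 1 := fun h1 => hcM ((hker c).1 h1)
  have hcbT : ρ c ∈ (J ⊓ P).map ρ := ⟨c, ⟨hcJ, hcP⟩, rfl⟩
  have hc'bT : ρ (x * c * x⁻¹) ∈ (J ⊓ P).map ρ := ⟨_, ⟨hc'J, hc'P⟩, rfl⟩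
  -- the image has order exactly p ≤ 7
  obtain ⟨n, hn'⟩ := (IsPGroup.iff_card).1 hTbp
  have hn1 : n ≠ 0 := by
    rintro rfl
    rw [pow_zero] at hn'
    have hbot := (Subgroup.card_eq_one).1 hn'
    rw [hbot, Subgroup.mem_bot] at hcbT
    exact hcb1 hcbT
  have hn2 : n = 1 := by
    by_contra hne
    have h2 : 2 ≤ n := by omega
    have : p ^ 2 ≤ p ^ n := Nat.pow_le_pow_right hp.pos h2
    have : 25 ≤ p ^ 2 := by nlinarith
    omega
  rw [hn2, pow_one] at hn'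
  have hp7 : p ≤ 7 := hn' ▸ hcard
  -- exponent
  obtain ⟨kz, hkz⟩ := mem_zpowers_of_prime_card (G := ↥((J ⊓ P).map ρ)) hn'
    (g := ⟨ρ c, hcbT⟩) (g' := ⟨ρ (x * c * x⁻¹), hc'bT⟩)
    (fun h1 => hcb1 (by simpa using congrArg Subtype.val h1))
  have hkz' : (ρ c) ^ kz = ρ (x * c * x⁻¹) := by
    have := congrArg Subtype.val hkz
    simpa using this
  have hordc : orderOf (ρ c) = p := by
    apply orderOf_eq_prime _ hcb1
    have h1 : (⟨ρ c, hcbT⟩ : ↥((J ⊓ P).map ρ)) ^ p = 1 := by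
      rw [← hn']; exact pow_card_eq_one'
    simpa using congrArg Subtype.val h1
  obtain ⟨k, hkp, hk⟩ : ∃ k : ℕ, k < p ∧ (ρ c) ^ k = ρ (x * c * x⁻¹) := by
    refine ⟨(kz % (p : ℤ)).toNat, ?_, ?_⟩
    · have h1 : (0 : ℤ) ≤ kz % (p : ℤ) := Int.emod_nonneg _ (by exact_mod_cast hp.ne_zero)
      have h2 : kz % (p : ℤ) < p := Int.emod_lt_of_pos _ (by exact_mod_cast hp.pos)
      omega
    · have h1 : (0 : ℤ) ≤ kz % (p : ℤ) := Int.emod_nonneg _ (by exact_mod_cast hp.ne_zero)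
      rw [← hkz', ← zpow_natCast, Int.toNat_of_nonneg h1, ← hordc, zpow_mod_orderOf]
  have hxb3 : (ρ x) ^ 3 = 1 := by
    rw [← map_pow, hker, Subgroup.mem_centralizer_iff]
    intro m hm
    have := h.cube m hm
    calc m * x ^ 3 = (x ^ 3 * m * (x ^ 3)⁻¹) * x ^ 3 := by rw [this]
      _ = x ^ 3 * m := by group
  have hyb3 : (ρ y) ^ 3 = 1 := by
    have : ρ y = ρ g * ρ x * (ρ g)⁻¹ := by rw [hydef]; simp
    rw [this, conj_pow, hxb3]; simp
  have hyb : ρ y = ρ c * ρ x := by rw [hcy]; simp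
  have hconj : ρ x * ρ c * (ρ x)⁻¹ = (ρ c) ^ k := by rw [hk]; simp
  have hcube := cube_formula (ρ x) (ρ c) k hxb3 hconj
  rw [← hyb, hyb3] at hcube
  have hdvd : p ∣ 1 + k + k ^ 2 := by
    rw [← hordc]; exact orderOf_dvd_of_pow_eq_one hcube.symm
  have hp7' : p = 7 ∧ (k = 2 ∨ k = 4) := by
    have hp57 : p = 5 ∨ p = 7 := by
      interval_cases p
      · left; rfl
      · exact absurd hp (by norm_num)
      · right; rfl
    rcases hp57 with rfl | rfl
    · exfalso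
      interval_cases k <;> omega
    · refine ⟨rfl, ?_⟩
      interval_cases k <;> omega
  obtain ⟨rfl, hk24⟩ := hp7'
  have hc7 : c ^ 7 ∈ Subgroup.centralizer (M : Set S) := by
    rw [← hker, map_pow, ← hordc]; exact pow_orderOf_eq_one _
  have hc7' : ∀ m ∈ M, c ^ 7 * m * (c ^ 7)⁻¹ = m := fun m hm => cent_conj hc7 hm
  -- the subgroup U
  have hUW : U M c ≤ W := by
    intro u hu
    obtain ⟨m, hm, rfl⟩ := (mem_U hn h.comm c u).1 hu
    exact (hJK hcJ).2.2.1 m hm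
  have hUM : U M c ≤ M := U_le hn h.comm c
  have hU16 : Nat.card (U M c) ≤ 16 := le_trans (Subgroup.card_le_of_le hUW) hW16
  have hUne : Nat.card (U M c) ≠ 1 := by
    intro h1
    have hbot := (Subgroup.card_eq_one).1 h1
    apply hcM
    rw [Subgroup.mem_centralizer_iff]
    intro m hm
    have h2 : c * m * c⁻¹ * m⁻¹ ∈ U M c := (mem_U hn h.comm c _).2 ⟨m, hm, rfl⟩
    rw [hbot, Subgroup.mem_bot] at h2
    have h3 : c * m * c⁻¹ = m := by
      have := congrArg (· * m) h2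
      simpa using this
    calc m * c = (c * m * c⁻¹) * c := by rw [h3]
      _ = c * m := by group
  have hU8 : Nat.card (U M c) = 8 := by
    -- |M| = |ker ψ| * |U|
    have hM2 : IsPGroup 2 ↥M := by
      intro m
      refine ⟨1, ?_⟩
      apply Subtype.ext
      simpa using h.sq m m.2
    obtain ⟨e, he⟩ := (IsPGroup.iff_card).1 hM2
    have hψ1 := Subgroup.card_mul_index (psiHom hn h.comm c).ker
    rw [Subgroup.index_ker, ← U_eq_range hn h.comm c] at hψ1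
    -- fixed points
    have hG7 : IsPGroup 7 ↥(Subgroup.zpowers (ρ c)) := by
      apply IsPGroup.of_card (n := 1)
      rw [Nat.card_zpowers, hordc, pow_one]
    have h7 : Fact (Nat.Prime 7) := ⟨by norm_num⟩
    have hmod := hG7.card_modEq_card_fixedPoints (α := ↥M)
    have hfix : (MulAction.fixedPoints ↥(Subgroup.zpowers (ρ c)) ↥M) =
        ((psiHom hn h.comm c).ker : Set ↥M) := by
      ext m
      simp only [MulAction.mem_fixedPoints, SetLike.mem_coe, MonoidHom.mem_ker]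
      constructor
      · intro hm
        have h1 := hm ⟨ρ c, Subgroup.mem_zpowers _⟩
        have h2 : (ρ c) m = m := h1
        have h3 : c * (m : S) * c⁻¹ = m := by
          have := congrArg Subtype.val h2
          rw [hρ] at this
          simpa [MulAut.conjNormal_apply] using this
        show c * (m : S) * c⁻¹ * (m : S)⁻¹ = 1
        rw [h3]; simp
      · intro hm
        have h3 : c * (m : S) * c⁻¹ = m := by
          have h4 : c * (m : S) * c⁻¹ * (m : S)⁻¹ = 1 := hm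
          have := congrArg (· * (m : S)) h4
          simpa using this
        have h2 : (ρ c) m = m := by
          apply Subtype.ext
          rw [hρ]
          simpa [MulAut.conjNormal_apply] using h3
        rintro ⟨t, ht⟩
        obtain ⟨j, rfl⟩ := Subgroup.mem_zpowers_iff.1 ht
        show ((ρ c) ^ j) m = m
        have h5 : ∀ j : ℤ, ((ρ c) ^ j) m = m := by
          intro j
          have h6 : (ρ c) ^ j ∈ MulAction.stabilizer (MulAut ↥M) m :=
            Subgroup.zpow_mem _ (by simpa [MulAction.mem_stabilizer_iff] using h2) j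
          simpa [MulAction.mem_stabilizer_iff] using h6
        exact h5 j
    have hfixcard : Nat.card (MulAction.fixedPoints ↥(Subgroup.zpowers (ρ c)) ↥M) =
        Nat.card (psiHom hn h.comm c).ker := by
      rw [hfix]; rfl
    rw [hfixcard] at hmod
    set a := Nat.card (psiHom hn h.comm c).ker with ha
    set u := Nat.card (U M c) with hu
    have hau : a * u = 2 ^ e := by rw [hψ1, he]
    have hadvd : a ∣ 2 ^ e := Dvd.intro _ hau
    have hudvd : u ∣ 2 ^ e := Dvd.intro_left _ hau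
    obtain ⟨i, -, hi⟩ := (Nat.dvd_prime_pow Nat.prime_two).1 hadvd
    obtain ⟨j, -, hj⟩ := (Nat.dvd_prime_pow Nat.prime_two).1 hudvd
    have hcop : Nat.gcd 7 a = 1 := by
      rw [hi]; exact Nat.Coprime.pow_right _ (by norm_num)
    have hmod' : a * u ≡ a * 1 [MOD 7] := by
      rw [mul_one, hau, ← he]; exact hmod
    have hu1 : u ≡ 1 [MOD 7] := Nat.ModEq.cancel_left_of_coprime hcop hmod'
    have hj4 : j ≤ 4 := by
      by_contra hlt
      have : 2 ^ 5 ≤ 2 ^ j := Nat.pow_le_pow_right (by norm_num) (by omega)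
      omega
    have hu1' : (2 ^ j) % 7 = 1 := by rw [← hj]; exact hu1
    have hUne' : 2 ^ j ≠ 1 := by rw [← hj]; exact hUne
    rw [hj]
    interval_cases j
    · exact absurd rfl hUne'
    · norm_num at hu1'
    · norm_num at hu1'
    · norm_num
    · norm_num at hu1'
  refine ⟨rfl, hc7, hU8, ?_⟩
  -- V ≤ U
  obtain ⟨z, hzdef⟩ : ∃ z, z = (c ^ k)⁻¹ * (x * c * x⁻¹) := ⟨_, rfl⟩
  have hzC : z ∈ Subgroup.centralizer (M : Set S) := by
    rw [← hker, hzdef, map_mul, map_inv, map_pow, hk]; exact inv_mul_cancel _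
  have hc'eq : x * c * x⁻¹ = c ^ k * z := by rw [hzdef]; group
  have hxU : ∀ u ∈ U M c, x * u * x⁻¹ ∈ U M c := by
    intro u hu
    obtain ⟨m, hm, rfl⟩ := (mem_U hn h.comm c u).1 hu
    have hm' : x * m * x⁻¹ ∈ M := hn.conj_mem m hm x
    have h1 : x * (c * m * c⁻¹ * m⁻¹) * x⁻¹ =
        (x * c * x⁻¹) * (x * m * x⁻¹) * (x * c * x⁻¹)⁻¹ * (x * m * x⁻¹)⁻¹ := by group
    have h2 : (c ^ k * z) * (x * m * x⁻¹) * (c ^ k * z)⁻¹ =
        c ^ k * (z * (x * m * x⁻¹) * z⁻¹) * (c ^ k)⁻¹ := by group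
    rw [h1, hc'eq, h2, cent_conj hzC hm']
    exact pow_psi_mem hn h.comm c k hm'
  have hKx : ∀ v ∈ V ⊓ U M c, x * v * x⁻¹ ∈ V ⊓ U M c :=
    fun v hv => ⟨ng_V_conj h v hv.1, hxU v hv.2⟩
  rcases ng_V_irred h (V ⊓ U M c) inf_le_left hKx with hbot | htop
  · exfalso
    have hxfix : ∀ u ∈ U M c, x * u * x⁻¹ = u := by
      intro u hu
      have h1 : x * u * x⁻¹ * u⁻¹ ∈ V ⊓ U M c :=
        ⟨hx3 u (hUM hu), (U M c).mul_mem (hxU u hu) ((U M c).inv_mem hu)⟩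
      rw [hbot, Subgroup.mem_bot] at h1
      have := congrArg (· * u) h1
      simpa using this
    have hxfix' : ∀ u ∈ U M c, x⁻¹ * u * x = u := by
      intro u hu
      have h1 := hxfix u hu
      calc x⁻¹ * u * x = x⁻¹ * (x * u * x⁻¹) * x := by rw [h1]
        _ = u := by group
    have hpow : ∀ u ∈ U M c, c ^ k * u * (c ^ k)⁻¹ = c * u * c⁻¹ := by
      intro u hu
      have huM : u ∈ M := hUM hu
      have h1 : (x * c * x⁻¹) * u * (x * c * x⁻¹)⁻¹ = x * (c * (x⁻¹ * u * x) * c⁻¹) * x⁻¹ := by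
        group
      have h2 : (c ^ k * z) * u * (c ^ k * z)⁻¹ = c ^ k * (z * u * z⁻¹) * (c ^ k)⁻¹ := by group
      have h3 := h1
      rw [hxfix' u hu, hxfix _ (U_conj hn h.comm c hu), hc'eq, h2, cent_conj hzC huM] at h3
      exact h3
    have hcfix : ∀ u ∈ U M c, c * u * c⁻¹ = u := by
      intro u hu
      rcases hk24 with rfl | rfl
      · have h1 := hpow u hu
        have h2 : c ^ 2 * u * (c ^ 2)⁻¹ = c * (c * u * c⁻¹) * c⁻¹ := by rw [sq]; group
        rw [h2] at h1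
        have h3 : c * u * c⁻¹ = u := by
          have := congrArg (fun t => c⁻¹ * t * c) h1
          beta_reduce at this
          have e1 : c⁻¹ * (c * (c * u * c⁻¹) * c⁻¹) * c = c * u * c⁻¹ := by group
          have e2 : c⁻¹ * (c * u * c⁻¹) * c = u := by group
          rw [e1, e2] at this
          exact this
        exact h3
      · have h1 := hpow u hu
        have h3' : c ^ 3 * u * (c ^ 3)⁻¹ = u := by
          have e1 : c ^ 4 * u * (c ^ 4)⁻¹ = c * (c ^ 3 * u * (c ^ 3)⁻¹) * c⁻¹ := by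
            rw [show (4 : ℕ) = 3 + 1 from rfl, pow_succ']; group
          rw [e1] at h1
          have := congrArg (fun t => c⁻¹ * t * c) h1
          beta_reduce at this
          have e2 : c⁻¹ * (c * (c ^ 3 * u * (c ^ 3)⁻¹) * c⁻¹) * c = c ^ 3 * u * (c ^ 3)⁻¹ := by group
          have e3 : c⁻¹ * (c * u * c⁻¹) * c = u := by group
          rw [e2, e3] at this
          exact this
        have h7 := hc7' u (hUM hu)
        have e4 : c ^ 7 * u * (c ^ 7)⁻¹ = c * (c ^ 3 * (c ^ 3 * u * (c ^ 3)⁻¹) * (c ^ 3)⁻¹) * c⁻¹ := by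
          rw [show (7 : ℕ) = 1 + 3 + 3 from rfl, pow_add, pow_add, pow_one]; group
        rw [e4, h3', h3'] at h7
        exact h7
    have hUbot : ∀ u ∈ U M c, u = 1 := fun u hu =>
      U_fpf hn h.comm h.sq c 7 (by decide) hc7' hu (hcfix u hu)
    have : U M c = ⊥ := by
      rw [eq_bot_iff]; intro u hu; rw [Subgroup.mem_bot]; exact hUbot u hu
    rw [this] at hU8
    simp at hU8
  · exact inf_eq_left.1 htop

end main

end Cfsg.Agent.Helper16.NGP6A
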