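import Mathlib
import Cfsg.Agent.Helper16.NGDefs
import Cfsg.Agent.Helper16.NGP6A
import Cfsg.Agent.Helper79.NGP6Cof

/-!
# S4404 (architect helper16): verbatim piece P6C `ng_p6` (helper79's `ng_p6_of_p6a` fed with
helper16's `ng_p6a`), and the small conjugation lemma `ng_conj_elem` used by the final assembly.
-/

set_option autoImplicit false

namespace Cfsg.Agent.Helper16.NGP6
open Cfsg.Agent.Helper16.NG

/-- P6C -/
theorem ng_p6 {S : Type*} [Group S] [Finite S] {M V : Subgroup S} {x : S} (h : Cfg M V x)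
    (p : ℕ) (hp : p.Prime) (hp5 : 5 ≤ p)
    (P : Subgroup S) (hP : IsPGroup p ↥P) (hxP : ∀ a ∈ P, x * a * x⁻¹ ∈ P) :
    (P ⊓ Subgroup.centralizer (V : Set S)).relIndex P ≤ 7 :=
  Cfsg.Agent.Helper79.NGP6Cof.ng_p6_of_p6a h
    (fun p hp hp5 P hP hxP g hg => Cfsg.Agent.Helper16.NGP6A.ng_p6a h p hp hp5 P hP hxP g hg)
    p hp hp5 P hP hxP

/-- conjugating an elementary abelian subgroup -/
theorem ng_conj_elem {S : Type*} [Group S] [Finite S] (p : ℕ) (E : Subgroup S)
    (hE : Cfsg.IsElementaryAbelian p E) (g : S) :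
    Cfsg.IsElementaryAbelian p (E.map (MulAut.conj g).toMonoidHom) ∧
    Nat.card (E.map (MulAut.conj g).toMonoidHom) = Nat.card E ∧
    ∀ e ∈ E, g * e * g⁻¹ ∈ E.map (MulAut.conj g).toMonoidHom := by
  refine ⟨⟨?_, ?_⟩, ?_, ?_⟩
  · have hEc := hE.1
    rw [isMulCommutative_iff]
    rintro ⟨a, ha⟩ ⟨b, hb⟩
    obtain ⟨a', ha', rfl⟩ := ha
    obtain ⟨b', hb', rfl⟩ := hb
    have hc : a' * b' = b' * a' := by
      have := mul_comm' (⟨a', ha'⟩ : E) ⟨b', hb'⟩
      exact congrArg Subtype.val this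
    apply Subtype.ext
    simp only [Subgroup.coe_mul, MulEquiv.coe_toMonoidHom]
    rw [← map_mul, ← map_mul, hc]
  · rintro a ⟨a', ha', rfl⟩
    simp only [MulEquiv.coe_toMonoidHom]
    rw [← map_pow, hE.2 a' ha', map_one]
  · exact Nat.card_congr (E.equivMapOfInjective _ (MulAut.conj g).injective).symm.toEquiv
  · intro e he
    exact ⟨e, he, by simp [MulAut.conj_apply]⟩

end Cfsg.Agent.Helper16.NGP6
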