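import Mathlib
import Cfsg.Prelude.Def_Characters
import Cfsg.Prelude.Def_Blocks
import Cfsg.Agent.Helper75.Galois
import Cfsg.Agent.Helper75.Rational
import Cfsg.Agent.Helper75.RationalChar
import Cfsg.Agent.Helper75.GaloisAMGM
import Cfsg.Agent.Helper80.ResExt2
import Cfsg.Agent.Helper79.Basic

/-!
# `p`-rational characters via power maps

* `PFix p c χ`: `χ (g ^ k) = χ g` for all `k ≡ 1 [MOD c]` prime to `p`.
* `pfix_fixed_point`: a family of characters which is a torsor under linear characters of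
  `p`-power order (`p` odd) and stable under the power maps has a unique `PFix` member.
* `pfix_of_mem_adjoin`, `mem_adjoin_of_pfix`: translation between `PFix` and values in a
  cyclotomic field of order prime to `p`.
-/

set_option autoImplicit false

namespace Cfsg.Agent.Helper16

universe u

/-- `χ` is fixed by all power maps `g ↦ g ^ k` with `k ≡ 1 [MOD c]` and `p ∤ k`. -/
def PFix {G : Type*} [Monoid G] (p c : ℕ) (χ : G → ℂ) : Prop :=
  ∀ k : ℕ, k ≡ 1 [MOD c] → ¬ p ∣ k → ∀ g : G, χ (g ^ k) = χ g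

theorem pfix_exists_unit {p c : ℕ} (hp : p.Prime) (hp2 : p ≠ 2) (hc : ¬ p ∣ c) :
    ∃ u : ℕ, (u + 1) ≡ 1 [MOD c] ∧ ¬ p ∣ (u + 1) ∧ Nat.Coprime u p := by
  have hcop : Nat.Coprime c p := ((Nat.Prime.coprime_iff_not_dvd hp).mpr hc).symm
  obtain ⟨u, hu1, hu2⟩ := Nat.chineseRemainder hcop 0 1
  refine ⟨u, ?_, ?_, ?_⟩
  · exact Nat.ModEq.add_right 1 hu1
  · intro h
    have h1 : (u + 1) ≡ 2 [MOD p] := Nat.ModEq.add_right 1 hu2
    have h2 : 2 ≡ 0 [MOD p] := h1.symm.trans ((Nat.modEq_zero_iff_dvd).mpr h)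
    have h3 : p ∣ 2 := (Nat.modEq_zero_iff_dvd).mp h2
    have h4 := Nat.le_of_dvd (by norm_num) h3
    have h5 := hp.two_le
    omega
  · apply Nat.Coprime.symm
    rw [Nat.Prime.coprime_iff_not_dvd hp]
    intro h
    have h2 : 1 ≡ 0 [MOD p] := hu2.symm.trans ((Nat.modEq_zero_iff_dvd).mpr h)
    have h3 : p ∣ 1 := (Nat.modEq_zero_iff_dvd).mp h2
    exact hp.one_lt.ne' (Nat.dvd_one.mp h3)

theorem pfix_exists_inv {u q : ℕ} (hq : 0 < q) (h : Nat.Coprime u q) : ∃ t : ℕ, q ∣ t * u + 1 := by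
  rcases Nat.lt_or_ge 1 q with h1 | h1
  · obtain ⟨m, -, hm⟩ := Nat.exists_mul_mod_eq_one_of_coprime h h1
    refine ⟨m * (q - 1), ?_⟩
    have e1 : u * m ≡ 1 [MOD q] := by
      unfold Nat.ModEq
      rw [hm, Nat.mod_eq_of_lt h1]
    have e2 : u * m * (q - 1) + 1 ≡ 1 * (q - 1) + 1 [MOD q] :=
      Nat.ModEq.add_right 1 (e1.mul_right (q - 1))
    have e3 : 1 * (q - 1) + 1 = q := by omega
    rw [e3] at e2
    have e4 : m * (q - 1) * u + 1 = u * m * (q - 1) + 1 := by ring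
    rw [e4]
    exact (Nat.modEq_zero_iff_dvd).mp (e2.trans (Nat.modEq_zero_iff_dvd.mpr dvd_rfl))
  · have : q = 1 := by omega
    exact ⟨0, by rw [this]; exact one_dvd _⟩

/-- A linear character of `p`-power order fixing (by multiplication) a character of degree prime
to `p` is trivial. -/
theorem twist_eq_one_of_pow {G : Type u} [Group G] [Finite G] {p : ℕ} [hp : Fact p.Prime]
    {χ : G → ℂ} (hχ : Cfsg.IsCharacter G χ) (hd : ¬ p ∣ Cfsg.charDegree χ) (b : G →* ℂˣ) (a : ℕ)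
    (hb : ∀ g, b g ^ p ^ a = 1) (h : ∀ g, (b g : ℂ) * χ g = χ g) : b = 1 := by
  have hχ1 : χ 1 = (Cfsg.charDegree χ : ℂ) := Helper79.isCharacter_one_eq_charDegree hχ
  have hpg : IsPGroup p b.range := by
    rintro ⟨x, g, rfl⟩
    exact ⟨a, Subtype.ext (hb g)⟩
  have hfin : Finite b.range := Finite.of_surjective b.rangeRestrict b.rangeRestrict_surjective
  obtain ⟨j, hj⟩ := IsPGroup.iff_card.mp hpg
  have hidx : b.ker.index = p ^ j := by rw [Subgroup.index_ker, hj]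
  have hcop : Nat.Coprime b.ker.index (Cfsg.charDegree χ) := by
    rw [hidx]
    exact Nat.Coprime.pow_left j ((Nat.Prime.coprime_iff_not_dvd hp.out).mpr hd)
  exact Helper80.twist_injective_of_coprime b.ker hχ _ hχ1 hcop b 1
    (fun n => MonoidHom.mem_ker.mp n.2) (fun n => rfl)
    (funext fun g => by rw [h g]; simp)

/-- **Fixed point lemma.** -/
theorem pfix_fixed_point {G : Type u} [Group G] [Finite G] {p c : ℕ} [hp : Fact p.Prime]
    (hp2 : p ≠ 2) (hc : ¬ p ∣ c) (N : Subgroup G) (a : ℕ)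
    (X : (G → ℂ) → Prop) (χ₀ : G → ℂ) (h0 : X χ₀)
    (h1 : ∀ χ, X χ → Cfsg.IsCharacter G χ ∧ ¬ p ∣ Cfsg.charDegree χ)
    (h2 : ∀ χ χ', X χ → X χ' → ∃ b : G →* ℂˣ, (∀ n ∈ N, b n = 1) ∧ (∀ g, b g ^ p ^ a = 1) ∧
      ∀ g, χ' g = (b g : ℂ) * χ g)
    (h3 : ∀ χ, X χ → ∀ b : G →* ℂˣ, (∀ n ∈ N, b n = 1) → (∀ g, b g ^ p ^ a = 1) →
      X (fun g => (b g : ℂ) * χ g))
    (h4 : ∀ χ, X χ → ∀ k : ℕ, k ≡ 1 [MOD c] → ¬ p ∣ k → X (fun g => χ (g ^ k))) :
    ∃ χ₁, X χ₁ ∧ PFix p c χ₁ ∧ ∀ χ', X χ' → PFix p c χ' → χ' = χ₁ := by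
  obtain ⟨u, hu1, hu2, hu3⟩ := pfix_exists_unit hp.out hp2 hc
  have hucop : Nat.Coprime u (p ^ a) := Nat.Coprime.pow_right a hu3
  have huniq : ∀ χ' χ'', X χ' → X χ'' → (∀ g, χ' (g ^ (u + 1)) = χ' g) →
      (∀ g, χ'' (g ^ (u + 1)) = χ'' g) → χ'' = χ' := by
    intro χ' χ'' hX' hX'' hs' hs''
    obtain ⟨b, hbN, hbp, hb⟩ := h2 χ' χ'' hX' hX''
    have hbu : b ^ u = 1 := by
      apply twist_eq_one_of_pow (h1 χ' hX').1 (h1 χ' hX').2 (b ^ u) a
      · intro g
        rw [MonoidHom.pow_apply, ← pow_mul, mul_comm, pow_mul, hbp, one_pow]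
      · intro g
        have e1 := hs'' g
        rw [hb, hb, map_pow, hs' g] at e1
        have hne : ((b g : ℂˣ) : ℂ) ≠ 0 := Units.ne_zero _
        rw [MonoidHom.pow_apply]
        push_cast at e1 ⊢
        rw [pow_succ] at e1
        apply mul_left_cancel₀ hne
        linear_combination e1
    have hb1 : ∀ g, b g = 1 := by
      intro g
      have e1 : b g ^ u = 1 := by
        rw [← MonoidHom.pow_apply, hbu]; rfl
      have e2 := hbp g
      have e3 : orderOf (b g) ∣ Nat.gcd u (p ^ a) :=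
        Nat.dvd_gcd (orderOf_dvd_of_pow_eq_one e1) (orderOf_dvd_of_pow_eq_one e2)
      rw [hucop] at e3
      exact orderOf_eq_one_iff.mp (Nat.dvd_one.mp e3)
    funext g
    rw [hb, hb1]
    simp
  have hX0s := h4 χ₀ h0 (u + 1) hu1 hu2
  obtain ⟨b, hbN, hbp, hb⟩ := h2 χ₀ _ h0 hX0s
  obtain ⟨t, ht⟩ := pfix_exists_inv (pow_pos hp.out.pos a) hucop
  obtain ⟨χ₁, hχ₁⟩ : ∃ χ₁ : G → ℂ, χ₁ = fun g => ((b ^ t) g : ℂ) * χ₀ g := ⟨_, rfl⟩
  have hX1 : X χ₁ := by
    rw [hχ₁]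
    exact h3 χ₀ h0 (b ^ t) (fun n hn => by rw [MonoidHom.pow_apply, hbN n hn, one_pow])
      (fun g => by rw [MonoidHom.pow_apply, ← pow_mul, mul_comm, pow_mul, hbp, one_pow])
  have hs1 : ∀ g, χ₁ (g ^ (u + 1)) = χ₁ g := by
    intro g
    rw [hχ₁]
    show ((b ^ t) (g ^ (u + 1)) : ℂ) * χ₀ (g ^ (u + 1)) = ((b ^ t) g : ℂ) * χ₀ g
    rw [hb g, MonoidHom.pow_apply, MonoidHom.pow_apply, map_pow]
    have e : (b g ^ (u + 1)) ^ t * b g = b g ^ t := by
      obtain ⟨w, hw⟩ := ht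
      calc (b g ^ (u + 1)) ^ t * b g = b g ^ ((u + 1) * t + 1) := by rw [← pow_mul, pow_succ]
        _ = b g ^ (t + (t * u + 1)) := by congr 1; ring
        _ = b g ^ t := by rw [pow_add, hw, pow_mul, hbp, one_pow, mul_one]
    rw [← e]
    push_cast
    ring
  refine ⟨χ₁, hX1, ?_, ?_⟩
  · intro k hk1 hk2 g
    have hXk := h4 χ₁ hX1 k hk1 hk2
    have := huniq χ₁ _ hX1 hXk hs1 (fun g => by
      show χ₁ ((g ^ (u + 1)) ^ k) = χ₁ (g ^ k)
      rw [← pow_mul, mul_comm, pow_mul, hs1])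
    exact congrFun this g
  · intro χ' hX' hfix
    exact huniq χ₁ χ' hX1 hX' hs1 (fun g => hfix (u + 1) hu1 hu2 g)

theorem pfix_ringEquiv_fixes_adjoin (σ : ℂ ≃+* ℂ) (ζ : ℂ) (hσ : σ ζ = ζ) {c : ℂ}
    (hc : c ∈ IntermediateField.adjoin ℚ ({ζ} : Set ℂ)) : σ c = c := by
  let K : IntermediateField ℚ ℂ :=
    { carrier := {z | σ z = z}
      mul_mem' := fun {a b} (ha : σ a = a) (hb : σ b = b) => by
        show σ (a * b) = a * b
        rw [map_mul, ha, hb]
      one_mem' := map_one σ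
      add_mem' := fun {a b} (ha : σ a = a) (hb : σ b = b) => by
        show σ (a + b) = a + b
        rw [map_add, ha, hb]
      zero_mem' := map_zero σ
      algebraMap_mem' := fun q => by
        show σ (algebraMap ℚ ℂ q) = algebraMap ℚ ℂ q
        rw [eq_ratCast, map_ratCast]
      inv_mem' := fun a (ha : σ a = a) => by
        show σ a⁻¹ = a⁻¹
        rw [map_inv₀, ha] }
  have hle : IntermediateField.adjoin ℚ ({ζ} : Set ℂ) ≤ K := by
    rw [IntermediateField.adjoin_le_iff]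
    intro z hz
    rw [Set.mem_singleton_iff] at hz
    subst hz
    exact hσ
  exact hle hc

theorem pfix_exp_pow_eq {m k : ℕ} (hm : m ≠ 0) (hk : k ≡ 1 [MOD m]) :
    Complex.exp (2 * Real.pi * Complex.I / m) ^ k = Complex.exp (2 * Real.pi * Complex.I / m) := by
  have hζ := Complex.isPrimitiveRoot_exp m hm
  have h1 : Complex.exp (2 * Real.pi * Complex.I / m) ^ k =
      Complex.exp (2 * Real.pi * Complex.I / m) ^ 1 := by
    rw [← pow_mod_orderOf _ k, ← pow_mod_orderOf _ 1, ← hζ.eq_orderOf]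
    congr 1
  rw [h1, pow_one]

/-- A character with values in `ℚ(ζ_m)`, `m ∣ c`, is `PFix p c`. -/
theorem pfix_of_mem_adjoin {G : Type*} [Group G] [Finite G] {p c m : ℕ} (hm : m ∣ c) (hm0 : m ≠ 0)
    (hcop : ∀ k : ℕ, k ≡ 1 [MOD c] → ¬ p ∣ k → Nat.Coprime k (Nat.card G))
    {χ : G → ℂ} (hχ : Cfsg.IsCharacter G χ)
    (hrat : ∀ g, χ g ∈ IntermediateField.adjoin ℚ
      ({Complex.exp (2 * Real.pi * Complex.I / m)} : Set ℂ)) :
    PFix p c χ := by
  intro k hk1 hk2 g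
  have hkG := hcop k hk1 hk2
  have hkm1 : k ≡ 1 [MOD m] := hk1.of_dvd hm
  have hkm : Nat.Coprime k m := by
    have := (Nat.ModEq.gcd_eq hkm1)
    rw [Nat.Coprime, this]
    simp
  have hk' : Nat.Coprime k (Nat.card G * m) := Nat.Coprime.mul_right hkG hkm
  have hne : Nat.card G * m ≠ 0 := Nat.mul_ne_zero Nat.card_pos.ne' hm0
  obtain ⟨σ, hσ⟩ := Helper75.exists_ringEquiv_pow (Nat.card G * m) hne k hk'
  obtain ⟨n, ρ, rfl⟩ := hχ
  rw [Helper75.character_pow_eq ρ σ k (fun z hz => hσ z (by rw [pow_mul, hz, one_pow])) g]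
  apply pfix_ringEquiv_fixes_adjoin σ _ ?_ (hrat g)
  have hζ : Complex.exp (2 * Real.pi * Complex.I / m) ^ m = 1 :=
    (Complex.isPrimitiveRoot_exp m hm0).pow_eq_one
  rw [hσ _ (by rw [Nat.mul_comm (Nat.card G) m, pow_mul, hζ, one_pow])]
  exact pfix_exp_pow_eq hm0 hkm1

/-- Relative Galois descent inside a cyclotomic field. -/
theorem mem_adjoin_of_fixed (e c : ℕ) (he : e ≠ 0) (hc : c ∣ e) (x : ℂ)
    (hx : x ∈ Helper75.cycField e)
    (hfix : ∀ σ : ℂ ≃+* ℂ, σ (Complex.exp (2 * Real.pi * Complex.I / c)) =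
      Complex.exp (2 * Real.pi * Complex.I / c) → σ x = x) :
    x ∈ IntermediateField.adjoin ℚ ({Complex.exp (2 * Real.pi * Complex.I / c)} : Set ℂ) := by
  have hc0 : c ≠ 0 := fun h => he (by rw [h] at hc; exact Nat.eq_zero_of_zero_dvd hc)
  obtain ⟨ζ, hζ⟩ : ∃ ζ : ℂ, ζ = Complex.exp (2 * Real.pi * Complex.I / c) := ⟨_, rfl⟩
  rw [← hζ] at hfix ⊢
  have : NeZero e := ⟨he⟩
  have hcyc := Helper75.isCyclotomicExtension_cycField e he
  have hgal : IsGalois ℚ (Helper75.cycField e) :=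
    IsCyclotomicExtension.isGalois {e} ℚ (Helper75.cycField e)
  have hfin : FiniteDimensional ℚ (Helper75.cycField e) :=
    IsCyclotomicExtension.finiteDimensional {e} ℚ (Helper75.cycField e)
  have hζc : ζ ^ c = 1 := by rw [hζ]; exact (Complex.isPrimitiveRoot_exp c hc0).pow_eq_one
  have hζmem : ζ ∈ Helper75.cycField e := by
    apply Helper75.mem_cycField_of_pow_eq_one e he
    obtain ⟨d, rfl⟩ := hc
    rw [pow_mul, hζc, one_pow]
  obtain ⟨F, hF⟩ : ∃ F : IntermediateField ℚ (Helper75.cycField e),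
      F = IntermediateField.adjoin ℚ {(⟨ζ, hζmem⟩ : Helper75.cycField e)} := ⟨_, rfl⟩
  have hmem : (⟨x, hx⟩ : Helper75.cycField e) ∈ F := by
    rw [← IsGalois.fixedField_fixingSubgroup F, IntermediateField.mem_fixedField_iff]
    intro f hf
    obtain ⟨σ, hσ⟩ := Helper75.exists_ringEquiv_extending_field (K := Helper75.cycField e)
      f.toRingEquiv
    have h1 := hσ ⟨x, hx⟩
    have h0 := hσ ⟨ζ, hζmem⟩
    have hfζ : f ⟨ζ, hζmem⟩ = ⟨ζ, hζmem⟩ := by
      have := (IntermediateField.mem_fixingSubgroup_iff F f).mp hf ⟨ζ, hζmem⟩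
        (by rw [hF]; exact IntermediateField.mem_adjoin_simple_self ℚ _)
      exact this
    have h0' : σ ζ = ζ := by
      have e1 : algebraMap (Helper75.cycField e) ℂ ⟨ζ, hζmem⟩ = ζ := rfl
      rw [e1] at h0
      rw [h0]
      have e2 : f.toRingEquiv ⟨ζ, hζmem⟩ = ⟨ζ, hζmem⟩ := hfζ
      rw [e2]
      exact e1
    have h1' : algebraMap (Helper75.cycField e) ℂ ⟨x, hx⟩ = x := rfl
    rw [h1', hfix σ h0'] at h1
    apply Subtype.ext
    exact h1.symm
  let K : IntermediateField ℚ (Helper75.cycField e) :=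
    { carrier := {z | (z : ℂ) ∈ IntermediateField.adjoin ℚ ({ζ} : Set ℂ)}
      mul_mem' := fun {a b} ha hb => by
        show ((a * b : Helper75.cycField e) : ℂ) ∈ IntermediateField.adjoin ℚ ({ζ} : Set ℂ)
        push_cast
        exact mul_mem ha hb
      one_mem' := by
        show ((1 : Helper75.cycField e) : ℂ) ∈ IntermediateField.adjoin ℚ ({ζ} : Set ℂ)
        push_cast
        exact one_mem _
      add_mem' := fun {a b} ha hb => by
        show ((a + b : Helper75.cycField e) : ℂ) ∈ IntermediateField.adjoin ℚ ({ζ} : Set ℂ)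
        push_cast
        exact add_mem ha hb
      zero_mem' := by
        show ((0 : Helper75.cycField e) : ℂ) ∈ IntermediateField.adjoin ℚ ({ζ} : Set ℂ)
        push_cast
        exact zero_mem _
      algebraMap_mem' := fun q => by
        show ((algebraMap ℚ (Helper75.cycField e) q : Helper75.cycField e) : ℂ) ∈
          IntermediateField.adjoin ℚ ({ζ} : Set ℂ)
        rw [eq_ratCast]
        push_cast
        have : ((q : ℚ) : ℂ) = algebraMap ℚ ℂ q := rfl
        rw [this]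
        exact IntermediateField.algebraMap_mem _ q
      inv_mem' := fun a ha => by
        show ((a⁻¹ : Helper75.cycField e) : ℂ) ∈ IntermediateField.adjoin ℚ ({ζ} : Set ℂ)
        push_cast
        exact inv_mem ha }
  have hle : F ≤ K := by
    rw [hF, IntermediateField.adjoin_le_iff]
    intro z hz
    rw [Set.mem_singleton_iff] at hz
    subst hz
    exact IntermediateField.mem_adjoin_simple_self ℚ ζ
  exact hle hmem

/-- A `PFix p c` character has values in `ℚ(ζ_c)`. -/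
theorem mem_adjoin_of_pfix {G : Type*} [Group G] [Finite G] {p c : ℕ} (hp : p.Prime)
    (hc0 : c ≠ 0) {χ : G → ℂ} (hχ : Cfsg.IsCharacter G χ) (hfix : PFix p c χ) (g : G) :
    χ g ∈ IntermediateField.adjoin ℚ ({Complex.exp (2 * Real.pi * Complex.I / c)} : Set ℂ) := by
  obtain ⟨n, ρ, rfl⟩ := hχ
  have hG : Nat.card G ≠ 0 := Nat.card_pos.ne'
  have he : p * Nat.card G * c ≠ 0 := Nat.mul_ne_zero (Nat.mul_ne_zero hp.ne_zero hG) hc0
  apply mem_adjoin_of_fixed (p * Nat.card G * c) c he (dvd_mul_left _ _) _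
    (Helper75.cycField_mono he (Dvd.intro_left _ rfl |>.trans (dvd_mul_right _ _))
      (Helper75.character_mem_cycField ρ g))
  intro σ hσ
  obtain ⟨k, hk, hkσ⟩ := Helper75.exists_pow_of_ringEquiv σ (p * Nat.card G * c) he
  have hk2 : ¬ p ∣ k := by
    intro h
    have h1 : p ∣ Nat.gcd k (p * Nat.card G * c) :=
      Nat.dvd_gcd h (Dvd.intro _ (mul_assoc p _ _).symm)
    rw [hk] at h1
    exact hp.one_lt.ne' (Nat.dvd_one.mp h1)
  have hζ := Complex.isPrimitiveRoot_exp c hc0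
  have hk1 : k ≡ 1 [MOD c] := by
    have h1 := hkσ (Complex.exp (2 * Real.pi * Complex.I / c))
      (by rw [Nat.mul_comm (p * Nat.card G) c, pow_mul, hζ.pow_eq_one, one_pow])
    rw [hσ] at h1
    have h2 : Complex.exp (2 * Real.pi * Complex.I / c) ^ k =
        Complex.exp (2 * Real.pi * Complex.I / c) ^ 1 := by rw [← h1, pow_one]
    have h3 : Complex.exp (2 * Real.pi * Complex.I / c) ^ (k % c) =
        Complex.exp (2 * Real.pi * Complex.I / c) ^ (1 % c) := by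
      have e1 := pow_mod_orderOf (Complex.exp (2 * Real.pi * Complex.I / c)) k
      have e2 := pow_mod_orderOf (Complex.exp (2 * Real.pi * Complex.I / c)) 1
      rw [← hζ.eq_orderOf] at e1 e2
      rw [e1, e2, h2]
    exact hζ.pow_inj (Nat.mod_lt _ (Nat.pos_of_ne_zero hc0)) (Nat.mod_lt _ (Nat.pos_of_ne_zero hc0))
      h3
  rw [← Helper75.character_pow_eq ρ σ k (fun z hz => hkσ z (by
    rw [mul_assoc, mul_comm, mul_assoc, pow_mul, hz, one_pow])) g]
  exact hfix k hk1 hk2 g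

end Cfsg.Agent.Helper16
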