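import Mathlib
import Cfsg.Agent.Helper16.PRat
import Cfsg.Agent.Helper15.ProjExtCyclic
import Cfsg.Agent.Helper15.CharInner
import Cfsg.Agent.Helper75.PrincipalTransport

/-!
# Extension of `p`-rational characters over normal subgroups of `p`-power index (`p` odd)

* `pfix_extension_of_exists`: if an invariant `PFix` character `θ` of degree prime to `p` of a
  normal subgroup of `p`-power index has an extension, it has a unique `PFix` extension.
* `pfix_extension`: such an extension always exists (Isaacs 6.30 for degree prime to `p`).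
-/

set_option autoImplicit false

namespace Cfsg.Agent.Helper16

universe u

open Cfsg

theorem pfix_charDegree_eq {G : Type*} [Group G] (N : Subgroup G) {χ : G → ℂ} {θ : N → ℂ}
    (h : ∀ n : N, χ n = θ n) : charDegree χ = charDegree θ := by
  unfold charDegree
  rw [← h 1]
  rfl

/-- Uniqueness and existence of the `PFix` extension, given some extension. -/
theorem pfix_extension_of_exists {G : Type u} [Group G] [Finite G] {p c : ℕ} [Fact p.Prime]
    (hp2 : p ≠ 2) (hc : ¬ p ∣ c)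
    (hcop : ∀ k : ℕ, k ≡ 1 [MOD c] → ¬ p ∣ k → Nat.Coprime k (Nat.card G))
    (a : ℕ) (N : Subgroup G) [hN : N.Normal] (hidx : N.index = p ^ a) (θ : N → ℂ)
    (hθ : IsIrrCharacter N θ) (hd : ¬ p ∣ charDegree θ) (hfix : PFix p c θ)
    (χ₀ : G → ℂ) (hχ₀ : IsIrrCharacter G χ₀) (hχ₀N : ∀ n : N, χ₀ n = θ n) :
    ∃ χ : G → ℂ, IsIrrCharacter G χ ∧ (∀ n : N, χ n = θ n) ∧ PFix p c χ ∧
      ∀ χ' : G → ℂ, IsIrrCharacter G χ' → (∀ n : N, χ' n = θ n) → PFix p c χ' → χ' = χ := by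
  obtain ⟨χ₁, ⟨h1, h2⟩, h3, h4⟩ := pfix_fixed_point hp2 hc N a
    (fun χ => IsIrrCharacter G χ ∧ ∀ n : N, χ n = θ n) χ₀ ⟨hχ₀, hχ₀N⟩
    (by
      rintro χ ⟨hχ, hχN⟩
      refine ⟨Helper15.isChar_of_irr hχ, ?_⟩
      rw [pfix_charDegree_eq N hχN]
      exact hd)
    (by
      rintro χ χ' ⟨hχ, hχN⟩ ⟨hχ', hχ'N⟩
      obtain ⟨b, hbN, hb⟩ := Helper80.exists_hom_of_extensions N θ hθ χ χ' hχ hχ' hχN hχ'N
      refine ⟨b, fun n hn => hbN ⟨n, hn⟩, fun g => ?_, fun g => congrFun hb g⟩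
      rw [← map_pow, ← hidx]
      exact hbN ⟨g ^ N.index, Subgroup.pow_index_mem N g⟩)
    (by
      rintro χ ⟨hχ, hχN⟩ b hbN hbp
      refine ⟨Helper79.isIrrCharacter_twist b hχ, fun n => ?_⟩
      show (b n : ℂ) * χ n = θ n
      rw [hbN n n.2, hχN]
      simp)
    (by
      rintro χ ⟨hχ, hχN⟩ k hk1 hk2
      refine ⟨Helper75.isIrrCharacter_pow k (hcop k hk1 hk2) hχ, fun n => ?_⟩
      show χ ((n : G) ^ k) = θ n
      rw [← Subgroup.coe_pow, hχN, hfix k hk1 hk2])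
  exact ⟨χ₁, h1, h2, h3, fun χ' h h' h'' => h4 χ' ⟨h, h'⟩ h''⟩

/-- A normal subgroup of index `p ^ (a + 1)` lies in a normal subgroup of index `p ^ a` with
relative index `p`. -/
theorem pfix_exists_step {G : Type u} [Group G] [Finite G] {p : ℕ} [hp : Fact p.Prime] {a : ℕ}
    (N : Subgroup G) [hN : N.Normal] (hidx : N.index = p ^ (a + 1)) :
    ∃ K : Subgroup G, K.Normal ∧ N ≤ K ∧ K.index = p ^ a ∧ N.relIndex K = p := by
  have hcard : Nat.card (G ⧸ N) = p ^ (a + 1) := by rw [← Subgroup.index_eq_card, hidx]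
  have hpg : IsPGroup p (G ⧸ N) := IsPGroup.of_card hcard
  have hnt : Nontrivial (G ⧸ N) := by
    rw [← Finite.one_lt_card_iff_nontrivial, hcard]
    exact Nat.one_lt_pow (Nat.succ_ne_zero a) hp.out.one_lt
  have hcnt : Nontrivial (Subgroup.center (G ⧸ N)) := hpg.center_nontrivial
  have hdvd : p ∣ Nat.card (Subgroup.center (G ⧸ N)) := by
    rcases (hpg.to_subgroup (Subgroup.center (G ⧸ N))).card_eq_or_dvd with h | h
    · exact absurd h (Finite.one_lt_card_iff_nontrivial.mpr hcnt).ne'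
    · exact h
  obtain ⟨z, hz⟩ := exists_prime_orderOf_dvd_card' p hdvd
  have hz' : orderOf (z : G ⧸ N) = p := by rw [Subgroup.orderOf_coe, hz]
  have hZn : (Subgroup.zpowers (z : G ⧸ N)).Normal := by
    constructor
    intro h hh g
    have hc : h ∈ Subgroup.center (G ⧸ N) := by
      obtain ⟨i, rfl⟩ := Subgroup.mem_zpowers_iff.mp hh
      exact Subgroup.zpow_mem _ z.2 i
    have : g * h * g⁻¹ = h := by
      rw [Subgroup.mem_center_iff] at hc
      rw [hc g, mul_inv_cancel_right]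
    rw [this]
    exact hh
  have hZcard : Nat.card (Subgroup.zpowers (z : G ⧸ N)) = p := by rw [Nat.card_zpowers, hz']
  have hZidx : (Subgroup.zpowers (z : G ⧸ N)).index = p ^ a := by
    have h1 := Subgroup.index_mul_card (Subgroup.zpowers (z : G ⧸ N))
    rw [hZcard, hcard, pow_succ] at h1
    exact Nat.eq_of_mul_eq_mul_right hp.out.pos h1
  refine ⟨(Subgroup.zpowers (z : G ⧸ N)).comap (QuotientGroup.mk' N), hZn.comap _, ?_, ?_, ?_⟩
  · intro n hn
    rw [Subgroup.mem_comap, QuotientGroup.mk'_apply, (QuotientGroup.eq_one_iff n).mpr hn]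
    exact Subgroup.one_mem _
  · rw [Subgroup.index_comap_of_surjective _ (QuotientGroup.mk'_surjective N), hZidx]
  · have hle : N ≤ (Subgroup.zpowers (z : G ⧸ N)).comap (QuotientGroup.mk' N) := by
      intro n hn
      rw [Subgroup.mem_comap, QuotientGroup.mk'_apply, (QuotientGroup.eq_one_iff n).mpr hn]
      exact Subgroup.one_mem _
    have h1 := Subgroup.relIndex_mul_index hle
    rw [Subgroup.index_comap_of_surjective _ (QuotientGroup.mk'_surjective N), hZidx, hidx,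
      pow_succ, mul_comm] at h1
    exact Nat.eq_of_mul_eq_mul_left (pow_pos hp.out.pos a) h1

/-- Existence of a `PFix` extension over a normal subgroup of `p`-power index. -/
theorem pfix_extension_exists {G : Type u} [Group G] [Finite G] {p c : ℕ} [hp : Fact p.Prime]
    (hp2 : p ≠ 2) (hc : ¬ p ∣ c)
    (hcop : ∀ k : ℕ, k ≡ 1 [MOD c] → ¬ p ∣ k → Nat.Coprime k (Nat.card G)) :
    ∀ (a : ℕ) (N : Subgroup G) (hN : N.Normal), N.index = p ^ a → ∀ (θ : N → ℂ),
      IsIrrCharacter N θ →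
      (∀ (g : G) (n : N), θ ⟨g * n * g⁻¹, hN.conj_mem (n : G) n.2 g⟩ = θ n) →
      ¬ p ∣ charDegree θ → PFix p c θ →
      ∃ χ : G → ℂ, IsIrrCharacter G χ ∧ (∀ n : N, χ n = θ n) ∧ PFix p c χ := by
  intro a
  induction a with
  | zero =>
    intro N hN hidx θ hθ hinv hd hfix
    have htop : N = ⊤ := Subgroup.index_eq_one.mp (by simpa using hidx)
    subst htop
    refine ⟨fun g => θ ⟨g, Subgroup.mem_top g⟩, ?_, fun n => rfl, ?_⟩
    · exact (Helper75.irrComp Subgroup.topEquiv.symm ⟨θ, hθ⟩).2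
    · intro k hk1 hk2 g
      exact hfix k hk1 hk2 ⟨g, Subgroup.mem_top g⟩
  | succ a ih =>
    intro N hN hidx θ hθ hinv hd hfix
    obtain ⟨K, hKn, hNK, hKidx, hrel⟩ := pfix_exists_step N hidx
    have hN'idx : (N.subgroupOf K).index = p ^ 1 := by rw [pow_one]; exact hrel
    have hcopK : ∀ k : ℕ, k ≡ 1 [MOD c] → ¬ p ∣ k → Nat.Coprime k (Nat.card K) :=
      fun k h1 h2 => Nat.Coprime.coprime_dvd_right (Subgroup.card_subgroup_dvd_card K)
        (hcop k h1 h2)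
    obtain ⟨e, he⟩ : ∃ e : N.subgroupOf K ≃* N, e = Subgroup.subgroupOfEquivOfLe hNK := ⟨_, rfl⟩
    have hecoe : ∀ x : N.subgroupOf K, ((e x : N) : G) = ((x : K) : G) := by
      intro x; rw [he]; rfl
    obtain ⟨θ', hθ'def⟩ : ∃ θ' : N.subgroupOf K → ℂ, θ' = fun x => θ (e x) := ⟨_, rfl⟩
    have hθ' : IsIrrCharacter (N.subgroupOf K) θ' := by
      rw [hθ'def]; exact (Helper75.irrComp e ⟨θ, hθ⟩).2
    have hN'n : (N.subgroupOf K).Normal := inferInstance
    have hinv' : ∀ (k : K) (n : N.subgroupOf K),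
        θ' ⟨k * n * k⁻¹, hN'n.conj_mem (n : K) n.2 k⟩ = θ' n := by
      intro k n
      rw [hθ'def]
      show θ (e ⟨k * n * k⁻¹, hN'n.conj_mem (n : K) n.2 k⟩) = θ (e n)
      rw [← hinv (k : G) (e n)]
      congr 1
      apply Subtype.ext
      rw [hecoe]
      show ((k * (n : K) * k⁻¹ : K) : G) = (k : G) * ((e n : N) : G) * (k : G)⁻¹
      rw [hecoe]
      rfl
    have hd' : ¬ p ∣ charDegree θ' := by
      have : charDegree θ' = charDegree θ := by
        unfold charDegree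
        rw [hθ'def]
        show ⌊(θ (e 1)).re⌋₊ = ⌊(θ 1).re⌋₊
        rw [map_one]
      rw [this]; exact hd
    have hfix' : PFix p c θ' := by
      intro k hk1 hk2 x
      rw [hθ'def]
      show θ (e (x ^ k)) = θ (e x)
      rw [map_pow]
      exact hfix k hk1 hk2 _
    have hcyc : IsCyclic (K ⧸ N.subgroupOf K) := by
      apply isCyclic_of_prime_card (p := p)
      rw [← Subgroup.index_eq_card]
      exact hrel
    obtain ⟨ψ, hψ, hψN⟩ : ∃ ψ : K → ℂ, IsIrrCharacter K ψ ∧ ∀ n : N.subgroupOf K, ψ n = θ' n := by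
      obtain ⟨d, τ, hτirr, hτ⟩ := hθ'
      obtain ⟨ρ, hρ⟩ := Helper15.exists_rep_extension_of_cyclic τ hcyc hτirr
        (by rw [hτ]; exact hinv')
      exact Helper15.exists_irr_extension_of_rep τ hτirr hτ ρ hρ
    obtain ⟨θ₁, hθ₁, hθ₁N, hθ₁fix, hθ₁uniq⟩ := pfix_extension_of_exists hp2 hc hcopK 1
      (N.subgroupOf K) hN'idx θ' hθ' hd' hfix' ψ hψ hψN
    have hinv₁ : ∀ (g : G) (k : K), θ₁ ⟨g * k * g⁻¹, hKn.conj_mem (k : G) k.2 g⟩ = θ₁ k := by
      intro g k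
      obtain ⟨φ, hφ⟩ : ∃ φ : K ≃* K, φ = MulAut.conjNormal g := ⟨_, rfl⟩
      have hφcoe : ∀ x : K, ((φ x : K) : G) = g * x * g⁻¹ := by
        intro x; rw [hφ]; exact MulAut.conjNormal_apply g x
      have h1 := hθ₁uniq (fun k => θ₁ (φ k)) ((Helper75.irrComp φ ⟨θ₁, hθ₁⟩).2) (by
        intro n
        have hmem : φ (n : K) ∈ N.subgroupOf K := by
          rw [Subgroup.mem_subgroupOf, hφcoe]
          exact hN.conj_mem _ (Subgroup.mem_subgroupOf.mp n.2) g
        show θ₁ (φ (n : K)) = θ' n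
        have h2 := hθ₁N ⟨φ (n : K), hmem⟩
        rw [show ((⟨φ (n : K), hmem⟩ : N.subgroupOf K) : K) = φ (n : K) from rfl] at h2
        rw [h2, hθ'def]
        show θ (e ⟨φ (n : K), hmem⟩) = θ (e n)
        rw [← hinv g (e n)]
        congr 1
        apply Subtype.ext
        rw [hecoe]
        show ((φ (n : K) : K) : G) = g * ((e n : N) : G) * g⁻¹
        rw [hφcoe, hecoe]) (by
        intro k' hk1 hk2 x
        show θ₁ (φ (x ^ k')) = θ₁ (φ x)
        rw [map_pow]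
        exact hθ₁fix k' hk1 hk2 _)
      have h3 : θ₁ (φ k) = θ₁ k := congrFun h1 k
      rw [← h3]
      congr 1
      apply Subtype.ext
      rw [hφcoe]
    have hd₁ : ¬ p ∣ charDegree θ₁ := by
      rw [pfix_charDegree_eq (N.subgroupOf K) hθ₁N]
      exact hd'
    obtain ⟨χ, hχ, hχK, hχfix⟩ := ih K hKn hKidx θ₁ hθ₁ hinv₁ hd₁ hθ₁fix
    refine ⟨χ, hχ, fun n => ?_, hχfix⟩
    have h1 : χ (n : G) = θ₁ ⟨n, hNK n.2⟩ := hχK ⟨n, hNK n.2⟩
    have h2 : θ₁ ⟨n, hNK n.2⟩ = θ' ⟨⟨n, hNK n.2⟩, n.2⟩ := hθ₁N ⟨⟨n, hNK n.2⟩, n.2⟩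
    rw [h1, h2, hθ'def]
    show θ (e ⟨⟨(n : G), hNK n.2⟩, n.2⟩) = θ n
    congr 1
    apply Subtype.ext
    rw [hecoe]

/-- **Isaacs 6.30** (degree prime to `p`): unique `PFix` extension over a normal subgroup of
`p`-power index, `p` odd. -/
theorem pfix_extension {G : Type u} [Group G] [Finite G] {p c : ℕ} [Fact p.Prime]
    (hp2 : p ≠ 2) (hc : ¬ p ∣ c)
    (hcop : ∀ k : ℕ, k ≡ 1 [MOD c] → ¬ p ∣ k → Nat.Coprime k (Nat.card G))
    (a : ℕ) (N : Subgroup G) [hN : N.Normal] (hidx : N.index = p ^ a) (θ : N → ℂ)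
    (hθ : IsIrrCharacter N θ)
    (hinv : ∀ (g : G) (n : N), θ ⟨g * n * g⁻¹, hN.conj_mem (n : G) n.2 g⟩ = θ n)
    (hd : ¬ p ∣ charDegree θ) (hfix : PFix p c θ) :
    ∃ χ : G → ℂ, IsIrrCharacter G χ ∧ (∀ n : N, χ n = θ n) ∧ PFix p c χ ∧
      ∀ χ' : G → ℂ, IsIrrCharacter G χ' → (∀ n : N, χ' n = θ n) → PFix p c χ' → χ' = χ := by
  obtain ⟨χ₀, hχ₀, hχ₀N, -⟩ := pfix_extension_exists hp2 hc hcop a N hN hidx θ hθ hinv hd hfix
  exact pfix_extension_of_exists hp2 hc hcop a N hidx θ hθ hd hfix χ₀ hχ₀ hχ₀N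

end Cfsg.Agent.Helper16
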