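import Mathlib
import Cfsg.Agent.Helper16.PRatExt
import Cfsg.Agent.Helper16.BlockCore
import Cfsg.Agent.Helper75.AlperinDade
import Cfsg.Agent.Helper75.BlockTwist
import Cfsg.Agent.Helper76.Gow
import Cfsg.Agent.Helper15.SylowExt

/-!
# `p`-rational extensions in the principal block

Block-theoretic part of the proof that a `p`-rational invariant character of degree prime to `p`
in the principal block of `N` extends to a `p`-rational character in the principal block of `G`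
when `|G : N C_G(Q)|` is a power of `p` (`p` odd).
-/

set_option autoImplicit false

namespace Cfsg.Agent.Helper16

universe u

open Cfsg

section

variable {G : Type u} [Group G] [Finite G] {p : ℕ} [Fact p.Prime] {M : Ideal Cfsg.AlgInt}

/-- Alperin–Dade inside a subgroup `J` with `N ≤ J ≤ N C_G(P)` and `p ∤ |J : N|`. -/
theorem prat_ad_subgroup (hM : IsPModular p M) (N : Subgroup G) [hN : N.Normal] (P : Sylow p N)
    (J : Subgroup G) (hNJ : N ≤ J)
    (hJ : J ≤ N ⊔ Subgroup.centralizer (((P : Subgroup N).map N.subtype : Subgroup G) : Set G))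
    (hidx : ¬ p ∣ N.relIndex J) :
    (∀ θ : IrrCharacter N, θ ∈ principalBlock M N → ∃ ξ : IrrCharacter J,
      ξ ∈ principalBlock M J ∧ ∀ n : N, (ξ : J → ℂ) ⟨n, hNJ n.2⟩ = (θ : N → ℂ) n) ∧
    (∀ θ : IrrCharacter N, θ ∈ principalBlock M N → ∀ ξ ξ' : IrrCharacter J,
      ξ ∈ principalBlock M J → ξ' ∈ principalBlock M J →
      (∀ n : N, (ξ : J → ℂ) ⟨n, hNJ n.2⟩ = (θ : N → ℂ) n) →
      (∀ n : N, (ξ' : J → ℂ) ⟨n, hNJ n.2⟩ = (θ : N → ℂ) n) → ξ = ξ') ∧
    (∀ ξ : IrrCharacter J, ξ ∈ principalBlock M J → ∀ c : J,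
      (c : G) ∈ Subgroup.centralizer (((P : Subgroup N).map N.subtype : Subgroup G) : Set G) →
      (ξ : J → ℂ) c ≠ 0) := by
  classical
  have hfJ : Fintype J := Fintype.ofFinite J
  have hfN : Fintype (N.subgroupOf J) := Fintype.ofFinite _
  obtain ⟨Q, hQ⟩ : ∃ Q : Subgroup G, Q = (P : Subgroup N).map N.subtype := ⟨_, rfl⟩
  rw [← hQ] at hJ ⊢
  have hQN : Q ≤ N := by
    rw [hQ]
    rintro _ ⟨x, -, rfl⟩
    exact x.2
  have hQcard : Nat.card (Q.subgroupOf J) = p ^ (Nat.card J).factorization p := by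
    have h1 : Nat.card (Q.subgroupOf J) = Nat.card Q :=
      Nat.card_congr (Subgroup.subgroupOfEquivOfLe (hQN.trans hNJ)).toEquiv
    have h2 : Nat.card Q = Nat.card (P : Subgroup N) := by
      rw [hQ]
      exact (Nat.card_congr
        ((P : Subgroup N).equivMapOfInjective N.subtype N.subtype_injective).toEquiv).symm
    have h3 := P.card_eq_multiplicity
    have h4 : (Nat.card J).factorization p = (Nat.card N).factorization p := by
      have h5 : (N.subgroupOf J).index * Nat.card (N.subgroupOf J) = Nat.card J :=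
        Subgroup.index_mul_card _
      have h6 : Nat.card (N.subgroupOf J) = Nat.card N :=
        Nat.card_congr (Subgroup.subgroupOfEquivOfLe hNJ).toEquiv
      have h7 : (N.subgroupOf J).index ≠ 0 := Subgroup.index_ne_zero_of_finite
      have h8 : (N.subgroupOf J).index.factorization p = 0 :=
        Nat.factorization_eq_zero_of_not_dvd hidx
      rw [← h5, h6, Nat.factorization_mul h7 Nat.card_pos.ne', Finsupp.add_apply, h8, zero_add]
    rw [h1, h2, h3, h4]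
  obtain ⟨PJ, hPJ⟩ : ∃ PJ : Sylow p J, (PJ : Subgroup J) = Q.subgroupOf J :=
    ⟨Sylow.ofCard _ hQcard, rfl⟩
  have hcent : ∀ c : J, (c : G) ∈ Subgroup.centralizer (Q : Set G) →
      c ∈ Subgroup.centralizer ((PJ : Subgroup J) : Set J) := by
    intro c hc
    rw [Subgroup.mem_centralizer_iff]
    intro y hy
    have hy' : (y : G) ∈ Q := by
      have : y ∈ (PJ : Subgroup J) := hy
      rw [hPJ] at this
      exact Subgroup.mem_subgroupOf.mp this
    apply Subtype.ext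
    exact Subgroup.mem_centralizer_iff.mp hc (y : G) hy'
  have hsup : N.subgroupOf J ⊔ Subgroup.centralizer ((PJ : Subgroup J) : Set J) = ⊤ := by
    rw [eq_top_iff]
    intro x _
    have h1 : (x : G) ∈ ((N ⊔ Subgroup.centralizer (Q : Set G) : Subgroup G) : Set G) := hJ x.2
    rw [Subgroup.normal_mul] at h1
    obtain ⟨n, hn, c, hc, hnc⟩ := Set.mem_mul.mp h1
    have hcJ : c ∈ J := by
      have : c = n⁻¹ * x := by rw [← hnc]; group
      rw [this]
      exact J.mul_mem (J.inv_mem (hNJ hn)) x.2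
    have hx : x = (⟨n, hNJ hn⟩ : J) * ⟨c, hcJ⟩ := Subtype.ext hnc.symm
    rw [hx]
    exact Subgroup.mul_mem_sup (Subgroup.mem_subgroupOf.mpr hn) (hcent ⟨c, hcJ⟩ hc)
  have hidx' : ¬ p ∣ (N.subgroupOf J).index := hidx
  have hAD := Helper75.alperin_dade hM (N.subgroupOf J) hidx' PJ hsup
  refine ⟨?_, ?_, ?_⟩
  · intro θ hθ
    obtain ⟨ξ, ⟨hξ, hξN⟩, -⟩ := hAD.2 (Helper75.irrComp (Subgroup.subgroupOfEquivOfLe hNJ) θ)
      (Helper75.irrComp_mem_principalBlock _ hθ)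
    refine ⟨ξ, hξ, fun n => ?_⟩
    have h1 := hξN ⟨⟨n, hNJ n.2⟩, n.2⟩
    rw [Helper75.irrComp_apply] at h1
    exact h1
  · intro θ hθ ξ ξ' hξ hξ' hξN hξ'N
    exact (hAD.2 (Helper75.irrComp (Subgroup.subgroupOfEquivOfLe hNJ) θ)
      (Helper75.irrComp_mem_principalBlock _ hθ)).unique
      ⟨hξ, fun n => by
        rw [Helper75.irrComp_apply]
        exact hξN (Subgroup.subgroupOfEquivOfLe hNJ n)⟩
      ⟨hξ', fun n => by
        rw [Helper75.irrComp_apply]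
        exact hξ'N (Subgroup.subgroupOfEquivOfLe hNJ n)⟩
  · intro ξ hξ c hc h0
    have h1 := Helper75.irr_div_sub_one_memLocalIdeal hM PJ ξ hξ (hcent c hc)
    rw [h0, zero_div, zero_sub] at h1
    have h2 := Helper77.memLocalIdeal_neg h1
    rw [neg_neg] at h2
    exact Helper77.not_memLocalIdeal_one hM.2.1 h2

/-- `χ` restricted to every subgroup `J ≥ N` is an irreducible character in the principal
block. -/
def PGood (M : Ideal Cfsg.AlgInt) (N : Subgroup G) (χ : G → ℂ) : Prop :=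
  ∀ J : Subgroup G, N ≤ J → ∃ ξ : IrrCharacter ↥J, ξ ∈ principalBlock M ↥J ∧
    ∀ y : ↥J, (ξ : ↥J → ℂ) y = χ y

omit [Finite G] [Fact p.Prime] in
theorem pgood_top (N : Subgroup G) {χ : G → ℂ} (hχ : PGood M N χ) (hirr : IsIrrCharacter G χ) :
    (⟨χ, hirr⟩ : IrrCharacter G) ∈ principalBlock M G := by
  obtain ⟨ξ, hξ, hξJ⟩ := hχ ⊤ le_top
  have h1 := Helper75.irrComp_mem_principalBlock (M := M) Subgroup.topEquiv.symm hξ
  have h2 : Helper75.irrComp Subgroup.topEquiv.symm ξ = ⟨χ, hirr⟩ := by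
    apply Subtype.ext
    funext g
    rw [Helper75.irrComp_apply, hξJ]
    rfl
  rw [h2] at h1
  exact h1

omit [Fact p.Prime] in
theorem pgood_twist (hM : IsPModular p M) (N : Subgroup G) {χ : G → ℂ} (hχ : PGood M N χ)
    (b : G →* ℂˣ) (a : ℕ) (hb : ∀ g, b g ^ p ^ a = 1) :
    PGood M N (fun g => (b g : ℂ) * χ g) := by
  classical
  intro J hNJ
  have hfJ : Fintype J := Fintype.ofFinite J
  obtain ⟨ξ, hξ, hξJ⟩ := hχ J hNJ
  refine ⟨⟨fun y => ((b.comp J.subtype) y : ℂ) * (ξ : J → ℂ) y,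
    Helper79.isIrrCharacter_twist (b.comp J.subtype) ξ.2⟩, ?_, fun y => ?_⟩
  · have h1 : SameBlock M (fun _ : J => (1 : ℂ)) (ξ : J → ℂ) := hξ
    have h2 := Helper76.sameBlock_twist_of_pow_eq_one hM (b.comp J.subtype) a (fun g => by
      show ((b (g : G) : ℂˣ) : ℂ) ^ p ^ a = 1
      rw [← Units.val_pow_eq_pow_val, hb, Units.val_one]) ξ
    exact sameBlock_trans hM.2.1 h1 (sameBlock_symm h2)
  · show ((b (y : G) : ℂˣ) : ℂ) * (ξ : J → ℂ) y = (b (y : G) : ℂ) * χ y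
    rw [hξJ]

omit [Fact p.Prime] in
theorem pgood_pow (N : Subgroup G) {χ : G → ℂ} (hχ : PGood M N χ) (k : ℕ)
    (hk : Nat.Coprime k (Nat.card G)) : PGood M N (fun g => χ (g ^ k)) := by
  intro J hNJ
  obtain ⟨ξ, hξ, hξJ⟩ := hχ J hNJ
  have hkJ : Nat.Coprime k (Nat.card J) :=
    Nat.Coprime.coprime_dvd_right (Subgroup.card_subgroup_dvd_card J) hk
  refine ⟨Helper75.powTwist k hkJ ξ, Helper75.powTwist_mem_principalBlock M k hkJ ξ hξ,
    fun y => ?_⟩
  rw [Helper75.powTwist_apply, hξJ]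
  rfl

omit [Finite G] [Fact p.Prime] in
theorem pgood_comp_mulEquiv (N : Subgroup G) (φ : G ≃* G) (hφN : ∀ n, φ n ∈ N ↔ n ∈ N)
    {χ : G → ℂ} (hχ : PGood M N χ) : PGood M N (fun g => χ (φ g)) := by
  intro J hNJ
  have hNJ' : N ≤ J.map (φ : G →* G) := by
    intro n hn
    refine ⟨φ.symm n, hNJ ((hφN _).mp (by rw [MulEquiv.apply_symm_apply]; exact hn)), ?_⟩
    simp
  obtain ⟨ξ, hξ, hξJ⟩ := hχ (J.map (φ : G →* G)) hNJ'
  refine ⟨Helper75.irrComp (φ.subgroupMap J) ξ, Helper75.irrComp_mem_principalBlock _ hξ,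
    fun y => ?_⟩
  rw [Helper75.irrComp_apply, hξJ, MulEquiv.coe_subgroupMap_apply]

/-- Two good extensions of `θ` differ by a linear character of `p`-power order. -/
theorem pgood_hom_pow (hM : IsPModular p M) (N : Subgroup G) [hN : N.Normal] (P : Sylow p N)
    (hcov : N ⊔ Subgroup.centralizer (((P : Subgroup N).map N.subtype : Subgroup G) : Set G) = ⊤)
    (θ : IrrCharacter N) (hθ : θ ∈ principalBlock M N) {χ χ' : G → ℂ} (hχ : PGood M N χ)
    (hχ' : PGood M N χ') (hχN : ∀ n : N, χ n = (θ : N → ℂ) n)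
    (hχ'N : ∀ n : N, χ' n = (θ : N → ℂ) n) (b : G →* ℂˣ) (hbN : ∀ n ∈ N, b n = 1)
    (hb : ∀ g, χ' g = (b g : ℂ) * χ g) (g : G) :
    b g ^ p ^ (Nat.card G).factorization p = 1 := by
  obtain ⟨k, hk⟩ : ∃ k : G, k = g ^ p ^ (Nat.card G).factorization p := ⟨_, rfl⟩
  rw [← map_pow, ← hk]
  have hkord : ¬ p ∣ orderOf k := by
    have h1 : k ^ (Nat.card G / p ^ (Nat.card G).factorization p) = 1 := by
      rw [hk, ← pow_mul, Nat.ordProj_mul_ordCompl_eq_self, pow_card_eq_one']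
    intro h
    exact Nat.not_dvd_ordCompl (Fact.out) Nat.card_pos.ne'
      (h.trans (orderOf_dvd_of_pow_eq_one h1))
  obtain ⟨J, hJdef⟩ : ∃ J : Subgroup G, J = N ⊔ Subgroup.zpowers k := ⟨_, rfl⟩
  have hNJ : N ≤ J := by rw [hJdef]; exact le_sup_left
  have hkJ : k ∈ J := by
    rw [hJdef]
    exact (le_sup_right : Subgroup.zpowers k ≤ N ⊔ Subgroup.zpowers k) (Subgroup.mem_zpowers k)
  have hidx : ¬ p ∣ N.relIndex J := by
    rw [hJdef, Subgroup.relIndex_sup_left]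
    intro h
    apply hkord
    have := h.trans (Subgroup.relIndex_dvd_card N (Subgroup.zpowers k))
    rwa [Nat.card_zpowers] at this
  obtain ⟨-, huniq, hne⟩ := prat_ad_subgroup hM N P J hNJ (by rw [hcov]; exact le_top) hidx
  obtain ⟨ξ, hξ, hξJ⟩ := hχ J hNJ
  obtain ⟨ξ', hξ', hξ'J⟩ := hχ' J hNJ
  have heq : ξ = ξ' := huniq θ hθ ξ ξ' hξ hξ' (fun n => by rw [hξJ]; exact hχN n)
    (fun n => by rw [hξ'J]; exact hχ'N n)
  have h1 : k ∈ ((N ⊔ Subgroup.centralizer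
      (((P : Subgroup N).map N.subtype : Subgroup G) : Set G) : Subgroup G) : Set G) := by
    rw [hcov]; exact Subgroup.mem_top k
  rw [Subgroup.normal_mul] at h1
  obtain ⟨n, hn, c, hc, hnc⟩ := Set.mem_mul.mp h1
  have hcJ : c ∈ J := by
    have : c = n⁻¹ * k := by rw [← hnc]; group
    rw [this]
    exact J.mul_mem (J.inv_mem (hNJ hn)) hkJ
  have hχc : χ c ≠ 0 := by
    have := hne ξ hξ ⟨c, hcJ⟩ hc
    rwa [hξJ] at this
  have hbc : b c = 1 := by
    have e1 : χ' c = χ c := by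
      rw [← hξ'J ⟨c, hcJ⟩, ← hξJ ⟨c, hcJ⟩, heq]
    rw [hb] at e1
    have e2 : ((b c : ℂˣ) : ℂ) = 1 := mul_right_cancel₀ hχc (e1.trans (one_mul _).symm)
    exact Units.ext e2
  rw [← hnc, map_mul, hbN n hn, hbc, one_mul]

/-- The unique `PFix` good extension. -/
theorem pgood_pfix_unique {c : ℕ} (hp2 : p ≠ 2) (hc : ¬ p ∣ c)
    (hcop : ∀ k : ℕ, k ≡ 1 [MOD c] → ¬ p ∣ k → Nat.Coprime k (Nat.card G))
    (hM : IsPModular p M) (N : Subgroup G) [hN : N.Normal] (P : Sylow p N)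
    (hcov : N ⊔ Subgroup.centralizer (((P : Subgroup N).map N.subtype : Subgroup G) : Set G) = ⊤)
    (θ : IrrCharacter N) (hθ : θ ∈ principalBlock M N) (hd : ¬ p ∣ charDegree (θ : N → ℂ))
    (hfix : PFix p c (θ : N → ℂ))
    (χ₀ : G → ℂ) (hχ₀ : IsIrrCharacter G χ₀) (hχ₀N : ∀ n : N, χ₀ n = (θ : N → ℂ) n)
    (hχ₀g : PGood M N χ₀) :
    ∃ χ₁ : G → ℂ, (IsIrrCharacter G χ₁ ∧ (∀ n : N, χ₁ n = (θ : N → ℂ) n) ∧ PGood M N χ₁) ∧
      PFix p c χ₁ ∧ ∀ χ' : G → ℂ,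
        (IsIrrCharacter G χ' ∧ (∀ n : N, χ' n = (θ : N → ℂ) n) ∧ PGood M N χ') →
        PFix p c χ' → χ' = χ₁ := by
  apply pfix_fixed_point hp2 hc N ((Nat.card G).factorization p)
    (fun χ => IsIrrCharacter G χ ∧ (∀ n : N, χ n = (θ : N → ℂ) n) ∧ PGood M N χ) χ₀
    ⟨hχ₀, hχ₀N, hχ₀g⟩
  · rintro χ ⟨hχ, hχN, -⟩
    refine ⟨Helper15.isChar_of_irr hχ, ?_⟩
    rw [pfix_charDegree_eq N hχN]
    exact hd
  · rintro χ χ' ⟨hχ, hχN, hχg⟩ ⟨hχ', hχ'N, hχ'g⟩
    obtain ⟨b, hbN, hb⟩ := Helper80.exists_hom_of_extensions N (θ : N → ℂ) θ.2 χ χ' hχ hχ'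
      hχN hχ'N
    exact ⟨b, fun n hn => hbN ⟨n, hn⟩,
      fun g => pgood_hom_pow hM N P hcov θ hθ hχg hχ'g hχN hχ'N b (fun n hn => hbN ⟨n, hn⟩)
        (fun g => congrFun hb g) g,
      fun g => congrFun hb g⟩
  · rintro χ ⟨hχ, hχN, hχg⟩ b hbN hbp
    refine ⟨Helper79.isIrrCharacter_twist b hχ, fun n => ?_, pgood_twist hM N hχg b _ hbp⟩
    show (b n : ℂ) * χ n = (θ : N → ℂ) n
    rw [hbN n n.2, hχN]
    simp
  · rintro χ ⟨hχ, hχN, hχg⟩ k hk1 hk2
    refine ⟨Helper75.isIrrCharacter_pow k (hcop k hk1 hk2) hχ, fun n => ?_,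
      pgood_pow N hχg k (hcop k hk1 hk2)⟩
    show χ ((n : G) ^ k) = (θ : N → ℂ) n
    rw [← Subgroup.coe_pow, hχN, hfix k hk1 hk2]

/-- `PFix` extension to a subgroup `K ≥ N` with `|K : N|` a power of `p`. -/
theorem pfix_extension_sub {c : ℕ} (hp2 : p ≠ 2) (hc : ¬ p ∣ c)
    (hcop : ∀ k : ℕ, k ≡ 1 [MOD c] → ¬ p ∣ k → Nat.Coprime k (Nat.card G))
    (N : Subgroup G) [hN : N.Normal] (K : Subgroup G) (hNK : N ≤ K) (a : ℕ)
    (hidx : N.relIndex K = p ^ a) (θ : N → ℂ) (hθ : IsIrrCharacter N θ)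
    (hinv : ∀ (g : G) (n : N), θ ⟨g * n * g⁻¹, hN.conj_mem (n : G) n.2 g⟩ = θ n)
    (hd : ¬ p ∣ charDegree θ) (hfix : PFix p c θ) :
    ∃ η : K → ℂ, IsIrrCharacter K η ∧ (∀ n : N, η ⟨n, hNK n.2⟩ = θ n) ∧ PFix p c η := by
  have hcopK : ∀ k : ℕ, k ≡ 1 [MOD c] → ¬ p ∣ k → Nat.Coprime k (Nat.card K) :=
    fun k h1 h2 => Nat.Coprime.coprime_dvd_right (Subgroup.card_subgroup_dvd_card K)
      (hcop k h1 h2)
  obtain ⟨e, he⟩ : ∃ e : N.subgroupOf K ≃* N, e = Subgroup.subgroupOfEquivOfLe hNK := ⟨_, rfl⟩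
  have hecoe : ∀ x : N.subgroupOf K, ((e x : N) : G) = ((x : K) : G) := by
    intro x; rw [he]; rfl
  obtain ⟨θ', hθ'def⟩ : ∃ θ' : N.subgroupOf K → ℂ, θ' = fun x => θ (e x) := ⟨_, rfl⟩
  have hθ' : IsIrrCharacter (N.subgroupOf K) θ' := by
    rw [hθ'def]; exact (Helper75.irrComp e ⟨θ, hθ⟩).2
  have hN'n : (N.subgroupOf K).Normal := inferInstance
  have hinv' : ∀ (k : K) (n : N.subgroupOf K),
      θ' ⟨k * n * k⁻¹, hN'n.conj_mem (n : K) n.2 k⟩ = θ' n := by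
    intro k n
    rw [hθ'def]
    show θ (e ⟨k * n * k⁻¹, hN'n.conj_mem (n : K) n.2 k⟩) = θ (e n)
    rw [← hinv (k : G) (e n)]
    congr 1
    apply Subtype.ext
    rw [hecoe]
    show ((k * (n : K) * k⁻¹ : K) : G) = (k : G) * ((e n : N) : G) * (k : G)⁻¹
    rw [hecoe]
    rfl
  have hd' : ¬ p ∣ charDegree θ' := by
    have : charDegree θ' = charDegree θ := by
      unfold charDegree
      rw [hθ'def]
      show ⌊(θ (e 1)).re⌋₊ = ⌊(θ 1).re⌋₊
      rw [map_one]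
    rw [this]; exact hd
  have hfix' : PFix p c θ' := by
    intro k hk1 hk2 x
    rw [hθ'def]
    show θ (e (x ^ k)) = θ (e x)
    rw [map_pow]
    exact hfix k hk1 hk2 _
  obtain ⟨η, hη, hηN, hηfix, -⟩ := pfix_extension hp2 hc hcopK a (N.subgroupOf K) hidx θ' hθ'
    hinv' hd' hfix'
  refine ⟨η, hη, fun n => ?_, hηfix⟩
  have h2 : η ⟨n, hNK n.2⟩ = θ' ⟨⟨n, hNK n.2⟩, n.2⟩ := hηN ⟨⟨n, hNK n.2⟩, n.2⟩
  rw [h2, hθ'def]
  show θ (e ⟨⟨(n : G), hNK n.2⟩, n.2⟩) = θ n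
  congr 1
  apply Subtype.ext
  rw [hecoe]

/-- Under the hypotheses of the `p`-rational extension theorem, `θ` extends to `G`. -/
theorem prat_exists_extension {c : ℕ} (hp2 : p ≠ 2) (hc : ¬ p ∣ c)
    (hcop : ∀ k : ℕ, k ≡ 1 [MOD c] → ¬ p ∣ k → Nat.Coprime k (Nat.card G))
    (hM : IsPModular p M) (N : Subgroup G) [hN : N.Normal] (P : Sylow p N)
    (hHn : (N ⊔ Subgroup.centralizer
      (((P : Subgroup N).map N.subtype : Subgroup G) : Set G)).Normal)
    (a : ℕ) (hidx : (N ⊔ Subgroup.centralizer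
      (((P : Subgroup N).map N.subtype : Subgroup G) : Set G)).index = p ^ a)
    (θ : IrrCharacter N) (hθB : θ ∈ principalBlock M N)
    (hinv : ∀ (g : G) (n : N),
      (θ : N → ℂ) ⟨g * n * g⁻¹, hN.conj_mem (n : G) n.2 g⟩ = (θ : N → ℂ) n)
    (hd : ¬ p ∣ charDegree (θ : N → ℂ)) (hfix : PFix p c (θ : N → ℂ)) :
    ∃ χ : G → ℂ, IsIrrCharacter G χ ∧ ∀ n : N, χ n = (θ : N → ℂ) n := by
  have hpp : p.Prime := Fact.out
  obtain ⟨H, hH⟩ : ∃ H : Subgroup G, H = N ⊔ Subgroup.centralizer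
      (((P : Subgroup N).map N.subtype : Subgroup G) : Set G) := ⟨_, rfl⟩
  rw [← hH] at hHn hidx
  obtain ⟨d, τ, hτirr, hτ⟩ := θ.2
  have key : ∀ r : ℕ, r.Prime → ∃ (R : Subgroup G) (hNR : N ≤ R) (η : R → ℂ),
      Nat.Coprime R.index r ∧ IsIrrCharacter R η ∧
        ∀ n : N, η ⟨(n : G), hNR n.2⟩ = (θ : N → ℂ) n := by
    intro r hr
    have hrf : Fact r.Prime := ⟨hr⟩
    obtain ⟨S⟩ : Nonempty (Sylow r G) := inferInstance
    have hNR : N ≤ N ⊔ (S : Subgroup G) := le_sup_left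
    have hcopr : Nat.Coprime (N ⊔ (S : Subgroup G)).index r := by
      apply Nat.Coprime.symm
      rw [Nat.Prime.coprime_iff_not_dvd hr]
      intro h
      exact S.not_dvd_index (h.trans (Subgroup.index_dvd_of_le le_sup_right))
    obtain ⟨j, hj⟩ : ∃ j, N.relIndex (N ⊔ (S : Subgroup G)) = r ^ j := by
      rw [Subgroup.relIndex_sup_left]
      have h1 := Subgroup.relIndex_dvd_card N (S : Subgroup G)
      rw [S.card_eq_multiplicity] at h1
      obtain ⟨j, -, hj⟩ := (Nat.dvd_prime_pow hr).mp h1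
      exact ⟨j, hj⟩
    by_cases hrp : r = p
    · subst hrp
      obtain ⟨η, hη, hηN, -⟩ := pfix_extension_sub hp2 hc hcop N _ hNR j hj (θ : N → ℂ) θ.2
        hinv hd hfix
      exact ⟨_, hNR, η, hcopr, hη, hηN⟩
    · have hSH : (S : Subgroup G) ≤ H := by
        intro x hx
        obtain ⟨i, hi⟩ := (IsPGroup.iff_orderOf.mp S.isPGroup') ⟨x, hx⟩
        rw [Subgroup.orderOf_mk] at hi
        have h1 : orderOf (x : G ⧸ H) ∣ r ^ i := by
          rw [← hi]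
          apply orderOf_dvd_of_pow_eq_one
          rw [← QuotientGroup.mk_pow, pow_orderOf_eq_one]
          rfl
        have h2 : orderOf (x : G ⧸ H) ∣ p ^ a := by
          rw [← hidx, Subgroup.index_eq_card]
          exact orderOf_dvd_natCard _
        have h3 : orderOf (x : G ⧸ H) ∣ Nat.gcd (r ^ i) (p ^ a) := Nat.dvd_gcd h1 h2
        have h4 : Nat.Coprime (r ^ i) (p ^ a) :=
          Nat.Coprime.pow i a ((Nat.coprime_primes hr hpp).mpr hrp)
        rw [h4] at h3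
        have h5 : (x : G ⧸ H) = 1 := orderOf_eq_one_iff.mp (Nat.dvd_one.mp h3)
        exact (QuotientGroup.eq_one_iff x).mp h5
      have hRH : N ⊔ (S : Subgroup G) ≤ N ⊔ Subgroup.centralizer
          (((P : Subgroup N).map N.subtype : Subgroup G) : Set G) := by
        rw [← hH]
        exact sup_le (by rw [hH]; exact le_sup_left) hSH
      have hpidx : ¬ p ∣ N.relIndex (N ⊔ (S : Subgroup G)) := by
        rw [hj]
        intro h
        exact hrp ((Nat.prime_dvd_prime_iff_eq hpp hr).mp (hpp.dvd_of_dvd_pow h)).symm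
      obtain ⟨hex, -, -⟩ := prat_ad_subgroup hM N P _ hNR hRH hpidx
      obtain ⟨ξ, -, hξN⟩ := hex θ hθB
      exact ⟨_, hNR, (ξ : _ → ℂ), hcopr, ξ.2, hξN⟩
  obtain ⟨ρ, hρ⟩ := Helper15.exists_rep_extension_of_sylow τ hτirr (by rw [hτ]; exact hinv) (by
    intro r hr
    obtain ⟨R, hNR, η, hcop', hη, hηN⟩ := key r hr
    obtain ⟨ρ', hρ'⟩ := Helper15.exists_rep_of_char_extension τ hNR η (Helper15.isChar_of_irr hη)
      (by rw [hτ]; exact hηN)
    exact ⟨R, hNR, ρ', hcop', hρ'⟩)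
  exact Helper15.exists_irr_extension_of_rep τ hτirr hτ ρ hρ

end

end Cfsg.Agent.Helper16
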