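import Cfsg.Agent.Helper16.H3Core

/-!
# The action of `S₃` on `HM` for S3702 (`H ≅ 3³:S₄ = N_{A₉}(3³)`, `J = O₃(H)` strongly closed,
`C_G(j) ≤ H` for `j ∈ J ∖ 1`)

`H` is modelled by `SM = HM ⋊ S₃`: pairs `(m, d)` with `m ∈ HM` (the model of `3³:2²`, the even
triples `(x₀, x₁, x₂) ∈ S₃ × S₃ × S₃`) and `d ∈ DihedralGroup 3`, where `d` stands for the
permutation `(block j, position p) ↦ (d · j, ± p)` of the nine points (sign `-` iff `d` is a
reflection).
-/

set_option autoImplicit false

namespace Cfsg.Agent.Helper16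

open DihedralGroup

/-- the action of `DihedralGroup 3` on `ZMod 3` -/
def sDAct : DihedralGroup 3 → ZMod 3 → ZMod 3
  | r i, x => x + i
  | sr i, x => -i - x

/-- conjugation by the negation `p ↦ -p` -/
def sDNeg : DihedralGroup 3 → DihedralGroup 3
  | r i => r (-i)
  | sr i => sr (-i)

/-- the three coordinates of an element of `HM` -/
def hCo (m : HM) (j : ZMod 3) : DihedralGroup 3 :=
  (![m.n.1, m.n.2, if nmSg m.n = 1 then r m.k else sr (-m.k)] : Fin 3 → DihedralGroup 3) j

/-- the rotation part of the third coordinate -/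
def sRot : DihedralGroup 3 → ZMod 3
  | r i => i
  | sr i => -i

/-- the element of `HM` with given coordinates (the parity of the third one is ignored) -/
def hMk (x : ZMod 3 → DihedralGroup 3) : HM := ⟨(x 0, x 1), sRot (x 2)⟩

/-- the action of `S₃ = DihedralGroup 3` on `HM` -/
def sAut (d : DihedralGroup 3) (m : HM) : HM :=
  hMk (fun j => if dRefl d then sDNeg (hCo m (sDAct d⁻¹ j)) else hCo m (sDAct d⁻¹ j))

set_option maxRecDepth 1000000 in
theorem sAut_one : ∀ m : HM, sAut 1 m = m := by decide +kernel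

set_option maxRecDepth 1000000 in
theorem sAut_mul : ∀ (d d' : DihedralGroup 3) (m : HM), sAut (d * d') m = sAut d (sAut d' m) := by
  decide +kernel

set_option maxRecDepth 1000000 in
theorem sAut_hmul_r : ∀ (m m' : HM), sAut (r 1) (m * m') = sAut (r 1) m * sAut (r 1) m' := by
  decide +kernel

set_option maxRecDepth 1000000 in
theorem sAut_hmul_s : ∀ (m m' : HM), sAut (sr 0) (m * m') = sAut (sr 0) m * sAut (sr 0) m' := by
  decide +kernel

theorem sAut_gen : ∀ d : DihedralGroup 3, d = 1 ∨ d = r 1 ∨ d = r 1 * r 1 ∨ d = sr 0 ∨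
    d = r 1 * sr 0 ∨ d = r 1 * r 1 * sr 0 := by decide

theorem sAut_hmul (d : DihedralGroup 3) (m m' : HM) : sAut d (m * m') = sAut d m * sAut d m' := by
  rcases sAut_gen d with h | h | h | h | h | h <;> subst h <;>
    simp only [sAut_mul, sAut_one, sAut_hmul_r, sAut_hmul_s]

set_option maxRecDepth 1000000 in
theorem sAut_hone : ∀ d : DihedralGroup 3, sAut d 1 = 1 := by decide +kernel


end Cfsg.Agent.Helper16
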