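import Cfsg.Agent.Helper16.S4Aut

/-!
# Core definitions for S3702 (`H ≅ 3³:S₄ = N_{A₉}(3³)`, `J = O₃(H)` strongly closed,
`C_G(j) ≤ H` for `j ∈ J ∖ 1`): the model `SM = HM ⋊ S₃` and the configuration `S4Cfg`.
-/

set_option autoImplicit false

namespace Cfsg.Agent.Helper16

open DihedralGroup

/-- Model of `H = 3³:S₄`. -/
structure SM where
  /-- the `3³:2²` part -/
  m : HM
  /-- the `S₃` part -/
  d : DihedralGroup 3
deriving DecidableEq, Fintype

namespace SM

instance : Mul SM := ⟨fun a b => ⟨a.m * sAut a.d b.m, a.d * b.d⟩⟩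

instance : One SM := ⟨⟨1, 1⟩⟩

instance : Inv SM := ⟨fun a => ⟨sAut a.d⁻¹ a.m⁻¹, a.d⁻¹⟩⟩

theorem mul_def (a b : SM) : a * b = ⟨a.m * sAut a.d b.m, a.d * b.d⟩ := rfl

theorem one_def : (1 : SM) = ⟨1, 1⟩ := rfl

theorem inv_def (a : SM) : a⁻¹ = ⟨sAut a.d⁻¹ a.m⁻¹, a.d⁻¹⟩ := rfl

@[ext] theorem ext' {a b : SM} (h1 : a.m = b.m) (h2 : a.d = b.d) : a = b := by
  cases a; cases b; simp_all

instance : Group SM :=
  Group.ofLeftAxioms
    (by
      intro a b c
      apply ext'
      · simp only [mul_def, sAut_hmul, sAut_mul, mul_assoc]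
      · simp [mul_def, mul_assoc])
    (by
      intro a
      apply ext'
      · simp [mul_def, one_def, sAut_one]
      · simp [mul_def, one_def])
    (by
      intro a
      apply ext'
      · simp only [mul_def, one_def, inv_def, ← sAut_hmul, inv_mul_cancel, sAut_hone]
      · simp [mul_def, one_def, inv_def])

end SM

/-- the embedding of `HM = 3³:2²` (the subgroup `J V`) -/
def sι : HM →* SM where
  toFun m := ⟨m, 1⟩
  map_one' := rfl
  map_mul' a b := by
    apply SM.ext'
    · simp [SM.mul_def, sAut_one]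
    · simp [SM.mul_def]

theorem sι_injective : Function.Injective sι := by
  intro a b hab
  exact congrArg SM.m hab

/-- `J = O₃(H)`, elementary abelian of order 27 -/
def sJ (a : SM) : Prop := a.d = 1 ∧ dRefl a.m.n.1 = false ∧ dRefl a.m.n.2 = false

instance : DecidablePred sJ := fun a => by unfold sJ; infer_instance

/-- the TI set: the elements with a power in `J ∖ 1` (orders 3 (inside `J`), 6, 9, 12) -/
def sE (a : SM) : Prop := (sJ (a ^ 4) ∧ a ^ 4 ≠ 1) ∨ (sJ (a ^ 3) ∧ a ^ 3 ≠ 1)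

instance : DecidablePred sE := fun a => by unfold sE; infer_instance

/-- `J A₄ ∖ J V`: the elements of order 9 and the elements of order 3 outside `J` -/
def sR (a : SM) : Prop := dRefl a.d = false ∧ a.d ≠ 1

instance : DecidablePred sR := fun a => by unfold sR; infer_instance

/-- `x`: an element of order 3 outside `J` -/
def sx : SM := ⟨1, r 1⟩
/-- `z`: the generator of `C_J(x)` -/
def sz : SM := ⟨⟨(r 1, r 1), 1⟩, 1⟩
/-- `b`: an involution inverting `x` and `z` -/
def sb : SM := ⟨1, sr 0⟩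
/-- `a`: an involution of `J V` -/
def sa : SM := ⟨hV3, 1⟩

/-- The configuration: `φ : SM →* G` injective, `C_G(j) ≤ H` for `j ∈ J ∖ 1`, and `J` is strongly
closed in `H = φ.range` with respect to `G`. -/
structure S4Cfg {G : Type*} [Group G] (φ : SM →* G) : Prop where
  inj : Function.Injective φ
  cent : ∀ j : SM, sJ j → j ≠ 1 → ∀ g : G, g * φ j = φ j * g → g ∈ φ.range
  sc : ∀ j : SM, sJ j → ∀ g : G, g * φ j * g⁻¹ ∈ φ.range → ∃ j' : SM, sJ j' ∧ g * φ j * g⁻¹ = φ j'

end Cfsg.Agent.Helper16
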