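import Cfsg.Agent.Helper16.S4Defs

/-!
# S3702: the packaged facts `FusFact` (no fusion of involutions) and `XFacts` (basic facts on
`C_G(x) = W ⋊ P₂`) used as hypotheses by the pieces.
-/

set_option autoImplicit false

namespace Cfsg.Agent.Helper16

section

variable {G : Type*} [Group G]

/-- `G`-conjugate elements of order at most 2 of `H` are `H`-conjugate. -/
def FusFact (φ : SM →* G) : Prop :=
  ∀ a b : SM, a ^ 2 = 1 → ∀ g : G, g * φ a * g⁻¹ = φ b → ∃ s : SM, s * a * s⁻¹ = b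

/-- Basic facts on `C_G(x) = W ⋊ φ P₂`. -/
structure XFacts (φ : SM →* G) (W : Subgroup G) : Prop where
  inter : ∀ w ∈ W, ∀ p : SM, sP p → w = φ p → w = 1
  cz : ∀ w ∈ W, w * φ sz = φ sz * w → w = 1
  mem : ∀ c : G, c * φ sx = φ sx * c → ∀ n : ℕ, n.Coprime 3 → c ^ n = 1 → c ∈ W
  uniq : ∀ w ∈ W, ∀ w' ∈ W, ∀ p p' : SM, sP p → sP p' → w * φ p = w' * φ p' → w = w' ∧ p = p'
  card : Nat.card (Subgroup.centralizer ({φ sx} : Set G)) = 9 * Nat.card W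
  cent : ∀ m : SM, sP m → m ≠ 1 → m ≠ sx → m ≠ sx⁻¹ → ∀ w ∈ W, w * φ m = φ m * w → w = 1
  frob : ∀ m : SM, sP m → m ≠ 1 → m ≠ sx → m ≠ sx⁻¹ → ∀ w₁ ∈ W, ∃ c ∈ W, c * φ m * c⁻¹ = w₁ * φ m
  b : ∀ w ∈ W, φ sb * w * (φ sb)⁻¹ ∈ W

end

end Cfsg.Agent.Helper16
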