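import Cfsg.Agent.Helper16.S4Model
import Cfsg.Agent.Helper16.H3Glue
import Cfsg.Agent.Helper53.S4TICore
import Cfsg.Agent.Helper73.S4FUS
import Cfsg.Agent.Helper42.S4BURN
import Cfsg.Agent.Helper55.S4XB1
import Cfsg.Agent.Helper61.S4XB2
import Cfsg.Agent.Helper11.S4Lin
import Cfsg.Agent.Helper53.S4REP1P
import Cfsg.Agent.Helper53.S4REPC
import Cfsg.Agent.Helper51.S4V9
import Cfsg.Agent.Helper73.S4VX1
import Cfsg.Agent.Helper86.S4VX1C
import Cfsg.Agent.Helper50.S4VXW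
import Cfsg.Agent.Helper51.S4SUPP
import Cfsg.Agent.Helper51.S4ORD
import Cfsg.Agent.Helper51.S4INVOL9
import Cfsg.Agent.Helper50.S4INVOLXW

/-!
# S3702 glue: a configuration `φ : SM →* G` (`SM = 3³:S₄`, `J` strongly closed, `C_G(j) ≤ H`) is
surjective
-/

set_option autoImplicit false

namespace Cfsg.Agent.Helper16

open Cfsg DihedralGroup
open scoped ComplexConjugate

theorem s4_exists_cubeRoot : ∃ ζ : ℂˣ, ζ ^ 3 = 1 ∧ ζ ≠ 1 := by
  have hp : IsPrimitiveRoot (Complex.exp (2 * Real.pi * Complex.I / ((3 : ℕ) : ℂ))) 3 :=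
    Complex.isPrimitiveRoot_exp 3 (by norm_num)
  obtain ⟨u, hu⟩ := hp.isUnit (by norm_num)
  refine ⟨u, ?_, ?_⟩
  · apply Units.ext
    rw [Units.val_pow_eq_pow_val, hu, hp.pow_eq_one]
    rfl
  · intro h1
    rw [h1] at hu
    exact hp.ne_one (by norm_num) hu.symm

section General

variable {G : Type*} [Group G] [Fintype G]

/-- A function with values in `{0, 3}` has norm `3 ⟨Θ, 1⟩`. -/
theorem s4_inner_self_of_values (Θ : G → ℂ) (h : ∀ g, Θ g = 0 ∨ Θ g = 3) :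
    classInner Θ Θ = 3 * classInner Θ (fun _ => (1 : ℂ)) := by
  unfold classInner
  have h1 : ∑ g : G, Θ g * (starRingEnd ℂ) (Θ g) =
      3 * ∑ g : G, Θ g * (starRingEnd ℂ) (1 : ℂ) := by
    rw [Finset.mul_sum]
    refine Finset.sum_congr rfl (fun g _ => ?_)
    rcases h g with h0 | h3
    · rw [h0]; simp
    · rw [h3]
      have : (starRingEnd ℂ) (3 : ℂ) = 3 := Complex.conj_ofReal 3
      rw [this]
      simp
  rw [h1]
  ring

theorem s4_inner_combo (f₁ f₂ f₃ ψ : G → ℂ) :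
    classInner (fun g => f₁ g + f₂ g - f₃ g) ψ =
      classInner f₁ ψ + classInner f₂ ψ - classInner f₃ ψ := by
  unfold classInner
  simp only [add_mul, sub_mul, Finset.sum_add_distrib, Finset.sum_sub_distrib, mul_add, mul_sub]

/-- If `Θ = 1 + ε₁ X₁ + ε₂ X₂` vanishes at `1`, at `u` and at all products of two conjugates of
`u`, then `u` lies in the kernels of `X₁` and `X₂`. -/
theorem s4_ker_of_zero (Θ : G → ℂ) (X₁ X₂ : IrrCharacter G) (ε₁ ε₂ : ℤ)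
    (hε₁ : ε₁ = 1 ∨ ε₁ = -1) (hε₂ : ε₂ = 1 ∨ ε₂ = -1)
    (hdec : ∀ g, Θ g = 1 + (ε₁ : ℂ) * (X₁ : G → ℂ) g + (ε₂ : ℂ) * (X₂ : G → ℂ) g)
    (u : G) (h1 : Θ 1 = 0) (hu : Θ u = 0)
    (hprod : ∀ x y : G, Θ (x * u * x⁻¹ * (y * u * y⁻¹)) = 0) :
    (X₁ : G → ℂ) u = (X₁ : G → ℂ) 1 ∧ (X₂ : G → ℂ) u = (X₂ : G → ℂ) 1 := by
  have hG : (Nat.card G : ℂ) ≠ 0 := by exact_mod_cast Nat.card_pos.ne'
  have hsum : ∑ x : G, ∑ y : G, Θ (x * u * x⁻¹ * (y * u * y⁻¹)) = 0 := by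
    simp [hprod]
  have hstar : (Nat.card G : ℂ) ^ 2 * (1 + (ε₁ : ℂ) * (X₁ : G → ℂ) u ^ 2 / (X₁ : G → ℂ) 1 +
        (ε₂ : ℂ) * (X₂ : G → ℂ) u ^ 2 / (X₂ : G → ℂ) 1) = 0 := by
    rw [← hsum]
    simp only [hdec]
    simp only [Finset.sum_add_distrib, ← Finset.mul_sum]
    rw [irr_double_sum X₁ u u, irr_double_sum X₂ u u]
    simp only [Finset.sum_const, Finset.card_univ, nsmul_eq_mul, mul_one]
    rw [← Nat.card_eq_fintype_card]
    ring
  have h0 : 1 + (ε₁ : ℂ) * (X₁ : G → ℂ) u ^ 2 / (X₁ : G → ℂ) 1 +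
        (ε₂ : ℂ) * (X₂ : G → ℂ) u ^ 2 / (X₂ : G → ℂ) 1 = 0 := by
    rcases mul_eq_zero.mp hstar with h' | h'
    · exact absurd h' (pow_ne_zero 2 hG)
    · exact h'
  have hd1 : (X₁ : G → ℂ) 1 ≠ 0 := Helper3.irr_apply_one_ne_zero X₁.2
  have hd2 : (X₂ : G → ℂ) 1 ≠ 0 := Helper3.irr_apply_one_ne_zero X₂.2
  have hone : (1 : ℂ) + (ε₁ : ℂ) * (X₁ : G → ℂ) 1 + (ε₂ : ℂ) * (X₂ : G → ℂ) 1 = 0 := by
    rw [← hdec 1]; exact h1
  have hu0 : (1 : ℂ) + (ε₁ : ℂ) * (X₁ : G → ℂ) u + (ε₂ : ℂ) * (X₂ : G → ℂ) u = 0 := by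
    rw [← hdec u]; exact hu
  have he1 : (ε₁ : ℂ) * (ε₁ : ℂ) = 1 := by
    rcases hε₁ with h' | h' <;> rw [h'] <;> norm_num
  have he2 : (ε₂ : ℂ) * (ε₂ : ℂ) = 1 := by
    rcases hε₂ with h' | h' <;> rw [h'] <;> norm_num
  set x : ℂ := (ε₁ : ℂ) * (X₁ : G → ℂ) 1 with hx
  set P : ℂ := (ε₁ : ℂ) * (X₁ : G → ℂ) u with hP
  set y : ℂ := (ε₂ : ℂ) * (X₂ : G → ℂ) 1 with hy
  set Q : ℂ := (ε₂ : ℂ) * (X₂ : G → ℂ) u with hQ
  have he1' : (ε₁ : ℂ) ≠ 0 := fun h' => by rw [h'] at he1; simp at he1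
  have he2' : (ε₂ : ℂ) ≠ 0 := fun h' => by rw [h'] at he2; simp at he2
  have hx0 : x ≠ 0 := mul_ne_zero he1' hd1
  have hy0 : y ≠ 0 := mul_ne_zero he2' hd2
  have h1' : (ε₁ : ℂ) * (X₁ : G → ℂ) u ^ 2 / (X₁ : G → ℂ) 1 = P ^ 2 / x := by
    rw [hP, hx]
    field_simp
  have h2' : (ε₂ : ℂ) * (X₂ : G → ℂ) u ^ 2 / (X₂ : G → ℂ) 1 = Q ^ 2 / y := by
    rw [hQ, hy]
    field_simp
  rw [h1', h2'] at h0
  have hy' : y = -1 - x := by linear_combination hone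
  have hQ' : Q = -1 - P := by linear_combination hu0
  have h3 : (x - P) ^ 2 = 0 := by
    have h4 : x * y + P ^ 2 * y + Q ^ 2 * x = 0 := by
      have := h0
      field_simp at this
      linear_combination this
    rw [hy', hQ'] at h4
    linear_combination -h4
  have h5 : x = P := by
    have := pow_eq_zero_iff (n := 2) (by norm_num) |>.mp h3
    linear_combination this
  have h6 : y = Q := by rw [hy', hQ', h5]
  constructor
  · have : (ε₁ : ℂ) * (X₁ : G → ℂ) u = (ε₁ : ℂ) * (X₁ : G → ℂ) 1 := h5.symm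
    exact mul_left_cancel₀ he1' this
  · have : (ε₂ : ℂ) * (X₂ : G → ℂ) u = (ε₂ : ℂ) * (X₂ : G → ℂ) 1 := h6.symm
    exact mul_left_cancel₀ he2' this

end General

section

variable {G : Type*} [Group G] [Fintype G] {φ : SM →* G}

/-- **Main theorem of the configuration**: `H = G`. -/
theorem S4Cfg.surjective (h : S4Cfg φ) : Function.Surjective φ := by
  classical
  have hTI : TICfg φ sE :=
    Cfsg.Agent.Helper53.s4_ti_core m_E_conj m_E_pow m_J_comm m_j1 m_j1_conj h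
  have hF : FusFact φ := Cfsg.Agent.Helper73.s4_fus_of m_J_pow3 m_inv_cent h hTI
  obtain ⟨W, hW⟩ := Cfsg.Agent.Helper42.s4_xdata h hTI
  have hcz := Cfsg.Agent.Helper55.xb_cz h hW
  have hmem := Cfsg.Agent.Helper55.xb_mem h hW
  have hX : XFacts φ W :=
    ⟨Cfsg.Agent.Helper55.xb_inter h hW, hcz, hmem, Cfsg.Agent.Helper55.xb_uniq h hW,
      Cfsg.Agent.Helper55.xb_card h hW, Cfsg.Agent.Helper61.xb_cent h hW hcz,
      Cfsg.Agent.Helper61.xb_frob h hW hcz, Cfsg.Agent.Helper61.xb_b h hW hmem⟩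
  obtain ⟨ζ, hζ, hζ1⟩ := s4_exists_cubeRoot
  obtain ⟨A₁, κ₁, hκ₁, hr1⟩ := Cfsg.Agent.Helper53.s4_rep1 h ζ hζ hζ1
  obtain ⟨AP, κP, hκP, hrP⟩ := Cfsg.Agent.Helper53.s4_repP h ζ hζ hζ1
  obtain ⟨AC, κC, hκC, hrC⟩ := Cfsg.Agent.Helper53.s4_repC h hW hX ζ hζ hζ1
  obtain ⟨Θ, hΘdef⟩ : ∃ Θ : G → ℂ, Θ = s4Theta φ W := ⟨_, rfl⟩
  have hWne : (Nat.card W : ℂ) ≠ 0 := by exact_mod_cast Nat.card_pos.ne'
  obtain ⟨I₁, hI₁⟩ : ∃ I : G → ℂ, I = Cfsg.indFun A₁ (fun a : ↥A₁ => 1 - s4Lin κ₁ ζ a) := ⟨_, rfl⟩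
  obtain ⟨IC, hIC⟩ : ∃ I : G → ℂ, I = Cfsg.indFun AC (fun a : ↥AC => 1 - s4Lin κC ζ a) := ⟨_, rfl⟩
  obtain ⟨IP, hIP⟩ : ∃ I : G → ℂ, I = Cfsg.indFun AP (fun a : ↥AP => 1 - s4Lin κP ζ a) := ⟨_, rfl⟩
  have hrep : Θ = fun g => I₁ g + IC g - IP g := by
    funext g
    rw [hΘdef, hI₁, hIC, hIP, hr1, hrC, hrP]
    unfold s4Theta
    ring
  have hcf : IsClassFunction G Θ := by
    intro g y
    rw [hrep]
    simp only
    rw [hI₁, hIC, hIP, Helper3.indFun_conj, Helper3.indFun_conj, Helper3.indFun_conj]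
  have hint : ∀ X : IrrCharacter G, ∃ k : ℤ, classInner Θ (X : G → ℂ) = (k : ℂ) := by
    intro X
    obtain ⟨k1, hk1⟩ := Cfsg.Agent.Helper11.s4_lin_int A₁ κ₁ ζ hζ X
    obtain ⟨kC, hkC⟩ := Cfsg.Agent.Helper11.s4_lin_int AC κC ζ hζ X
    obtain ⟨kP, hkP⟩ := Cfsg.Agent.Helper11.s4_lin_int AP κP ζ hζ X
    refine ⟨k1 + kC - kP, ?_⟩
    rw [hrep, s4_inner_combo, hI₁, hIC, hIP, hk1, hkC, hkP]
    push_cast
    ring
  have hone : classInner Θ (fun _ => (1 : ℂ)) = 1 := by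
    rw [hrep, s4_inner_combo, hI₁, hIC, hIP,
      Cfsg.Agent.Helper11.s4_lin_one A₁ κ₁ hκ₁ ζ hζ hζ1,
      Cfsg.Agent.Helper11.s4_lin_one AC κC hκC ζ hζ hζ1,
      Cfsg.Agent.Helper11.s4_lin_one AP κP hκP ζ hζ hζ1]
    ring
  -- values
  have hconj : ∀ (g t : G), Θ (t⁻¹ * g * t) = Θ g := by
    intro g t
    have := hcf g t⁻¹
    rw [inv_inv] at this
    exact this
  have hval9 : ∀ e : SM, sR e → e ^ 3 ≠ 1 → Θ (φ e) = 3 := by
    intro e he he3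
    obtain ⟨c1, c2, c3⟩ := Cfsg.Agent.Helper51.s4_v9 h hTI hW e he he3
    rw [hΘdef]
    unfold s4Theta
    rw [c1, c2, c3]
    simp
    norm_num
  have hvalx : ∀ w ∈ W, Θ (φ sx * w) = 3 := by
    intro w hw
    by_cases hw1 : w = 1
    · rw [hw1, mul_one]
      obtain ⟨c1, c2⟩ := Cfsg.Agent.Helper73.s4_vx1 h hW hX
      have c3 := Cfsg.Agent.Helper86.s4_vx1c h hW hX
      rw [hΘdef]
      unfold s4Theta
      rw [c1, c2, c3]
      push_cast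
      field_simp
      ring
    · obtain ⟨c1, c2, c3⟩ := Cfsg.Agent.Helper50.s4_vxw h hW hX w hw hw1
      rw [hΘdef]
      unfold s4Theta
      rw [c1, c2, c3]
      simp
      field_simp
      ring
  have hzero : ∀ g : G, ¬ IsN9 φ g → ¬ IsXW φ W g → Θ g = 0 := by
    intro g h9 hxw
    have hne : ¬ ((s4N1 φ g).Nonempty ∨ (s4NC φ W g).Nonempty ∨ (s4NP φ g).Nonempty) := by
      intro hne
      rcases Cfsg.Agent.Helper51.s4_supp h hW hX g hne with h' | h'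
      · exact h9 h'
      · exact hxw h'
    have e1 : s4N1 φ g = ∅ := Set.not_nonempty_iff_eq_empty.mp (fun h' => hne (Or.inl h'))
    have e2 : s4NC φ W g = ∅ :=
      Set.not_nonempty_iff_eq_empty.mp (fun h' => hne (Or.inr (Or.inl h')))
    have e3 : s4NP φ g = ∅ :=
      Set.not_nonempty_iff_eq_empty.mp (fun h' => hne (Or.inr (Or.inr h')))
    rw [hΘdef]
    unfold s4Theta
    rw [e1, e2, e3]
    simp
  have hval : ∀ g : G, Θ g = 0 ∨ Θ g = 3 := by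
    intro g
    by_cases h9 : IsN9 φ g
    · right
      obtain ⟨t, e, he, he3, hte⟩ := h9
      rw [← hconj g t, hte]
      exact hval9 e he he3
    · by_cases hxw : IsXW φ W g
      · right
        obtain ⟨t, w, hw, htw⟩ := hxw
        rw [← hconj g t, htw]
        exact hvalx w hw
      · left
        exact hzero g h9 hxw
  have h3 : classInner Θ Θ = 3 := by
    rw [s4_inner_self_of_values Θ hval, hone]
    ring
  obtain ⟨X₁, X₂, ε₁, ε₂, -, -, -, hε₁, hε₂, hdec⟩ :=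
    Cfsg.Agent.Helper39.s3_norm_three Θ hcf h3 hone hint
  have hu2 : (φ sa) ^ 2 = 1 := by rw [← map_pow, m_a.1, map_one]
  have hsq1 := Cfsg.Agent.Helper51.s4_sq h hW hX (1 : G) (one_pow 2)
  have hsqu := Cfsg.Agent.Helper51.s4_sq h hW hX (φ sa) hu2
  have hker := s4_ker_of_zero Θ X₁ X₂ ε₁ ε₂ hε₁ hε₂ hdec (φ sa) (hzero 1 hsq1.1 hsq1.2)
    (hzero _ hsqu.1 hsqu.2)
    (fun x y => hzero _ (Cfsg.Agent.Helper51.s4_invol9 h hTI hF x y)
      (Cfsg.Agent.Helper50.s4_involxw h hTI hF hW hX x y))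
  have hc₁ : IsCharacter G (X₁ : G → ℂ) := Helper79.irr_isCharacter X₁
  have hc₂ : IsCharacter G (X₂ : G → ℂ) := Helper79.irr_isCharacter X₂
  obtain ⟨K, hKdef⟩ : ∃ K : Subgroup G, K = Helper79.charKer hc₁ ⊓ Helper79.charKer hc₂ :=
    ⟨_, rfl⟩
  have hKn : K.Normal := by
    haveI := Helper79.charKer_normal hc₁
    haveI := Helper79.charKer_normal hc₂
    rw [hKdef]
    infer_instance
  have hKmem : ∀ g, g ∈ K ↔ (X₁ : G → ℂ) g = (X₁ : G → ℂ) 1 ∧ (X₂ : G → ℂ) g = (X₂ : G → ℂ) 1 := by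
    intro g
    rw [hKdef, Subgroup.mem_inf, Helper79.mem_charKer, Helper79.mem_charKer]
  have hKzero : ∀ g ∈ K, Θ g = 0 := by
    intro g hg
    rw [hdec g, ((hKmem g).mp hg).1, ((hKmem g).mp hg).2, ← hdec 1]
    exact hzero 1 hsq1.1 hsq1.2
  have hu : φ sa ∈ K := (hKmem _).mpr hker
  have hconjK : ∀ (s k : SM), φ k ∈ K → φ (s * k * s⁻¹) ∈ K := by
    intro s k hk
    rw [map_mul, map_mul, map_inv]
    exact hKn.conj_mem _ hk _
  -- J V ≤ K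
  have hj1K : φ sj1 ∈ K := by
    obtain ⟨s₁, s₂, hs⟩ := m_gen1
    rw [hs, map_mul]
    exact K.mul_mem (hconjK s₁ sa hu) (hconjK s₂ sa hu)
  have hJK : ∀ j : SM, sJ j → φ j ∈ K := by
    intro j hj
    obtain ⟨a, b, c, habc⟩ := m_gen2 j hj
    rw [habc, map_mul, map_mul, map_pow, map_pow, map_pow]
    refine K.mul_mem (K.mul_mem (K.pow_mem hj1K _) (K.pow_mem (hconjK sx sj1 hj1K) _))
      (K.pow_mem ?_ _)
    have := hconjK sx⁻¹ sj1 hj1K
    rw [inv_inv] at this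
    exact this
  have h7a : ∀ m : SM, m.d = 1 → φ m ∈ K := by
    intro m hm
    obtain ⟨j, hj, hm' | hm' | hm' | hm'⟩ := m_gen3 m hm
    · rw [hm']; exact hJK j hj
    · rw [hm', map_mul]; exact K.mul_mem (hJK j hj) hu
    · rw [hm', map_mul]; exact K.mul_mem (hJK j hj) (hconjK sx sa hu)
    · rw [hm', map_mul]
      refine K.mul_mem (hJK j hj) ?_
      have := hconjK sx⁻¹ sa hu
      rw [inv_inv] at this
      exact this
  have h7b : ∀ m : SM, φ m ∈ K → m.d = 1 := by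
    intro m hm
    by_contra hcon
    obtain ⟨n, hn, ⟨he, he3⟩ | ⟨he, he3⟩⟩ := m_out m hcon
    · have hK : φ (m * n) ∈ K := by
        rw [map_mul]; exact K.mul_mem hm (h7a n hn)
      have := hKzero _ hK
      rw [hval9 _ he he3] at this
      norm_num at this
    · have hK : φ (m * (sx * m⁻¹ * sx⁻¹) * n) ∈ K := by
        rw [map_mul, map_mul]
        refine K.mul_mem (K.mul_mem hm ?_) (h7a n hn)
        exact hconjK sx m⁻¹ (by rw [map_inv]; exact K.inv_mem hm)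
      have := hKzero _ hK
      rw [hval9 _ he he3] at this
      norm_num at this
  have hιK : ∀ m : HM, (φ.comp sι) m ∈ K := fun m => h7a (sι m) rfl
  obtain ⟨φ', hφ'⟩ : ∃ φ' : HM →* ↥K, ∀ m, ((φ' m : ↥K) : G) = φ (sι m) :=
    ⟨(φ.comp sι).codRestrict K hιK, fun m => rfl⟩
  have hcfg' : H3Cfg φ' := by
    refine ⟨?_, ?_, ?_⟩
    · intro a b hab
      have h1 := congrArg Subtype.val hab
      rw [hφ', hφ'] at h1
      exact sι_injective (h.inj h1)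
    · intro k m hm hcon
      apply hm
      have h1 : (k⁻¹ * m * k) ^ 2 = k⁻¹ * m ^ 2 * k := by
        have := conj_pow (a := k⁻¹) (b := m) (i := 2)
        rw [inv_inv] at this
        exact this
      rw [h1] at hcon
      have : m ^ 2 = k * (k⁻¹ * m ^ 2 * k) * k⁻¹ := by group
      rw [this, hcon]; group
    · intro m hm ℓ hℓ
      obtain ⟨m', hm'⟩ := hℓ
      have h1 : (ℓ : G) * φ (sι m) * (ℓ : G)⁻¹ = φ (sι m') := by
        have h2 := congrArg Subtype.val hm'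
        rw [hφ'] at h2
        rw [h2]
        simp [hφ']
      have h2 : (ℓ : G) ∈ φ.range := hTI.ti (sι m) (m_iota_E m hm) ℓ (by rw [h1]; exact ⟨_, rfl⟩)
      obtain ⟨s, hs⟩ := h2
      have hsd : s.d = 1 := h7b s (by rw [hs]; exact ℓ.2)
      refine ⟨s.m, Subtype.ext ?_⟩
      rw [hφ', m_iota_d s hsd, hs]
  haveI : Fintype ↥K := Fintype.ofFinite _
  have hsurj := H3Cfg.surjective hcfg'
  intro g
  have hz := m_z
  have hzK : φ sz ∈ K := hJK sz hz.1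
  have hg : g * φ sz * g⁻¹ ∈ K := hKn.conj_mem _ hzK g
  obtain ⟨n, hn⟩ := hsurj ⟨_, hg⟩
  have hmem : g * φ sz * g⁻¹ ∈ φ.range := by
    refine ⟨sι n, ?_⟩
    have h1 := congrArg Subtype.val hn
    rw [hφ'] at h1
    exact h1
  exact hTI.ti sz hz.2.2.2.2.2 g hmem

end

end Cfsg.Agent.Helper16
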