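import Cfsg.Agent.Helper16.S4ModelB
import Cfsg.Agent.Helper66.S4COREModel

/-!
# S3702: the model lemmas used by the assembly (`SM = 3³:S₄`)
-/

set_option autoImplicit false

namespace Cfsg.Agent.Helper16

open DihedralGroup

theorem m_J_pow3 : ∀ a : SM, sJ a → a ^ 3 = 1 := Cfsg.Agent.Helper66.s4c66_J_pow3

theorem m_J_conj : ∀ s a : SM, sJ a → sJ (s * a * s⁻¹) :=
  fun s a ha => Cfsg.Agent.Helper66.s4c66_J_conj a ha s

theorem m_iota_d : ∀ a : SM, a.d = 1 → sι a.m = a := by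
  intro a ha
  apply SM.ext'
  · rfl
  · exact ha.symm

set_option maxRecDepth 1000000 in
theorem hm_rot_comm : ∀ m m' : HM, dRefl m.n.1 = false ∧ dRefl m.n.2 = false →
    dRefl m'.n.1 = false ∧ dRefl m'.n.2 = false → m * m' = m' * m := by
  decide +kernel

theorem m_J_comm : ∀ a b : SM, sJ a → sJ b → a * b = b * a := by
  intro a b ha hb
  have ha' := m_iota_d a ha.1
  have hb' := m_iota_d b hb.1
  rw [← ha', ← hb', ← map_mul, ← map_mul, hm_rot_comm a.m b.m ha.2 hb.2]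

theorem m_E_conj : ∀ k m : SM, sE m → sE (k⁻¹ * m * k) := by
  intro k m hm
  have hc : ∀ n : ℕ, (k⁻¹ * m * k) ^ n = k⁻¹ * m ^ n * (k⁻¹)⁻¹ := by
    intro n
    have := conj_pow (a := k⁻¹) (b := m) (i := n)
    rw [inv_inv] at this
    rw [inv_inv]
    exact this
  have hne : ∀ y : SM, y ≠ 1 → k⁻¹ * y * (k⁻¹)⁻¹ ≠ 1 := by
    intro y hy h1
    apply hy
    have : y = k * (k⁻¹ * y * (k⁻¹)⁻¹) * k⁻¹ := by group
    rw [this, h1]; group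
  rcases hm with ⟨h1, h2⟩ | ⟨h1, h2⟩
  · left
    rw [hc]
    exact ⟨m_J_conj _ _ h1, hne _ h2⟩
  · right
    rw [hc]
    exact ⟨m_J_conj _ _ h1, hne _ h2⟩

theorem m_E_pow : ∀ m : SM, sE m → ∃ k : ℕ, sJ (m ^ k) ∧ m ^ k ≠ 1 := by
  intro m hm
  rcases hm with h | h
  · exact ⟨4, h⟩
  · exact ⟨3, h⟩

set_option maxRecDepth 1000000 in
theorem m_j1 : sJ sj1 ∧ sj1 ≠ 1 ∧ sy0 ^ 4 = 1 ∧ sy0 ^ 2 ≠ 1 ∧ sy0 * sj1 = sj1 * sy0 := by
  decide +kernel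

set_option maxRecDepth 1000000 in
theorem m_a : sa ^ 2 = 1 ∧ sa ≠ 1 := by
  decide +kernel

set_option maxRecDepth 1000000 in
theorem m_z : sJ sz ∧ sz ≠ 1 ∧ sz ^ 3 = 1 ∧ sP sz ∧ kap sz = 0 ∧ sE sz := by
  decide +kernel

theorem m_gen1 : ∃ s₁ s₂ : SM, sj1 = (s₁ * sa * s₁⁻¹) * (s₂ * sa * s₂⁻¹) :=
  ⟨1, sj1, by decide +kernel⟩

set_option maxRecDepth 1000000 in
theorem m_gen2 : ∀ j : SM, sJ j → ∃ a b c : Fin 3,
    j = sj1 ^ a.val * (sx * sj1 * sx⁻¹) ^ b.val * (sx⁻¹ * sj1 * sx) ^ c.val := by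
  decide +kernel

set_option maxRecDepth 1000000 in
theorem m_gen3 : ∀ m : SM, m.d = 1 → ∃ j : SM, sJ j ∧
    (m = j ∨ m = j * sa ∨ m = j * (sx * sa * sx⁻¹) ∨ m = j * (sx⁻¹ * sa * sx)) := by
  decide +kernel

set_option maxRecDepth 1000000 in
theorem m_out : ∀ m : SM, m.d ≠ 1 → ∃ n : SM, n.d = 1 ∧ ((sR (m * n) ∧ (m * n) ^ 3 ≠ 1) ∨
    (sR (m * (sx * m⁻¹ * sx⁻¹) * n) ∧ (m * (sx * m⁻¹ * sx⁻¹) * n) ^ 3 ≠ 1)) := by
  decide +kernel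

set_option maxRecDepth 1000000 in
theorem m_iota_E : ∀ m : HM, m ^ 2 ≠ 1 → sE (sι m) := by
  decide +kernel

end Cfsg.Agent.Helper16
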