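import Cfsg.Agent.Helper16.S4Defs2

/-!
# S3702: two slow model lemmas (by `decide +kernel`, about 4 minutes)
-/

set_option autoImplicit false

namespace Cfsg.Agent.Helper16

open DihedralGroup

set_option maxRecDepth 1000000 in
theorem m_j1_conj : ∀ j' : SM, sJ j' → j' ≠ 1 → (∃ y : SM, y ^ 4 = 1 ∧ y ^ 2 ≠ 1 ∧ y * j' = j' * y) →
    ∃ s : SM, j' = s * sj1 * s⁻¹ := by
  decide +kernel

set_option maxRecDepth 1000000 in
theorem m_inv_cent : ∀ b : SM, b ^ 2 = 1 → b ≠ 1 → ∃ j' : SM, sJ j' ∧ j' ≠ 1 ∧ j' * b = b * j' ∧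
    ∀ y : SM, y * b = b * y → y * j' = j' * y → y ^ 81 = 1 → (y = 1 ∨ y = j' ∨ y = j' ^ 2) := by
  decide +kernel

end Cfsg.Agent.Helper16
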